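import Cfsg.Agent.Lib.Cov.Canon

/-!
# How many conjugates are needed for a cyclic product
-/

set_option autoImplicit false

namespace Cfsg.Agent.Cov

open Matrix Module SLn Polynomial

variable {F : Type*} [Field F] {n m : ℕ}

theorem exists_cyc_eigen (h4 : Four F) (hn : 2 ≤ n) {x : Matrix (Fin n) (Fin n) F} (hx : x.det ≠ 0)
    {v ψ : Fin n → F} {c : F} (hψ : ψ ᵥ* x = c • ψ) (h1 : ψ ⬝ᵥ v = 1)
    (t : GF x.mulVecLin ⊤ (gen x.mulVecLin {v})) {κ : F} (hκ : κ ≠ 0) :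
    ∃ y, Cj κ x y ∧ IsCyc (x * y) := by
  obtain ⟨B, t1, t2⟩ := t.tf
  let H := LinearMap.ker (dotProductBilin F F ψ)
  let π : (Fin n → F) →ₗ[F] H := (LinearMap.id - (dotProductBilin F F ψ).smulRight v).codRestrict H
    fun w => by simp [H, h1]
  have hπ : ∀ w, (π w : Fin n → F) = w - (ψ ⬝ᵥ w) • v := fun _ => rfl
  have hc : Comp H.subtype π v := ⟨by rintro rfl; simp at h1, fun w => Subtype.ext (by
      rw [hπ, show ψ ⬝ᵥ H.subtype w = 0 from w.2]; simp), Subtype.ext (by rw [hπ, h1]; simp),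
    fun w => ⟨ψ ⬝ᵥ w, by simp [hπ]⟩⟩
  have hA : ∀ w, (π ∘ₗ x.mulVecLin ∘ₗ H.subtype) w = π (x.mulVecLin (H.subtype w)) := fun _ => rfl
  have t3 := t1.comp hc hA (gen_inv _ _) (mem_gen_self _ _)
  rw [hc.comap_gen_single hA, ← gen_insert_bot] at t3
  have t4 := TF.map (A := x.mulVecLin) (ι := H.subtype) (B := {p | p = 0 ∨ p + 1 ∈ B ∨ p + 1 = n})
    (fun w => by
      rw [hA, Submodule.subtype_apply, Submodule.subtype_apply, hπ, mulVecLin_apply,
        dotProduct_mulVec, hψ, smul_dotProduct, show ψ ⬝ᵥ w = 0 from w.2]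
      simp) hc.inj
    (TF.step _ v (Or.inr (Or.inr (by
      have := hc.finrank_eq (U := ⊤) Submodule.mem_top
      rw [finrank_fin, Submodule.comap_top, finrank_top] at this
      rw [Submodule.range_subtype]; exact this.symm))) (by
      rw [hc.eq_top (mem_gen_insert _ _)
        (eq_top_iff.2 fun w _ => le_gen_insert _ _ (LinearMap.mem_range_self _ w))]
      exact TF.top))
    (TF.step _ _ (Or.inl (finrank_bot _ _)) (t3.mono fun p hp => Or.inr (Or.inl hp)))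
  rw [Submodule.map_bot] at t4
  obtain ⟨y, c1, c2⟩ := exists_cyc_mul h4 hn hx hx t1 t4 (Set.disjoint_left.2 fun p hp => by
    have := t2 p hp
    have h2 := one_le_finrank_gen x.mulVecLin hc.ne
    rw [finrank_fin_fun] at this
    rintro (h | h | h)
    · omega
    · exact this.2.2 h
    · omega) hκ
  exact ⟨y, c1, v, c2⟩

theorem Core.two [Fintype F] (h : 4 ≤ Fintype.card F) (hm : 2 ≤ m) {y : Matrix (Fin m) (Fin m) F}
    (hy : y.det ≠ 0) (hc : Core y) {κ : F} (hκ : κ ≠ 0) : ∃ z, Cj κ y z ∧ IsCyc (y * z) := by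
  by_cases h1 : ∀ c, NE y c
  · exact exists_cyc_noEig h m (by omega) y h1 hκ
  simp only [NE, not_forall] at h1
  obtain ⟨c, e, h1, h2⟩ := h1
  obtain ⟨v, q1, -, q3⟩ := hc
  obtain ⟨ψ, p1, p2⟩ := exists_dot_of_notMem (LinearMap.range (y.mulVecLin - c • LinearMap.id))
    (y := v) (by rintro ⟨u, hu⟩; exact q1.ne h2 h1 u hu)
  refine exists_cyc_eigen (four_of_card h) hm hy (c := c) (funext fun i => ?_) p2 q3 hκ
  have := p1 _ ⟨Pi.single i 1, rfl⟩
  rw [LinearMap.sub_apply, mulVecLin_apply, dotProduct_sub, dotProduct_mulVec] at this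
  simpa [sub_eq_zero] using this

theorem bord_cons0 (η : F) (D : Matrix (Fin n) (Fin n) F) (w : Fin n → F) :
    (bord η 0 0 D).mulVecLin (cons0 w) = cons0 (D.mulVecLin w) := by
  simp [cons0_apply, bord_mulVec]

theorem bord_e0 (η : F) (D : Matrix (Fin n) (Fin n) F) :
    (bord η 0 0 D).mulVecLin (Pi.single 0 1) = η • Pi.single 0 1 := by
  rw [mulVecLin_apply, single_zero_eq_cons, bord_mulVec, smul_cons']; simp

theorem e0_disjoint :
    Disjoint (F ∙ (Pi.single 0 1 : Fin (n + 1) → F)) (LinearMap.range cons0) := by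
  refine (Submodule.disjoint_span_singleton_of_notMem ?_).symm
  rintro ⟨w, hw⟩
  simpa [cons0_apply] using congrFun hw 0

theorem e0_sup : (F ∙ (Pi.single 0 1 : Fin (n + 1) → F)) ⊔ LinearMap.range cons0 = ⊤ :=
  comp_tl.eq_top (Submodule.mem_sup_left (Submodule.mem_span_singleton_self _))
    (eq_top_iff.2 fun w _ => Submodule.mem_sup_right ⟨w, rfl⟩)

theorem finrank_e0 : finrank F (F ∙ (Pi.single 0 1 : Fin (n + 1) → F)) = 1 :=
  finrank_span_singleton (by simp)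

theorem TF.bord {D : Matrix (Fin n) (Fin n) F} {B B' : Set ℕ} {U : Submodule F (Fin n → F)}
    (t : TF D.mulVecLin B' U) (hU : Inv D.mulVecLin U) (η : F) (h0 : finrank F U ∈ B)
    (hB : ∀ q ∈ B', q + 1 ∈ B) : TF (bord η 0 0 D).mulVecLin B (U.map cons0) := by
  refine TF.step _ (Pi.single 0 1) (by rwa [finrank_map_inj comp_tl.inj]) ?_
  rw [gen_insert_eq_sup (hU.map (bord_cons0 η D)), gen_eigen (bord_e0 η D)]
  exact TF.push (bord_cons0 η D) comp_tl.inj (inv_span_eigen (bord_e0 η D)) e0_disjoint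
    (fun q hq => by rw [finrank_e0, add_comm]; exact hB q hq) (by rw [e0_sup]; exact TF.top) t

theorem tf_bord_last {D : Matrix (Fin n) (Fin n) F} (h : IsCyc D) (η : F) :
    TF (bord η 0 0 D).mulVecLin {0, n} ⊥ := by
  obtain ⟨v, hv⟩ := h
  simpa using TF.map (bord_cons0 η D) comp_tl.inj (B := {0, n}) (by
    simpa using TF.top.bord (B := {0, n}) (B' := ∅) (inv_top _) η (by simp) (by simp))
    (TF.cyc (by simp) hv)

theorem Core.one (h4 : Four F) (hm : 1 ≤ m) {y : Matrix (Fin m) (Fin m) F} {ε : F}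
    (hy : (bord ε 0 0 y).det ≠ 0) (hc : Core y) {κ : F} (hκ : κ ≠ 0) :
    ∃ z, Cj κ (bord ε 0 0 y) z ∧ IsCyc (bord ε 0 0 y * z) := by
  obtain ⟨v, -, q2, q3⟩ := hc
  have := (GF.step ⊥ v (by rwa [gen_insert_bot, finrank_bot]) (by rwa [gen_insert_bot])).push
    (bord_cons0 ε y) comp_tl.inj (inv_span_eigen (bord_e0 ε y)) e0_disjoint
  rw [Submodule.map_top, e0_sup, Submodule.map_bot, sup_bot_eq, ← gen_eigen (bord_e0 ε y)] at this
  refine exists_cyc_eigen h4 (by omega) hy (ψ := Pi.single 0 1) (c := ε) ?_ (by simp) this hκ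
  rw [single_zero_eq_cons, vecMul_bord, smul_cons']; simp

/-- a chain that avoids `0, 1, 2` or `0, 1, n - 1` -/
def SS (x : Matrix (Fin n) (Fin n) F) : Prop :=
  ∃ a, 3 ≤ finrank F (gen x.mulVecLin {a}) ∨ (2 ≤ finrank F (gen x.mulVecLin {a}) ∧
    finrank F (gen x.mulVecLin {a}) + 2 ≤ n ∧
    TF x.mulVecLin {p | 2 ≤ p ∧ p + 2 ≤ n} (gen x.mulVecLin {a}))

theorem Core.ss (hm : 3 ≤ m) {y : Matrix (Fin m) (Fin m) F} (hc : Core y) : SS y := by
  obtain ⟨v, -, q2, q3⟩ := hc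
  refine ⟨v, ?_⟩
  by_cases h : gen y.mulVecLin {v} = ⊤
  · exact Or.inl (by rwa [h, finrank_fin])
  obtain ⟨B, t1, t2⟩ := q3.tf
  simp only [finrank_fin_fun] at t2
  exact Or.inr ⟨q2, (t2 _ (t1.mem h)).2.1, t1.mono fun p hp => And.intro (q2.trans (t2 p hp).1) (t2 p hp).2.1⟩

theorem SS.bord {x : Matrix (Fin n) (Fin n) F} (h : SS x) (ε : F) : SS (bord ε 0 0 x) := by
  obtain ⟨a, h⟩ := h
  have e := gen_map (bord_cons0 ε x) {a}
  rw [Set.image_singleton] at e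
  refine ⟨cons0 a, ?_⟩
  rw [← e, finrank_map_inj comp_tl.inj]
  exact h.imp_right fun h => ⟨h.1, by omega, h.2.2.bord (gen_inv _ _) ε ⟨h.1, by omega⟩
    fun q hq => ⟨by have := hq.1; omega, by have := hq.2; omega⟩⟩

theorem SS.not_scalar {x : Matrix (Fin n) (Fin n) F} (h : SS x) (c : F) : x ≠ c • 1 := by
  rintro rfl
  obtain ⟨a, h⟩ := h
  rw [gen_eigen (c := c) (by simp [smul_mulVec])] at h
  have := finrank_span_le_card (R := F) ({a} : Set (Fin n → F))
  rw [Set.toFinset_singleton, Finset.card_singleton] at this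
  omega

/-- some product of `a` conjugates is cyclic -/
def Al (x : Matrix (Fin n) (Fin n) F) (a : ℕ) : Prop := ∃ A, PS x a A ∧ IsCyc A

theorem Al.of_two {x y : Matrix (Fin n) (Fin n) F} (h : Cj 1 x y) (hc : IsCyc (x * y)) : Al x 2 :=
  ⟨_, (PS.single (Cj.refl x)).snoc h, hc⟩

theorem Al.two_step (h4 : Four F) {y : Matrix (Fin n) (Fin n) F} {ε : F} (hε : ε ≠ 0)
    (hy : y.det ≠ 0) (hs : SS (bord ε 0 0 (bord ε 0 0 y))) {a : ℕ} (h : Al y a) :
    Al (bord ε 0 0 (bord ε 0 0 y)) (a + 1) := by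
  obtain ⟨C, h1, v, h2⟩ := h
  have h3 := (h1.bord ε).bord ε
  have hx : (bord ε 0 0 (bord ε 0 0 y)).det ≠ 0 := by simp [det_bord_col, hε, hy]
  have hT := h3.det ▸ pow_ne_zero a hx
  obtain ⟨b, hb⟩ := hs
  have key : ∀ BX BY, TF (bord ε 0 0 (bord ε 0 0 y)).mulVecLin BX (gen _ {b}) →
      TF (bord (ε ^ a) 0 0 (bord (ε ^ a) 0 0 C)).mulVecLin BY ⊥ → Disjoint BX BY →
      Al (bord ε 0 0 (bord ε 0 0 y)) (a + 1) := fun BX BY t1 t2 hd => by
    obtain ⟨Y, c1, c2⟩ := exists_cyc_mul h4 (by omega) hx hT t1 t2 hd one_ne_zero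
    exact ⟨_, PS.cons (Cj.refl _) (h3.target c1), b, c2⟩
  rcases hb with hb | ⟨-, -, hb⟩
  · refine key {p | 3 ≤ p} {p | p ≤ 2} (TF.of_ge fun p hp => hb.trans hp) ?_
      (Set.disjoint_left.2 fun p (h : 3 ≤ p) (h' : p ≤ 2) => by omega)
    have := (TF.cyc (B := {0}) rfl h2).bord (B := {p | p ≤ 1}) (inv_bot _) (ε ^ a) (by simp) (by simp)
    rw [Submodule.map_bot] at this
    simpa using this.bord (B := {p | p ≤ 2}) (inv_bot _) (ε ^ a) (by simp) (by simp)
  · refine key _ {p | p ≤ 1 ∨ p = n + 1} hb ?_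
      (Set.disjoint_left.2 fun p h (h' : p ≤ 1 ∨ p = n + 1) => by have := h.1; have := h.2; omega)
    simpa using (tf_bord_last ⟨v, h2⟩ (ε ^ a)).bord (B := {p | p ≤ 1 ∨ p = n + 1}) (inv_bot _)
      (ε ^ a) (by simp) (by simp)

theorem Al.succ (h4 : Four F) (hn : 3 ≤ n) {x : Matrix (Fin n) (Fin n) F} (hx : x.det ≠ 0)
    (hs : ∀ c : F, x ≠ c • 1) {a : ℕ} (h : Al x a) : Al x (a + 1) := by
  obtain ⟨n, rfl⟩ : ∃ k, n = k + 1 := ⟨n - 1, by omega⟩
  obtain ⟨A, h1, h2⟩ := h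
  obtain ⟨D, d1, d2, -⟩ := exists_st h4 (n := n) (by omega) (pow_ne_zero (a + 1) hx) one_ne_zero
    one_ne_zero
  exact ⟨_, ps_st h4 (by omega) hx hs h1 h2 d1 d2, d1.isCyc⟩

theorem Al.of_le (h4 : Four F) (hn : 3 ≤ n) {x : Matrix (Fin n) (Fin n) F} (hx : x.det ≠ 0)
    (hs : ∀ c : F, x ≠ c • 1) {a b : ℕ} (h : Al x a) (hb : a ≤ b) : Al x b := by
  induction b, hb using Nat.le_induction with
  | base => exact h
  | succ b _ ih => exact ih.succ h4 hn hx hs

variable {ε : F} {y : Matrix (Fin m) (Fin m) F} {x : Matrix (Fin n) (Fin n) F}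

theorem Pad.le (h : Pad ε y n x) : m ≤ n := by
  induction h with
  | base => exact le_rfl
  | step _ ih => omega

theorem Pad.det (h : Pad ε y n x) : x.det = ε ^ (n - m) * y.det := by
  induction h with
  | base => simp
  | step h ih => rw [det_bord_col, ih, Nat.succ_sub h.le, pow_succ', mul_assoc]

theorem Pad.ss (h : Pad ε y n x) (hy : SS y) : SS x := by
  induction h with
  | base => exact hy
  | step _ ih => exact ih.bord ε

theorem Pad.al (h4 : Four F) (hε : ε ≠ 0) (hy : y.det ≠ 0) (hs : SS y) {a b : ℕ} (h0 : Al y a)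
    (h1 : Al (bord ε 0 0 y) b) (h : Pad ε y n x) :
    Al x ((if (n - m) % 2 = 0 then a else b) + (n - m) / 2) := by
  suffices Al x ((if (n - m) % 2 = 0 then a else b) + (n - m) / 2) ∧
    Al (bord ε 0 0 x) ((if (n + 1 - m) % 2 = 0 then a else b) + (n + 1 - m) / 2) from this.1
  induction h with
  | base => simpa using ⟨h0, h1⟩
  | @step n x h ih =>
    have := h.le
    refine ⟨ih.2, ?_⟩
    rw [show (n + 1 + 1 - m) % 2 = (n - m) % 2 by omega,
      show (n + 1 + 1 - m) / 2 = (n - m) / 2 + 1 by omega]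
    exact ih.1.two_step h4 hε (h.det ▸ mul_ne_zero (pow_ne_zero _ hε) hy) (h.step.step.ss hs)

theorem Core.cyc_or (hc : Core y) : IsCyc y ∨ 4 ≤ m := by
  obtain ⟨v, -, q2, q3⟩ := hc
  by_cases h : gen y.mulVecLin {v} = ⊤
  · exact Or.inl ⟨v, h⟩
  obtain ⟨B, t1, t2⟩ := q3.tf
  have := (t2 _ (t1.mem h)).2.1
  rw [finrank_fin_fun] at this
  exact Or.inr (by omega)

theorem Pad.al_two [Fintype F] (hq : 4 ≤ Fintype.card F) (hm : 3 ≤ m) (hc : Core y) (hε : ε ≠ 0)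
    (hy : y.det ≠ 0) (h : Pad ε y n x) :
    Al x (2 + (n - m) / 2) ∧ (IsCyc y → (n - m) % 2 = 0 → Al x (1 + (n - m) / 2)) := by
  have h4 := four_of_card hq
  obtain ⟨z, z1, z2⟩ := hc.two hq (by omega) hy one_ne_zero
  obtain ⟨z', z3, z4⟩ := hc.one h4 (ε := ε) (by omega) (by simp [det_bord_col, hε, hy]) one_ne_zero
  refine ⟨by simpa using h.al h4 hε hy (hc.ss hm) (Al.of_two z1 z2) (Al.of_two z3 z4),
    fun h1 h2 => ?_⟩
  simpa [h2] using h.al h4 hε hy (hc.ss hm) ⟨_, PS.single (Cj.refl y), h1⟩ (Al.of_two z3 z4)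

/-- the bound in odd dimension -/
theorem Pad.al_odd [Fintype F] (hq : 4 ≤ Fintype.card F) (hm : 3 ≤ m) (hc : Core y) (hε : ε ≠ 0)
    (hy : y.det ≠ 0) {a : ℕ} {x : Matrix (Fin (2 * a + 1)) (Fin (2 * a + 1)) F}
    (h : Pad ε y (2 * a + 1) x) : Al x a := by
  have h1 := h.le
  have h2 := h.al_two hq hm hc hε hy
  have key : ∀ b, Al x b → b ≤ a → Al x a := fun b => Al.of_le (four_of_card hq) (by omega)
    (h.det ▸ mul_ne_zero (pow_ne_zero _ hε) hy) (h.ss (hc.ss hm)).not_scalar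
  by_cases h3 : m = 3
  · exact key _ (h2.2 (hc.cyc_or.resolve_right (by omega)) (by omega)) (by omega)
  · exact key _ h2.1 (by omega)

end Cfsg.Agent.Cov
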