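import Cfsg.Agent.Lib.SLn.RegLU
import Cfsg.Agent.Lib.SLn.HessComm

/-!
# Invariant subspaces generated by sets, chains of cyclic extensions
-/

set_option autoImplicit false

namespace Cfsg.Agent.Cov

open Matrix Module

variable {F : Type*} [Field F]

section Gen

variable {V W : Type*} [AddCommGroup V] [Module F V] [AddCommGroup W] [Module F W]

/-- invariant subspace -/
def Inv (A : V →ₗ[F] V) (S : Submodule F V) : Prop := ∀ w ∈ S, A w ∈ S

/-- the invariant subspace generated by a set -/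
def gen (A : V →ₗ[F] V) (s : Set V) : Submodule F V := sInf {S | Inv A S ∧ s ⊆ S}

variable {A : V →ₗ[F] V} {s t : Set V}

theorem gen_inv (A : V →ₗ[F] V) (s : Set V) : Inv A (gen A s) := fun w hw =>
  Submodule.mem_sInf.2 fun S hS => hS.1 w (Submodule.mem_sInf.1 hw S hS)

theorem mem_gen {v : V} (hv : v ∈ s) : v ∈ gen A s :=
  Submodule.mem_sInf.2 fun _ hS => hS.2 hv

theorem gen_le {S : Submodule F V} (hS : Inv A S) (h : s ⊆ S) : gen A s ≤ S :=
  sInf_le ⟨hS, h⟩

theorem gen_le_gen (h : s ⊆ gen A t) : gen A s ≤ gen A t := gen_le (gen_inv A t) h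

theorem gen_congr (h1 : s ⊆ gen A t) (h2 : t ⊆ gen A s) : gen A s = gen A t :=
  le_antisymm (gen_le_gen h1) (gen_le_gen h2)

theorem mem_gen_self (A : V →ₗ[F] V) (v : V) : v ∈ gen A {v} := mem_gen rfl

theorem gen_single_le {S : Submodule F V} (hS : Inv A S) {v : V} (h : v ∈ S) : gen A {v} ≤ S :=
  gen_le hS (Set.singleton_subset_iff.2 h)

theorem le_gen_insert (v : V) (U : Submodule F V) : U ≤ gen A (insert v U) :=
  fun _ hw => mem_gen (Or.inr hw)

theorem mem_gen_insert (v : V) (s : Set V) : v ∈ gen A (insert v s) := mem_gen (Or.inl rfl)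

theorem gen_insert_le {S U : Submodule F V} (hS : Inv A S) {v : V} (h : v ∈ S) (hU : U ≤ S) :
    gen A (insert v U) ≤ S := gen_le hS (Set.insert_subset h hU)

theorem inv_bot (A : V →ₗ[F] V) : Inv A ⊥ := fun w hw => by
  rw [(Submodule.mem_bot F).1 hw, map_zero]; exact Submodule.zero_mem _

theorem inv_top (A : V →ₗ[F] V) : Inv A ⊤ := fun _ _ => Submodule.mem_top

theorem Inv.sup {S T : Submodule F V} (hS : Inv A S) (hT : Inv A T) : Inv A (S ⊔ T) := by
  intro w hw
  obtain ⟨a, ha, b, hb, rfl⟩ := Submodule.mem_sup.1 hw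
  rw [map_add]
  exact Submodule.add_mem_sup (hS a ha) (hT b hb)

theorem Inv.inf {S T : Submodule F V} (hS : Inv A S) (hT : Inv A T) : Inv A (S ⊓ T) :=
  fun w hw => ⟨hS w hw.1, hT w hw.2⟩

theorem gen_zero (A : V →ₗ[F] V) : gen A {0} = ⊥ :=
  le_bot_iff.1 (gen_single_le (inv_bot A) (Submodule.zero_mem _))

theorem gen_insert_bot (A : V →ₗ[F] V) (v : V) :
    gen A (insert v ((⊥ : Submodule F V) : Set V)) = gen A {v} :=
  le_antisymm (gen_insert_le (gen_inv _ _) (mem_gen_self A v) bot_le)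
    (gen_single_le (gen_inv _ _) (mem_gen_insert _ _))

theorem gen_insert_eq_sup {U : Submodule F V} (hU : Inv A U) (v : V) :
    gen A (insert v U) = gen A {v} ⊔ U :=
  le_antisymm (gen_insert_le ((gen_inv _ _).sup hU) (Submodule.mem_sup_left (mem_gen_self A v))
    le_sup_right) (sup_le (gen_single_le (gen_inv _ _) (mem_gen_insert _ _)) (le_gen_insert _ _))

theorem inv_span_eigen {v : V} {c : F} (h : A v = c • v) : Inv A (F ∙ v) := by
  intro w hw
  obtain ⟨t, rfl⟩ := Submodule.mem_span_singleton.1 hw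
  rw [map_smul, h]
  exact Submodule.smul_mem _ _ (Submodule.smul_mem _ _ (Submodule.mem_span_singleton_self v))

theorem gen_eigen {v : V} {c : F} (h : A v = c • v) : gen A {v} = F ∙ v :=
  le_antisymm (gen_single_le (inv_span_eigen h) (Submodule.mem_span_singleton_self v))
    ((Submodule.span_singleton_le_iff_mem _ _).2 (mem_gen_self A v))

theorem gen_map {A' : W →ₗ[F] W} {ι : W →ₗ[F] V} (h : ∀ w, A (ι w) = ι (A' w)) (s : Set W) :
    (gen A' s).map ι = gen A (ι '' s) := by
  refine le_antisymm (Submodule.map_le_iff_le_comap.2 (gen_le ?_ ?_)) (gen_le ?_ ?_)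
  · intro w hw
    rw [Submodule.mem_comap, ← h]
    exact gen_inv _ _ _ hw
  · exact fun w hw => mem_gen ⟨w, hw, rfl⟩
  · rintro _ ⟨w, hw, rfl⟩
    exact ⟨_, gen_inv _ _ _ hw, (h w).symm⟩
  · rintro _ ⟨w, hw, rfl⟩
    exact ⟨w, mem_gen hw, rfl⟩

theorem Inv.exists_preimage [FiniteDimensional F V] {S : Submodule F V} {N : V →ₗ[F] V}
    (hS : Inv N S) (hN : ∀ w ∈ S, N w = 0 → w = 0) {v : V} (hv : v ∈ S) : ∃ w ∈ S, N w = v := by
  have h1 : Function.Injective (N.restrict hS) := by
    rw [injective_iff_map_eq_zero]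
    intro w hw
    exact Subtype.ext (hN w w.2 (congrArg Subtype.val hw))
  obtain ⟨w, hw⟩ := LinearMap.injective_iff_surjective.1 h1 ⟨v, hv⟩
  exact ⟨w, w.2, congrArg Subtype.val hw⟩

theorem gen_apply [FiniteDimensional F V] (hA : Function.Injective A) (v : V) :
    gen A {A v} = gen A {v} := by
  refine le_antisymm (gen_single_le (gen_inv _ _) (gen_inv _ _ _ (mem_gen_self A v)))
    (gen_single_le (gen_inv _ _) ?_)
  obtain ⟨w, hw, e⟩ := (gen_inv A {A v}).exists_preimage
    (fun w _ h => (injective_iff_map_eq_zero _).1 hA w h) (mem_gen_self A (A v))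
  exact hA e ▸ hw

theorem gen_smul {c : F} (hc : c ≠ 0) (v : V) : gen A {c • v} = gen A {v} :=
  le_antisymm (gen_single_le (gen_inv _ _) (Submodule.smul_mem _ _ (mem_gen_self A v)))
    (gen_single_le (gen_inv _ _) ((Submodule.smul_mem_iff _ hc).1 (mem_gen_self A _)))

/-- a hyperplane `ι W` with the projection `π` along `g` -/
structure Comp (ι : W →ₗ[F] V) (π : V →ₗ[F] W) (g : V) : Prop where
  ne : g ≠ 0
  left : ∀ w, π (ι w) = w
  zero : π g = 0
  dec : ∀ v, ∃ c : F, v = ι (π v) + c • g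

namespace Comp

variable {ι : W →ₗ[F] V} {π : V →ₗ[F] W} {g : V} (hc : Comp ι π g)
include hc

theorem proj_mem {S : Submodule F V} (hg : g ∈ S) {v : V} (hv : v ∈ S) : π v ∈ S.comap ι := by
  obtain ⟨c, e⟩ := hc.dec v
  rw [Submodule.mem_comap, eq_sub_of_add_eq e.symm]
  exact S.sub_mem hv (S.smul_mem _ hg)

theorem comap_gen {A' : W →ₗ[F] W} (hA : ∀ w, A' w = π (A (ι w))) (s : Set V) :
    (gen A (insert g s)).comap ι = gen A' (insert (π (A g)) (π '' s)) := by
  have hg : g ∈ gen A (insert g s) := mem_gen_insert _ _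
  refine le_antisymm ?_ (gen_le ?_ ?_)
  · have : gen A (insert g s) ≤ (gen A' (insert (π (A g)) (π '' s))).comap π := by
      refine gen_le ?_ ?_
      · intro v hv
        obtain ⟨c, e⟩ := hc.dec v
        rw [Submodule.mem_comap, e, map_add, map_add, map_smul, map_smul, ← hA]
        exact Submodule.add_mem _ (gen_inv _ _ _ hv) (Submodule.smul_mem _ _ (mem_gen_insert _ _))
      · rintro v (rfl | hv)
        · simp [hc.zero]
        · exact mem_gen (Or.inr ⟨v, hv, rfl⟩)
    intro w hw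
    have := this hw
    rwa [Submodule.mem_comap, hc.left] at this
  · intro w hw
    rw [hA]
    exact hc.proj_mem hg (gen_inv _ _ _ hw)
  · rintro _ (rfl | ⟨v, hv, rfl⟩)
    · exact hc.proj_mem hg (gen_inv _ _ _ hg)
    · exact hc.proj_mem hg (mem_gen (Or.inr hv))

theorem comap_gen_single {A' : W →ₗ[F] W} (hA : ∀ w, A' w = π (A (ι w))) :
    (gen A {g}).comap ι = gen A' {π (A g)} := by
  simpa using hc.comap_gen hA ∅

theorem inj : Function.Injective ι := fun a b h => by rw [← hc.left a, h, hc.left]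

theorem eq_sup {U : Submodule F V} (hg : g ∈ U) : U = (U.comap ι).map ι ⊔ (F ∙ g) := by
  refine le_antisymm (fun v hv => ?_) (sup_le (Submodule.map_comap_le _ _)
    ((Submodule.span_singleton_le_iff_mem _ _).2 hg))
  obtain ⟨c, e⟩ := hc.dec v
  rw [e]
  exact Submodule.add_mem_sup ⟨_, hc.proj_mem hg hv, rfl⟩
    (Submodule.smul_mem _ _ (Submodule.mem_span_singleton_self g))

theorem finrank_map_sup [FiniteDimensional F V] (U' : Submodule F W) :
    finrank F (U'.map ι ⊔ (F ∙ g) : Submodule F V) = finrank F U' + 1 := by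
  have h1 := Submodule.finrank_sup_add_finrank_inf_eq (U'.map ι) (F ∙ g)
  have h2 : U'.map ι ⊓ (F ∙ g) = ⊥ := by
    rw [eq_bot_iff]
    rintro _ ⟨⟨w, -, rfl⟩, hw⟩
    obtain ⟨c, e⟩ := Submodule.mem_span_singleton.1 hw
    have := congrArg π e
    rw [map_smul, hc.zero, smul_zero, hc.left] at this
    simp [← this]
  rw [h2, finrank_bot, add_zero, finrank_span_singleton hc.ne,
    ← (Submodule.equivMapOfInjective ι hc.inj U').finrank_eq] at h1
  exact h1

theorem finrank_eq [FiniteDimensional F V] {U : Submodule F V} (hg : g ∈ U) :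
    finrank F U = finrank F (U.comap ι) + 1 := by
  rw [← hc.finrank_map_sup, ← hc.eq_sup hg]

theorem comap_gen_insert {A' : W →ₗ[F] W} (hA : ∀ w, A' w = π (A (ι w))) {U : Submodule F V}
    (hU : Inv A U) (hg : g ∈ U) (v : V) :
    (gen A (insert v U)).comap ι = gen A' (insert (π v) (U.comap ι)) := by
  have : insert v (U : Set V) = insert g (insert v (U : Set V)) :=
    (Set.insert_eq_of_mem (Set.mem_insert_of_mem v hg)).symm
  rw [this, hc.comap_gen hA]
  refine gen_congr ?_ ?_
  · rintro _ (rfl | ⟨w, rfl | hw, rfl⟩)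
    · exact mem_gen (Or.inr (hc.proj_mem hg (hU _ hg)))
    · exact mem_gen_insert _ _
    · exact mem_gen (Or.inr (hc.proj_mem hg hw))
  · rintro w (rfl | hw)
    · exact mem_gen (Or.inr ⟨v, Or.inl rfl, rfl⟩)
    · exact mem_gen (Or.inr ⟨ι w, Or.inr hw, hc.left w⟩)

theorem eq_top {U : Submodule F V} (hg : g ∈ U) (h : U.comap ι = ⊤) : U = ⊤ := by
  refine eq_top_iff.2 fun v _ => ?_
  obtain ⟨c, e⟩ := hc.dec v
  rw [e]
  exact U.add_mem (show π v ∈ U.comap ι from h ▸ Submodule.mem_top) (U.smul_mem _ hg)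

end Comp

/-- chains of cyclic extensions from `U` to the whole space, dimensions in `B` -/
inductive TF (A : V →ₗ[F] V) (B : Set ℕ) : Submodule F V → Prop
  | top : TF A B ⊤
  | step (U : Submodule F V) (v : V) : finrank F U ∈ B → TF A B (gen A (insert v U)) → TF A B U

theorem TF.mono {B B' : Set ℕ} (h : B ⊆ B') {U : Submodule F V} (hU : TF A B U) : TF A B' U := by
  induction hU with
  | top => exact TF.top
  | step U v h1 _ ih => exact TF.step U v (h h1) ih

theorem TF.comp [FiniteDimensional F V] {ι : W →ₗ[F] V} {π : V →ₗ[F] W} {g : V} (hc : Comp ι π g)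
    {A' : W →ₗ[F] W} (hA : ∀ w, A' w = π (A (ι w))) {B : Set ℕ} {U : Submodule F V}
    (h : TF A B U) (hU : Inv A U) (hg : g ∈ U) : TF A' {p | p + 1 ∈ B} (U.comap ι) := by
  induction h with
  | top => exact TF.top
  | step U v h1 _ ih =>
    refine TF.step _ (π v) ?_ ?_
    · rwa [hc.finrank_eq hg] at h1
    · rw [← hc.comap_gen_insert hA hU hg]
      exact ih (gen_inv _ _) (le_gen_insert _ _ hg)

theorem TF.of_le [FiniteDimensional F V] {B : Set ℕ} {U T : Submodule F V} (hT : Inv A T)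
    (h : TF A B T) (hle : U ≤ T) (hB : ∀ p, finrank F U ≤ p → p < finrank F T → p ∈ B) :
    TF A B U := by
  generalize hk : finrank F T - finrank F U = k
  induction k using Nat.strong_induction_on generalizing U with
  | _ k ih =>
    rcases hle.eq_or_lt with rfl | hlt
    · exact h
    obtain ⟨v, hv, hv'⟩ := SetLike.exists_of_lt hlt
    have h1 : U < gen A (insert v U) :=
      (le_gen_insert v U).lt_of_ne fun e => hv' (e ▸ mem_gen_insert _ _)
    have h2 := Submodule.finrank_lt_finrank_of_lt h1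
    have h3 := Submodule.finrank_lt_finrank_of_lt hlt
    have h4 := gen_insert_le hT hv hle
    have h5 := Submodule.finrank_mono h4
    exact TF.step U v (hB _ le_rfl h3)
      (ih _ (by omega) h4 (fun p hp hp' => hB p (by omega) hp') rfl)

theorem TF.of_ge [FiniteDimensional F V] {B : Set ℕ} {U : Submodule F V}
    (hB : ∀ p, finrank F U ≤ p → p ∈ B) : TF A B U :=
  TF.of_le (inv_top A) TF.top le_top fun p hp _ => hB p hp

theorem TF.mem {B : Set ℕ} {U : Submodule F V} (h : TF A B U) (hU : U ≠ ⊤) : finrank F U ∈ B := by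
  cases h with
  | top => exact absurd rfl hU
  | step U v h1 _ => exact h1

theorem TF.exists_ne [Nontrivial V] {B : Set ℕ} (h : TF A B ⊥) :
    ∃ f, f ≠ 0 ∧ TF A B (gen A {f}) := by
  generalize hU : (⊥ : Submodule F V) = U at h
  induction h with
  | top => exact absurd hU bot_ne_top
  | step U v _ h2 ih =>
    subst hU
    rw [gen_insert_bot] at h2 ih
    by_cases hv : v = 0
    · exact ih (by rw [hv, gen_zero])
    · exact ⟨v, hv, h2⟩

theorem TF.equiv {A' : W →ₗ[F] W} (e : V ≃ₗ[F] W) (he : ∀ v, A' (e v) = e (A v)) {B : Set ℕ}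
    {U : Submodule F V} (h : TF A B U) : TF A' B (U.map (e : V →ₗ[F] W)) := by
  induction h with
  | top => rw [Submodule.map_top, LinearEquiv.range]; exact TF.top
  | step U v h1 _ ih =>
    refine TF.step _ (e v) (by rwa [LinearEquiv.finrank_map_eq]) ?_
    rw [gen_map (ι := (e : V →ₗ[F] W)) he, Set.image_insert_eq] at ih
    exact ih

theorem TF.cyc {B : Set ℕ} (h0 : 0 ∈ B) {v : V} (hv : gen A {v} = ⊤) : TF A B ⊥ :=
  TF.step _ v (by rwa [finrank_bot]) (by rw [gen_insert_bot, hv]; exact TF.top)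

theorem two_le_finrank_gen [FiniteDimensional F V] {v : V} (hv : ∀ c : F, A v ≠ c • v) :
    2 ≤ finrank F (gen A {v}) := by
  have h0 : v ≠ 0 := by rintro rfl; exact hv 0 (by simp)
  have h1 : (F ∙ v) < gen A {v} := by
    refine ((Submodule.span_singleton_le_iff_mem _ _).2 (mem_gen_self A v)).lt_of_ne fun e => ?_
    have := gen_inv A {v} v (mem_gen_self A v)
    rw [← e] at this
    obtain ⟨c, hc⟩ := Submodule.mem_span_singleton.1 this
    exact hv c hc.symm
  have := Submodule.finrank_lt_finrank_of_lt h1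
  rwa [finrank_span_singleton h0] at this

/-- the vectors of a cyclic subspace that `A - c` sends into the line of the generator -/
theorem exists_line [FiniteDimensional F V] [Nontrivial V] (A : V →ₗ[F] V) (e : V) (c : F) :
    ∃ w₁, w₁ ≠ 0 ∧ ∀ w ∈ gen A {e}, ∀ t : F, A w - c • w = t • e → ∃ s : F, w = s • w₁ := by
  set Z := gen A {e}
  have hZ : Inv A Z := gen_inv _ _
  have he : e ∈ Z := mem_gen_self A e
  let N : Z →ₗ[F] Z := A.restrict hZ - c • LinearMap.id
  have hN : ∀ z : Z, (N z : V) = A z - c • (z : V) := fun z => rfl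
  let M : Z × F →ₗ[F] Z := N.coprod (LinearMap.toSpanSingleton F Z ⟨e, he⟩)
  have hM : LinearMap.range M = ⊤ := by
    have : Z ≤ (LinearMap.range M).map Z.subtype := by
      refine gen_single_le ?_ ⟨⟨e, he⟩, ⟨(0, 1), by simp [M]⟩, rfl⟩
      rintro _ ⟨z, hz, rfl⟩
      refine ⟨N z + c • z, Submodule.add_mem _ ⟨(z, 0), by simp [M]⟩
        (Submodule.smul_mem _ _ hz), ?_⟩
      simp [hN]
    refine eq_top_iff.2 fun z _ => ?_
    obtain ⟨y, hy, e⟩ := this z.2
    rwa [← show y = z from Subtype.ext e]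
  have h1 := M.finrank_range_add_finrank_ker
  rw [hM, finrank_top, finrank_prod, finrank_self] at h1
  have h2 : finrank F (LinearMap.ker M) ≤ 1 := by omega
  obtain ⟨u, hu⟩ := finrank_le_one_iff.1 h2
  have key : ∀ w ∈ Z, ∀ t : F, A w - c • w = t • e → ∃ s : F, w = s • (u.1.1 : V) := by
    intro w hw t h
    obtain ⟨s, hs⟩ := hu ⟨(⟨w, hw⟩, -t), by
      rw [LinearMap.mem_ker]
      apply Subtype.ext
      simp [M, hN, h]⟩
    exact ⟨s, (congrArg (fun z : LinearMap.ker M => (z.1.1 : V)) hs).symm⟩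
  by_cases h0 : (u.1.1 : V) = 0
  · obtain ⟨w₁, hw⟩ := exists_ne (0 : V)
    refine ⟨w₁, hw, fun w hw t h => ⟨0, ?_⟩⟩
    obtain ⟨s, rfl⟩ := key w hw t h
    simp [h0]
  · exact ⟨_, h0, key⟩

end Gen

end Cfsg.Agent.Cov
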