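import Cfsg.Agent.Lib.Cov.Flag

/-!
# Splitting off the invariant factors of degree one
-/

set_option autoImplicit false

namespace Cfsg.Agent.Cov

open Matrix Module SLn Polynomial

variable {F : Type*} [Field F] {n m : ℕ}

theorem dec (n : ℕ) (x : Matrix (Fin n) (Fin n) F) : ∃ (ε : F) (V : Submodule F (Fin n → F)),
    Inv x.mulVecLin V ∧ (∀ w, ∃ a ∈ V, x *ᵥ (w - a) = ε • (w - a)) ∧ (V = ⊥ ∨ ∃ v, Max x v ∧
      2 ≤ finrank F (gen x.mulVecLin {v}) ∧ GF x.mulVecLin V (gen x.mulVecLin {v})) := by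
  induction n using Nat.strong_induction_on with
  | _ n ih =>
  obtain ⟨v, hv⟩ := exists_max x
  by_cases h : ∃ c : F, x *ᵥ v = c • v
  · obtain ⟨c, hc⟩ := h
    have := hv (X - C c) (by simp [sub_mulVec, Algebra.algebraMap_eq_smul_one, smul_mulVec, hc])
    rw [map_sub, aeval_X, aeval_C, sub_eq_zero, Algebra.algebraMap_eq_smul_one] at this
    exact ⟨c, ⊥, inv_bot _, fun w => ⟨0, Submodule.zero_mem _, by
      rw [this, smul_mulVec, one_mulVec]⟩, Or.inl rfl⟩
  push Not at h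
  have hs := two_le_finrank_gen (A := x.mulVecLin) h
  obtain ⟨W, hW, hc⟩ := hv.exists_compl
  have h1 := Submodule.finrank_add_eq_of_isCompl hc
  rw [finrank_fin_fun] at h1
  obtain ⟨z, ι, hi, hr, e⟩ := exists_restrict x hW rfl
  obtain ⟨ε, V, p1, p2, p3⟩ := ih _ (by omega) z
  refine ⟨ε, gen x.mulVecLin {v} ⊔ V.map ι, (gen_inv _ _).sup (p1.map e), fun w => ?_,
    Or.inr ⟨v, hv, hs, ?_⟩⟩
  · obtain ⟨a, ha, b, hb, rfl⟩ := Submodule.mem_sup.1 (show w ∈ _ from
      hc.sup_eq_top ▸ Submodule.mem_top)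
    rw [← hr] at hb
    obtain ⟨b, rfl⟩ := hb
    obtain ⟨c, q1, q2⟩ := p2 b
    refine ⟨a + ι c, Submodule.add_mem_sup ha ⟨c, q1, rfl⟩, ?_⟩
    rw [add_sub_add_left_eq_sub, ← map_sub, ← map_smul, ← q2]
    exact e _
  · have : GF z.mulVecLin V ⊥ := by
      rcases p3 with rfl | ⟨u, -, q1, q2⟩
      · exact GF.base
      · exact GF.step _ u (by rwa [gen_insert_bot, finrank_bot]) (by rwa [gen_insert_bot])
    simpa using this.push e hi (gen_inv _ {v}) (by rw [hr]; exact hc.disjoint)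

/-- `x` is `y` with some diagonal entries `ε` in front -/
inductive Pad (ε : F) (y : Matrix (Fin m) (Fin m) F) : (n : ℕ) → Matrix (Fin n) (Fin n) F → Prop
  | base : Pad ε y m y
  | step {n : ℕ} {x : Matrix (Fin n) (Fin n) F} : Pad ε y n x → Pad ε y (n + 1) (bord ε 0 0 x)

theorem pad_extend {ε : F} {x : Matrix (Fin n) (Fin n) F} {y : Matrix (Fin m) (Fin m) F} (d : ℕ) :
    ∀ (k : ℕ) (z : Matrix (Fin k) (Fin k) F) (ι : (Fin k → F) →ₗ[F] (Fin n → F)), k + d = n →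
      Pad ε y k z → Function.Injective ι → (∀ w, x *ᵥ ι w = ι (z *ᵥ w)) →
      (∀ w, ∃ a, x *ᵥ (w - ι a) = ε • (w - ι a)) → ∃ x' κ, Pad ε y n x' ∧ κ ≠ 0 ∧ Cj κ x' x := by
  induction d with
  | zero =>
    rintro k z ι rfl h1 h2 h3 -
    refine ⟨z, _, h1, ?_, LinearMap.toMatrix' ι, rfl, ?_⟩
    · rw [Ne, ← exists_mulVec_eq_zero_iff]
      rintro ⟨v, hv, e⟩
      exact hv (h2 (by rwa [LinearMap.toMatrix'_mulVec, ← map_zero ι] at e))
    · exact ext_of_mulVec_single fun i => by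
        rw [← mulVec_mulVec, ← mulVec_mulVec, LinearMap.toMatrix'_mulVec,
          LinearMap.toMatrix'_mulVec, h3]
  | succ d ih =>
    intro k z ι hk h1 h2 h3 h4
    obtain ⟨w, hw⟩ := exists_notMem_of_finrank_lt (LinearMap.range ι) (by
      rw [LinearMap.finrank_range_of_inj h2]; simp; omega)
    obtain ⟨a, ha⟩ := h4 w
    have he : w - ι a ∉ LinearMap.range ι := fun h => hw (by
      simpa using Submodule.add_mem _ h (LinearMap.mem_range_self ι a))
    generalize w - ι a = e at ha he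
    let j : (Fin (k + 1) → F) →ₗ[F] (Fin n → F) := ι ∘ₗ tl + (LinearMap.proj 0).smulRight e
    have hj : ∀ c u, j (Fin.cons c u) = ι u + c • e := fun _ _ => rfl
    refine ih (k + 1) _ j (by omega) h1.step ((injective_iff_map_eq_zero _).2 fun u hu => ?_)
      (fun u => ?_) fun u => ?_
    · rw [← cons_tl u, hj] at hu
      have h5 : u 0 = 0 := by
        by_contra h0
        exact he ((Submodule.smul_mem_iff _ h0).1 ⟨-tl u, by
          rw [map_neg, neg_eq_iff_add_eq_zero, hu]⟩)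
      rw [h5, zero_smul, add_zero, map_eq_zero_iff _ h2] at hu
      rw [← cons_tl u, h5, hu, cons_zero_zero]
    · rw [← cons_tl u, bord_mulVec, hj, hj, mulVec_add, mulVec_smul, ha, h3, smul_smul, mul_comm]
      simp
    · obtain ⟨b, hb⟩ := h4 u
      exact ⟨Fin.cons 0 b, by rwa [hj, zero_smul, add_zero]⟩

/-- no invariant factor of degree one -/
def Core (y : Matrix (Fin m) (Fin m) F) : Prop :=
  ∃ v, Max y v ∧ 2 ≤ finrank F (gen y.mulVecLin {v}) ∧ GF y.mulVecLin ⊤ (gen y.mulVecLin {v})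

theorem canon (hn : 3 ≤ n) {x : Matrix (Fin n) (Fin n) F} (h : ∀ l : F, R2 (x - l • 1)) :
    ∃ (ε : F) (m : ℕ) (y : Matrix (Fin m) (Fin m) F) (x' : Matrix (Fin n) (Fin n) F) (κ : F),
      3 ≤ m ∧ Core y ∧ Pad ε y n x' ∧ κ ≠ 0 ∧ Cj κ x' x := by
  obtain ⟨ε, V, p1, p2, p3⟩ := dec n x
  have h1 : ∀ u, ∃ a ∈ V, (x - ε • 1) *ᵥ u = x *ᵥ a - ε • a := fun u => by
    obtain ⟨a, ha, e⟩ := p2 u
    refine ⟨a, ha, ?_⟩
    rw [mulVec_sub, smul_sub] at e
    rw [sub_mulVec, smul_mulVec, one_mulVec]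
    linear_combination (exp := 1) e
  rcases p3 with rfl | ⟨v, q1, q2, q3⟩
  · obtain ⟨u, hu⟩ := h ε 0
    obtain ⟨a, rfl, e⟩ := h1 u
    exact absurd (by simpa using e) (hu 0)
  have hv : v ∈ V := q3.le (mem_gen_self _ _)
  have h3 : 3 ≤ finrank F V := by
    by_contra h3
    obtain ⟨w, hw⟩ := exists_notMem_of_finrank_lt V (by simp; omega)
    obtain ⟨a, ha, e⟩ := p2 w
    let S := V.map (x.mulVecLin - ε • LinearMap.id)
    have h4 : S < V := lt_of_le_of_ne (by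
      rintro _ ⟨b, hb, rfl⟩
      exact V.sub_mem (p1 b hb) (V.smul_mem _ hb)) fun e' => by
        obtain ⟨b, -, hb⟩ : v ∈ S := e' ▸ hv
        exact q1.ne (fun h0 => hw (by rwa [sub_eq_zero.1 h0])) e b hb
    obtain ⟨w₀, h5⟩ := finrank_le_one_iff.1
      (show finrank F S ≤ 1 by have := Submodule.finrank_lt_finrank_of_lt h4; omega)
    obtain ⟨u, hu⟩ := h ε w₀
    obtain ⟨b, hb, e'⟩ := h1 u
    obtain ⟨t, ht⟩ := h5 ⟨_, b, hb, rfl⟩
    exact hu t (e'.trans (congrArg Subtype.val ht).symm)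
  have h4 : finrank F V ≤ n := by simpa using Submodule.finrank_le V
  generalize hm : finrank F V = m at h3 h4
  obtain ⟨y, ι, hi, rfl, e⟩ := exists_restrict x p1 hm
  obtain ⟨v, rfl⟩ := hv
  have e1 := gen_map e {v}
  rw [Set.image_singleton] at e1
  have e2 : ∀ (p : F[X]) w, aeval x p *ᵥ ι w = ι (aeval y p *ᵥ w) := fun p w => by
    have := aeval_intertwine (A := x) (B := y) (g := LinearMap.toMatrix' ι)
      (ext_of_mulVec_single fun i => by
        rw [← mulVec_mulVec, ← mulVec_mulVec, LinearMap.toMatrix'_mulVec,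
          LinearMap.toMatrix'_mulVec]; exact e _) p
    rw [← LinearMap.toMatrix'_mulVec, ← LinearMap.toMatrix'_mulVec, mulVec_mulVec, this,
      mulVec_mulVec]
  obtain ⟨x', κ, r⟩ := pad_extend (x := x) (y := y) (ε := ε) _ _ y ι
    (Nat.add_sub_cancel' h4) Pad.base hi e
    fun w => by
      obtain ⟨_, ⟨a, rfl⟩, e⟩ := p2 w
      exact ⟨a, e⟩
  refine ⟨ε, _, y, x', κ, h3, ⟨v, fun p hp => ext_of_mulVec_single fun i => hi ?_,
    by rwa [← e1, finrank_map_inj hi] at q2, ?_⟩, r⟩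
  · rw [← e2, q1 p (by rw [e2, hp, map_zero]), zero_mulVec, zero_mulVec, map_zero]
  · have := q3.comap e hi
    rwa [← e1, Submodule.comap_map_eq_of_injective hi] at this

end Cfsg.Agent.Cov
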