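import Cfsg.Agent.Lib.Cov.Mat

/-!
# Products of transvections and of homologies
-/

set_option autoImplicit false

namespace Cfsg.Agent.Cov

open Matrix Module SLn

variable {F : Type*} [Field F] {n : ℕ}

/-- every non-scalar matrix of determinant one is a product of `k` conjugates -/
def NS (x : Matrix (Fin n) (Fin n) F) (k : ℕ) : Prop :=
  ∀ P : Matrix (Fin n) (Fin n) F, P.det = 1 → (∀ c : F, P ≠ c • 1) → PS x k P

/-- some scalar matrix is a product of `k` conjugates -/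
def SC (x : Matrix (Fin n) (Fin n) F) (k : ℕ) : Prop := ∃ c : F, PS x k (c • 1)

theorem cj_of_pair {v φ v' φ' : Fin n → F} {g : Matrix (Fin n) (Fin n) F} (hg : g.det = 1)
    (h1 : g *ᵥ v = v') (h2 : φ' ᵥ* g = φ) : Cj 1 (1 + vecMulVec v φ) (1 + vecMulVec v' φ') :=
  ⟨g, hg, by rw [mul_add, add_mul, mul_vecMulVec, vecMulVec_mul, h1, h2, mul_one, one_mul]⟩

theorem inv_not_scalar {x : Matrix (Fin n) (Fin n) F} (hx : x.det ≠ 0) (hs : ∀ c : F, x ≠ c • 1)
    (c : F) : x⁻¹ ≠ c • 1 := by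
  intro e
  have h1 := mul_inv_det hx
  rw [e, mul_smul_comm, mul_one] at h1
  by_cases hc : c = 0
  · rw [hc, zero_smul] at h1
    exact hs 0 (by rw [← mul_one x, ← h1, mul_zero, zero_smul])
  · exact hs c⁻¹ (by rw [← h1, smul_smul, inv_mul_cancel₀ hc, one_smul])

theorem NS.succ {x : Matrix (Fin n) (Fin n) F} (hx : x.det = 1) (hs : ∀ c : F, x ≠ c • 1) {k : ℕ}
    (h : NS x k) : NS x (k + 1) ∧ SC x (k + 1) := by
  have hx0 : x.det ≠ 0 := by rw [hx]; exact one_ne_zero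
  have key : ∀ P y : Matrix (Fin n) (Fin n) F, P.det = 1 → Cj 1 x y → (∀ c : F, P ≠ c • y) →
      PS x (k + 1) P := by
    intro P y hP c1 hne
    have hy : y.det = 1 := c1.det_eq one_ne_zero ▸ hx
    have hy0 : y.det ≠ 0 := by rw [hy]; exact one_ne_zero
    have := PS.snoc (h (P * y⁻¹) (by rw [det_mul, det_inv', hP, hy]; simp) fun c e => hne c (by
      rw [← one_mul y, ← smul_mul_assoc, ← e, mul_assoc, inv_mul_det hy0, mul_one])) c1
    rwa [mul_assoc, inv_mul_det hy0, mul_one] at this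
  refine ⟨fun P hP hP' => ?_, 1, key _ x (by simp) (Cj.refl x) fun c e => ?_⟩
  · by_cases h1 : ∀ c : F, P ≠ c • x
    · exact key P x hP (Cj.refl x) h1
    push Not at h1
    obtain ⟨c, rfl⟩ := h1
    obtain ⟨v, hv⟩ := exists_not_eigen hs
    obtain ⟨ρ, r1, r2⟩ := exists_dot_single hv
    have hv0 : v ≠ 0 := by rintro rfl; exact hv 0 (by simp)
    have hg : (tv v ρ r1).1.det ≠ 0 := by rw [(tv v ρ r1).2]; exact one_ne_zero
    refine key _ _ hP ⟨_, (tv v ρ r1).2, intertwine_conj hg x⟩ fun d e => ?_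
    have h2 := congrArg (· *ᵥ ((tv v ρ r1).1 *ᵥ v)) e
    simp only [smul_mulVec, ← mulVec_mulVec, inv_mulVec_cancel hg] at h2
    rw [tv_mulVec, tv_mulVec, r1, r2, zero_smul, add_zero, one_smul] at h2
    have h3 := indep_pair hv0 hv (a := d) (b := d - c) (by
      rw [sub_smul, h2, smul_add]; abel)
    have hc : c = 0 := by rw [← sub_eq_zero.1 h3.2, h3.1]
    exact hP' 0 (by rw [hc, zero_smul, zero_smul])
  · by_cases hc : c = 0
    · rw [hc, zero_smul, one_smul] at e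
      exact hs 0 (by rw [← mul_one x, e, mul_zero, zero_smul])
    · exact hs c⁻¹ (by rw [← one_smul F 1, e, smul_smul, inv_mul_cancel₀ hc, one_smul])

theorem NS.of_le {x : Matrix (Fin n) (Fin n) F} (hx : x.det = 1) (hs : ∀ c : F, x ≠ c • 1) {k l : ℕ}
    (h : NS x k) (hl : k ≤ l) : NS x l := by
  induction l, hl using Nat.le_induction with
  | base => exact h
  | succ l _ ih => exact (ih.succ hx hs).1

theorem NS.of_lt {x : Matrix (Fin n) (Fin n) F} (hx : x.det = 1) (hs : ∀ c : F, x ≠ c • 1) {k l : ℕ}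
    (h : NS x k) (hl : k < l) : NS x l ∧ SC x l := by
  obtain ⟨l, rfl⟩ : ∃ j, l = j + 1 := ⟨l - 1, by omega⟩
  exact (h.of_le hx hs (by omega)).succ hx hs

theorem cj_rank_one (hn : 3 ≤ n) {v φ v' φ' : Fin n → F} (hv : v ≠ 0) (hφ : φ ≠ 0) (hv' : v' ≠ 0)
    (hφ' : φ' ≠ 0) (h : φ ⬝ᵥ v = φ' ⬝ᵥ v') : Cj 1 (1 + vecMulVec v φ) (1 + vecMulVec v' φ') := by
  obtain ⟨m, rfl⟩ : ∃ m, n = m + 1 := ⟨n - 1, by omega⟩
  by_cases h0 : φ' ⬝ᵥ v' = 0
  · have key : ∀ v φ : Fin (m + 1) → F, v ≠ 0 → φ ≠ 0 → φ ⬝ᵥ v = 0 → ∃ ψ : Fin m → F, ψ ≠ 0 ∧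
        Cj 1 (1 + vecMulVec (Pi.single 0 1) (Fin.cons 0 ψ)) (1 + vecMulVec v φ) := by
      intro v φ hv hφ h
      obtain ⟨g, rfl⟩ := exists_SL_mulVec (ι := Fin (m + 1)) (by simp; omega) (v := Pi.single 0 1)
        (by simp) hv
      have h1 : (φ ᵥ* g.1) 0 = 0 := by rw [dotProduct_mulVec] at h; simpa using h
      have h2 : φ ᵥ* g.1 = Fin.cons 0 (tl (φ ᵥ* g.1)) := by rw [← h1, cons_tl]
      refine ⟨tl (φ ᵥ* g.1), fun e => hφ ?_, cj_of_pair g.2 rfl h2⟩
      rw [e, cons_zero_zero] at h2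
      rw [← vecMul_one φ, ← coe_mul_inv g, ← vecMul_vecMul, h2, zero_vecMul]
    obtain ⟨ψ, p1, p2⟩ := key v φ hv hφ (h.trans h0)
    obtain ⟨ψ', q1, q2⟩ := key v' φ' hv' hφ' h0
    obtain ⟨g, hg⟩ := exists_SL_mulVec (ι := Fin m) (by simp; omega) q1 p1
    refine p2.symm_one.trans_one (Cj.trans_one (cj_of_pair (g := bord 1 0 0 g.1ᵀ)
      (by rw [det_bord_col, det_transpose, g.2, one_mul]) ?_ ?_) q2)
    · rw [single_zero_eq_cons, bord_mulVec]; simp
    · rw [vecMul_bord, vecMul_transpose, hg]; simp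
  · have key : ∀ v φ : Fin (m + 1) → F, φ ⬝ᵥ v ≠ 0 →
        Cj 1 (1 + vecMulVec (Pi.single 0 1) ((φ ⬝ᵥ v) • Pi.single 0 1)) (1 + vecMulVec v φ) := by
      intro v φ h
      obtain ⟨g, g1, g2⟩ := exists_SL_pair (n := m) (by omega) (v := v) (φ := (φ ⬝ᵥ v)⁻¹ • φ)
        (by rw [smul_dotProduct, smul_eq_mul, inv_mul_cancel₀ h])
      refine cj_of_pair g.2 g1 ?_
      rw [← g2, smul_vecMul, smul_smul, mul_inv_cancel₀ h, one_smul]
    have := key v φ (h ▸ h0)
    rw [h] at this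
    exact this.symm_one.trans_one (key v' φ' h0)

theorem ps_rows {x M : Matrix (Fin n) (Fin n) F}
    (hM : ∀ i, Cj 1 x (1 + vecMulVec (Pi.single i 1) (M i))) :
    ∃ Q, PS x n Q ∧ (1 - of fun i j => if i < j then M i j else 0) * Q =
      (1 - of fun i j => if i < j then M i j else 0) + M := by
  let N : ℕ → Matrix (Fin n) (Fin n) F := fun k => of fun i j => if i < j ∧ j.val < k then M i j else 0
  let R : ℕ → Matrix (Fin n) (Fin n) F := fun k => of fun i j => if i.val < k then M i j else 0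
  have key : ∀ k ≤ n, ∃ Q, PS x k Q ∧ (1 - N k) * Q = 1 - N k + R k ∧
      ∀ i : Fin n, k ≤ i.val → Pi.single i 1 ᵥ* Q = Pi.single i 1 := by
    intro k hk
    induction k with
    | zero =>
      refine ⟨1, PK.zero, ?_, fun i _ => vecMul_one _⟩
      rw [mul_one, left_eq_add]; ext i j; simp [R]
    | succ k ih =>
      obtain ⟨Q, q1, q2, q3⟩ := ih (by omega)
      let i₀ : Fin n := ⟨k, hk⟩
      have e1 : N (k + 1) = N k + vecMulVec (R k *ᵥ Pi.single i₀ 1) (Pi.single i₀ 1) := by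
        ext i j
        by_cases hj : j = i₀
        · subst hj
          have : i < i₀ ↔ i.val < k := Iff.rfl
          simp [N, R, vecMulVec_apply, this, show (i₀ : ℕ) = k from rfl]
        · have : j.val ≠ k := fun e => hj (Fin.ext e)
          simp [N, vecMulVec_apply, hj, show j.val ≤ k ↔ j.val < k by omega]
      have e2 : R (k + 1) = R k + vecMulVec (Pi.single i₀ 1) (M i₀) := by
        ext i j
        by_cases hi : i = i₀
        · subst hi; simp [R, vecMulVec_apply, i₀]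
        · have : i.val ≠ k := fun e => hi (Fin.ext e)
          simp [R, vecMulVec_apply, hi, show i.val ≤ k ↔ i.val < k by omega]
      have e3 : N k *ᵥ Pi.single i₀ 1 = 0 := by ext i; simp [N, i₀]
      refine ⟨_, PS.snoc q1 (hM i₀), ?_, fun i hi => ?_⟩
      · rw [← mul_assoc, e1, e2, ← sub_sub, sub_mul, q2, vecMulVec_mul, q3 i₀ le_rfl, mul_add,
          mul_one, mul_vecMulVec, sub_mulVec, add_mulVec, sub_mulVec, e3, one_mulVec,
          vecMulVec_mulVec]
        simp only [single_dotProduct, Pi.single_eq_same, mul_one, MulOpposite.op_one, one_smul,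
          sub_zero, add_sub_cancel_right]
        abel
      · rw [← vecMul_vecMul, q3 i (by omega), vecMul_add, vecMul_one, vecMul_vecMulVec,
          single_dotProduct, Pi.single_eq_of_ne (by intro e; simp [e, i₀] at hi)]
        simp
  obtain ⟨Q, q1, q2, -⟩ := key n le_rfl
  refine ⟨Q, q1, ?_⟩
  have e1 : N n = of fun i j => if i < j then M i j else 0 := by ext i j; simp [N]
  have e2 : R n = M := by ext i j; simp [R]
  rwa [e1, e2] at q2

theorem ps_UL (hn : 3 ≤ n) {v φ : Fin n → F} (hv : v ≠ 0) (hφ : φ ≠ 0) {A : Matrix (Fin n) (Fin n) F}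
    {g : SpecialLinearGroup (Fin n) F} {L U : Matrix (Fin n) (Fin n) F}
    (h : IsLU A (fun _ => 1 + φ ⬝ᵥ v) (fun _ => 1) g L U) (hL : A.det ≠ 0)
    (hr : φ ⬝ᵥ v ≠ 0 ∨ ∀ i j : Fin n, i.val = j.val + 1 → L i j ≠ 0 ∧ U j i ≠ 0) :
    PS (1 + vecMulVec v φ) n A := by
  have hU : U.BlockTriangular id := fun i j hij => h.upper i j hij
  have hd : U.det = 1 := by rw [det_of_upperTriangular hU]; simp [h.dU]
  have hd0 : U.det ≠ 0 := by rw [hd]; exact one_ne_zero
  letI := invertibleOfIsUnitDet U (Ne.isUnit hd0)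
  have hV : U⁻¹.BlockTriangular id := blockTriangular_inv_of_blockTriangular hU
  have hV1 : ∀ i, U⁻¹ i i = 1 := fun i => by
    have := congrFun (congrFun (mul_inv_det hd0) i) i
    rw [mul_apply, Finset.sum_eq_single i, h.dU, one_mul, one_apply_eq] at this
    · exact this
    · intro j _ hj
      rcases lt_or_gt_of_ne hj with h1 | h1
      · rw [hU h1, zero_mul]
      · rw [hV h1, mul_zero]
    · simp
  obtain ⟨Q, q1, q2⟩ := ps_rows (x := 1 + vecMulVec v φ) (M := 1 - U⁻¹ + (L - 1)) fun i => by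
    have h1 : (1 - U⁻¹ + (L - 1)) i i = φ ⬝ᵥ v := by simp [hV1, h.dL]
    refine cj_rank_one hn hv hφ (by simp) (fun e => ?_) (by rw [← h1]; simp)
    rcases hr with hr | hr
    · exact hr (by rw [← h1, e]; rfl)
    rcases Nat.eq_zero_or_pos i.val with h0 | h0
    · have h2 : Pi.single i 1 ᵥ* U⁻¹ = (φ ⬝ᵥ v + 1) • Pi.single i 1 := by
        ext j
        have := congrFun e j
        by_cases hj : j = i
        · subst hj
          rw [h1] at this
          simp [hV1, show φ ⬝ᵥ v = 0 from this]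
        · have h3 : i < j := by
            rw [Fin.lt_def]; have := Fin.val_ne_of_ne hj; omega
          simpa [hj, h.lower i j h3, h3.ne] using this
      have h3 := congrArg (· ᵥ* U) h2
      simp only [vecMul_vecMul, inv_mul_det hd0, vecMul_one, smul_vecMul] at h3
      have h5 := congrFun h3 ⟨1, by omega⟩
      have h6 : φ ⬝ᵥ v = 0 := by rw [← h1, e]; rfl
      rw [Pi.single_eq_of_ne (by intro e; simp [← e] at h0)] at h5
      exact (hr ⟨1, by omega⟩ i (by simp [h0])).2 (by simpa [h6] using h5.symm)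
    · have := congrFun e ⟨i - 1, by omega⟩
      have h3 : (⟨i - 1, by omega⟩ : Fin n) < i := by rw [Fin.lt_def]; simp; omega
      exact (hr i ⟨i - 1, by omega⟩ (by simp; omega)).1 (by simpa [hV h3] using this)
  have e1 : (1 - of fun i j => if i < j then (1 - U⁻¹ + (L - 1)) i j else 0) = U⁻¹ := by
    ext i j
    rcases lt_trichotomy i j with h1 | rfl | h1
    · simp [h1, h.lower i j h1, h1.ne]
    · simp [hV1]
    · simp [h1.not_gt, h1.ne', hV h1]
  rw [e1, show U⁻¹ + (1 - U⁻¹ + (L - 1)) = L by abel] at q2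
  have e2 : Q = U * L := by rw [← q2, mul_inv_cancel_l hd0]
  have c1 : Cj 1 Q (L * U) := by rw [e2]; exact (hd ▸ Cj.mul_comm (a := U) (b := L)).symm_one
  refine q1.target (c1.trans_one ?_)
  rw [h.eq]
  simpa only [inv_inv] using (Cj.of_SL g⁻¹ (L * U)).symm_one

theorem exists_rank_one {N : Matrix (Fin n) (Fin n) F} (h : ¬ R2 N) (h0 : N ≠ 0) :
    ∃ v φ : Fin n → F, v ≠ 0 ∧ φ ≠ 0 ∧ N = vecMulVec v φ := by
  unfold R2 at h
  push Not at h
  obtain ⟨w, hw⟩ := h
  choose t ht using hw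
  have e : N = vecMulVec w fun j => t (Pi.single j 1) := by
    ext i j
    have := congrFun (ht (Pi.single j 1)) i
    simpa [vecMulVec_apply, mul_comm] using this
  refine ⟨w, _, ?_, ?_, e⟩ <;> intro e' <;> apply h0 <;> rw [e, e'] <;> simp

theorem ps_transv (h4 : Four F) (hn : 3 ≤ n) {v φ : Fin n → F} (hv : v ≠ 0) (hφ : φ ≠ 0)
    (h0 : φ ⬝ᵥ v = 0) (k : ℕ) : ∀ w ψ : Fin n → F, w ≠ 0 → ψ ≠ 0 → ψ ⬝ᵥ w = 0 →
      PS (1 + vecMulVec v φ) (k + 1) (1 + vecMulVec w ψ) := by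
  induction k with
  | zero => exact fun w ψ h1 h2 h3 => PS.single (cj_rank_one hn hv hφ h1 h2 (h0.trans h3.symm))
  | succ k ih =>
    intro w ψ h1 h2 h3
    obtain ⟨t, t0, t1, -⟩ := h4 0 1 0
    have := PS.snoc (ih (t • w) ψ (smul_ne_zero t0 h1) h2 (by simp [h3]))
      (cj_rank_one hn hv hφ (v' := (1 - t) • w) (smul_ne_zero (sub_ne_zero.2 t1.symm) h1) h2
        (by simp [h0, h3]))
    rwa [one_add_mul_one_add, dotProduct_smul, h3, smul_zero, zero_smul, add_zero, add_assoc (1 : Matrix _ _ F),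
      ← add_vecMulVec, ← add_smul, add_sub_cancel, one_smul] at this

/-- scalar multiples of transvections and homologies -/
theorem full_rank_one (h4 : Four F) (hn : 3 ≤ n) {x : Matrix (Fin n) (Fin n) F} (hx : x.det = 1)
    (hs : ∀ c : F, x ≠ c • 1) {l : F} (h : ¬ R2 (x - l • 1)) : NS x n ∧ SC x n := by
  obtain ⟨v, φ, hv, hφ, e⟩ := exists_rank_one h (sub_ne_zero.2 (hs l))
  have hl : l ≠ 0 := by
    rintro rfl
    rw [zero_smul, sub_zero] at e
    obtain ⟨y, hy⟩ := exists_not_comb_pair (ι := Fin n) (by simpa using hn) v v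
    obtain ⟨u, hu⟩ := exists_mulVec_eq_of_det (A := x) (by rw [hx]; exact one_ne_zero) y
    exact hy (φ ⬝ᵥ u) 0 (by rw [← hu, e, vecMulVec_mulVec]; simp)
  obtain ⟨v, rfl⟩ : ∃ w, v = l • w := ⟨l⁻¹ • v, by rw [smul_smul, mul_inv_cancel₀ hl, one_smul]⟩
  have hv : v ≠ 0 := by rintro rfl; simp at hv
  obtain rfl : x = l • (1 + vecMulVec v φ) := by rw [smul_add, ← smul_vecMulVec, ← e]; abel
  rw [det_smul, det_one_add_vecMulVec, Fintype.card_fin] at hx
  have hα : 1 + φ ⬝ᵥ v ≠ 0 := by rintro e; simp [e] at hx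
  have key : ∀ P : Matrix (Fin n) (Fin n) F, PS (1 + vecMulVec v φ) n ((1 + φ ⬝ᵥ v) • P) →
      PS (l • (1 + vecMulVec v φ)) n P := fun P hP => by
    have := PK.smul hP l
    rwa [smul_smul, hx, one_smul] at this
  by_cases h0 : φ ⬝ᵥ v = 0
  · obtain ⟨m, rfl⟩ : ∃ m, n = m + 1 + 1 := ⟨n - 2, by omega⟩
    refine ⟨fun P hP hP' => key P ?_, 1, key _ ?_⟩
    · rw [h0, add_zero, one_smul]
      by_cases h2 : R2 (P - 1)
      · obtain ⟨g, L, U, p1, p2, -⟩ := regLU h4 P hP (fun _ => ⟨hP', h2⟩) hv hv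
        exact ps_UL hn hv hφ (by simpa [h0] using p1) (by rw [hP]; exact one_ne_zero) (Or.inr p2)
      · obtain ⟨w, ψ, hw, hψ, e⟩ := exists_rank_one h2 (sub_ne_zero.2 (by simpa using hP' 1))
        obtain rfl : P = 1 + vecMulVec w ψ := by rw [← e]; abel
        exact ps_transv h4 hn hv hφ h0 _ w ψ hw hψ (by simpa [det_one_add_vecMulVec] using hP)
    · have := PS.snoc (ps_transv h4 hn hv hφ h0 m v φ hv hφ h0)
        (cj_rank_one hn hv hφ (v' := -v) (neg_ne_zero.2 hv) hφ (by simp [h0]))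
      rw [one_add_mul_one_add, dotProduct_neg, h0, neg_zero, zero_smul, add_zero,
        add_assoc (1 : Matrix _ _ F), ← add_vecMulVec, add_neg_cancel, zero_vecMulVec, add_zero] at this
      simpa [h0] using this
  · refine ⟨fun P hP hP' => key P ?_, 1, key _ ?_⟩
    · obtain ⟨g, L, U, p1⟩ := sourour ((1 + φ ⬝ᵥ v) • P) (fun _ => 1 + φ ⬝ᵥ v) (fun _ => 1)
        (fun _ => hα) (by simp) (by simp [hP]) fun _ c e => hP' ((1 + φ ⬝ᵥ v)⁻¹ * c) (by
          rw [mul_smul, ← e, smul_smul, inv_mul_cancel₀ hα, one_smul])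
      exact ps_UL hn hv hφ p1 (by simp [hP, hα]) (Or.inl h0)
    · refine ps_UL hn hv hφ (g := 1) (L := (1 + φ ⬝ᵥ v) • 1) (U := 1)
        ⟨fun i j h => by simp [h.ne], fun i j h => by simp [h.ne'], by simp, by simp, by simp⟩
        (by simp [hα]) (Or.inl h0)

end Cfsg.Agent.Cov
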