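import Cfsg.Agent.Lib.Cov.Alpha
import Cfsg.Agent.Lib.Cov.RankOne

/-!
# Every element is a product of `n` conjugates
-/

set_option autoImplicit false

namespace Cfsg.Agent.Cov

open Matrix Module SLn Polynomial

variable {F : Type*} [Field F] {n m : ℕ}

theorem NS.cj {x x' : Matrix (Fin n) (Fin n) F} {κ : F} {k : ℕ} (h : NS x' k) (hκ : κ ≠ 0)
    (c : Cj κ x' x) : NS x k := by
  obtain ⟨g, rfl, e⟩ := c
  intro P h1 h2
  have h3 : g * (g⁻¹ * P * g) = P * g := by rw [mul_assoc, mul_inv_cancel_l hκ]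
  exact (h _ ((Cj.det_eq ⟨g, rfl, h3⟩ hκ).trans h1)
    ((Cj.symm ⟨g, rfl, h3⟩ hκ).not_scalar (inv_ne_zero hκ) h2)).conj' hκ e h3

theorem SC.cj {x x' : Matrix (Fin n) (Fin n) F} {κ : F} {k : ℕ} (h : SC x' k) (hκ : κ ≠ 0)
    (c : Cj κ x' x) : SC x k := by
  obtain ⟨g, rfl, e⟩ := c
  obtain ⟨c, h⟩ := h
  exact ⟨c, h.conj' hκ e (by simp)⟩

theorem Al.ns (h4 : Four F) (hn : 3 ≤ n) {x : Matrix (Fin n) (Fin n) F} (hx : x.det = 1)
    (hs : ∀ c : F, x ≠ c • 1) {a : ℕ} (h : Al x a) : NS x (2 * a + 1) := by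
  obtain ⟨n, rfl⟩ : ∃ k, n = k + 1 := ⟨n - 1, by omega⟩
  obtain ⟨A, h1, h2⟩ := h
  intro P p1 p2
  rw [show 2 * a + 1 = a + (a + 1) by omega]
  exact cover_of_cyc h4 (by omega) (by rw [hx]; exact one_ne_zero) hs h1 h2 p2 (by simp [hx, p1])

theorem unip_pow {p e : ℕ} [Fact p.Prime] [CharP F p] {U : Matrix (Fin n) (Fin n) F}
    (hn : n = p ^ e) (h : ∀ i j, j < i → U i j = 0) (h1 : ∀ i, U i i = 1) : U ^ n = 1 := by
  have := aeval_self_charpoly U
  rw [charpoly_of_upperTriangular U h] at this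
  simp only [h1, Finset.prod_const, Finset.card_univ, Fintype.card_fin] at this
  rw [congrArg ((X - C (1 : F)) ^ ·) hn, sub_pow_char_pow, ← hn] at this
  simpa [sub_eq_zero] using this

theorem sc_prime_pow {p e : ℕ} (hp : p.Prime) (hn : n = p ^ e) (h0 : (n : F) = 0)
    {x : Matrix (Fin n) (Fin n) F} (hx : x.det = 1) (hs : ∀ c : F, x ≠ c • 1) : SC x n := by
  haveI := Fact.mk hp
  haveI : CharP F p := (CharP.charP_iff_prime_eq_zero hp).2
    (eq_zero_of_pow_eq_zero (n := e) (by rw [← h0, hn]; simp))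
  obtain ⟨g, L, U, h⟩ := sourour x (fun _ => 1) (fun _ => 1) (by simp) (by simp) (by simp [hx])
    fun _ => hs
  have hU : U.det = 1 := by
    rw [det_of_upperTriangular (show U.BlockTriangular id from h.upper)]; simp [h.dU]
  have hU' : U⁻¹.det = 1 := by rw [det_inv', hU, inv_one]
  obtain ⟨k, k1, k2⟩ := pk_pow (K := (· = 1)) (x := L * U) (σ := U⁻¹) (by simp [hU'])
    (by simp [hU']) n
  have hL := unip_pow (U := Lᵀ) hn (fun i j => h.lower j i) h.dL
  rw [← transpose_pow, transpose_eq_one] at hL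
  rw [inv_pow', unip_pow hn h.upper h.dU, inv_one, mul_one, mul_assoc,
    mul_inv_det (by simp [hU]), mul_one, hL] at k2
  refine SC.cj ⟨1, by simpa [k2] using k1⟩ one_ne_zero ?_
  rw [h.eq]
  simpa only [inv_inv] using (Cj.of_SL g⁻¹ (L * U)).symm_one

theorem cj_perm {ι : Type*} [Fintype ι] [DecidableEq ι] (σ : Equiv.Perm ι) (A : Matrix ι ι F) :
    ∃ κ : F, κ ≠ 0 ∧ Cj κ A (A.submatrix σ σ) :=
  ⟨_, by
    rw [det_permutation]
    rcases Int.units_eq_one_or (Equiv.Perm.sign σ) with h | h <;> simp [h],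
    σ.permMatrix F, rfl, by
    rw [PEquiv.toMatrix_toPEquiv_mul, PEquiv.mul_toMatrix_toPEquiv]
    simp [Function.comp_def]; rfl⟩

variable {ε : F} {y : Matrix (Fin m) (Fin m) F} {x : Matrix (Fin n) (Fin n) F}

theorem Pad.split (h : Pad ε y n x) {k : ℕ} (h1 : m ≤ k) (h2 : k ≤ n) :
    ∃ z, Pad ε y k z ∧ Pad ε z n x := by
  induction h with
  | base => obtain rfl := le_antisymm h1 h2; exact ⟨y, Pad.base, Pad.base⟩
  | step h ih =>
    rcases h2.eq_or_lt with rfl | h2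
    · exact ⟨_, h.step, Pad.base⟩
    · obtain ⟨z, h3, h4⟩ := ih (by omega)
      exact ⟨z, h3, h4.step⟩

theorem Pad.lift (h : Pad ε y n x) {a : ℕ} {d : F} (h1 : PG y a (d • 1)) :
    PG x a (diagonal fun i => if i.val + m < n then ε ^ a else d) := by
  induction h with
  | base => convert h1; ext i j; simp [diagonal_apply, one_apply]
  | step h ih =>
    have := h.le
    convert (ih.bord ε).pg
    refine bord_ext (by simp; omega) (fun j => ?_) (fun i => ?_) fun i j => ?_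
    · simp [(Fin.succ_ne_zero j).symm]
    · simp
    · simp [diagonal_apply, Nat.add_right_comm]

theorem Pad.window (h4 : Four F) (h : Pad ε y n x) (hs : SS y) (hx : x.det = 1) {k l : ℕ}
    (h1 : m ≤ k) (h2 : k + l = n) (h3 : 3 ≤ k) (hk : (k : F) ≠ 0) :
    PG x k (diagonal fun i => if i.val < l then ε ^ k else (ε ^ l)⁻¹) := by
  obtain ⟨z, z1, z2⟩ := h.split h1 (by omega)
  obtain ⟨k, rfl⟩ : ∃ j, k = j + 1 := ⟨k - 1, by omega⟩
  have h5 := z2.det
  rw [hx, show n - (k + 1) = l by omega] at h5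
  convert z2.lift (pk_scalar h4 (by omega) hk (right_ne_zero_of_mul (h5 ▸ one_ne_zero))
    (z1.ss hs).not_scalar fun _ => trivial) using 2
  exact funext fun i => if_congr (by omega) rfl (eq_inv_of_mul_eq_one_right h5.symm).symm

theorem Pad.ps (h : Pad ε y n x) (hn : m < n) {a : ℕ} {T : Matrix (Fin n) (Fin n) F}
    (h1 : PG x a T) : PS x a T := by
  cases h with
  | base => omega
  | step _ => exact h1.ps

theorem Pad.sc (h4 : Four F) (h : Pad ε y n x) (hε : ε ≠ 0) (hs : SS y) (hx : x.det = 1)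
    (hm : 3 ≤ m) (hn : 2 * m < n) (h0 : (n : F) = 0) : SC x n := by
  obtain ⟨k, k1, k2, k3⟩ : ∃ k, m ≤ k ∧ k ≤ m + 1 ∧ (k : F) ≠ 0 := by
    by_cases h : (m : F) = 0
    · exact ⟨m + 1, by omega, le_rfl, by simp [h]⟩
    · exact ⟨m, le_rfl, by omega, h⟩
  obtain ⟨l, rfl⟩ : ∃ l, n = k + l := ⟨n - k, by omega⟩
  have h1 := h.window h4 hs hx k1 rfl (by omega) k3
  have h2 := h.window h4 hs hx (k := l) (by omega) (add_comm l k) (by omega) fun e => k3 (by
    simpa [e] using h0)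
  obtain ⟨κ, c1, c2⟩ := cj_perm Fin.revPerm
    (diagonal fun i : Fin (k + l) => if i.val < k then ε ^ l else (ε ^ k)⁻¹)
  refine ⟨1, h.ps (by omega) ?_⟩
  convert h1.mul (h2.target c1 c2)
  rw [submatrix_diagonal_equiv, diagonal_mul_diagonal, one_smul, ← diagonal_one]
  congr 1
  ext i
  by_cases hi : i.val < l
  · simp [hi, hε, show ¬ k + l - (i + 1) < k by omega]
  · simp [hi, hε, show k + l - (i + 1) < k by omega]

theorem bord_swap (a b : F) (M : Matrix (Fin n) (Fin n) F) :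
    (bord a 0 0 (bord b 0 0 M)).submatrix (Equiv.swap 0 1) (Equiv.swap 0 1) =
      bord b 0 0 (bord a 0 0 M) := by
  have h : ∀ i : Fin n, Equiv.swap (0 : Fin (n + 2)) 1 i.succ.succ = i.succ.succ := fun i =>
    Equiv.swap_apply_of_ne_of_ne (Fin.succ_ne_zero _) (Fin.succ_succ_ne_one _)
  have h1 : Equiv.swap (0 : Fin (n + 2)) 1 0 = Fin.succ 0 := Equiv.swap_apply_left _ _
  have h2 : Equiv.swap (0 : Fin (n + 2)) 1 (Fin.succ 0) = 0 := Equiv.swap_apply_right _ _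
  ext i j
  refine Fin.cases ?_ (fun i => Fin.cases ?_ (fun i => ?_) i) i <;>
    refine Fin.cases ?_ (fun j => Fin.cases ?_ (fun j => ?_) j) j <;>
    simp only [submatrix_apply, h, h1, h2] <;> rfl

theorem full_even (h4 : Four F) {a : ℕ} (ha : 1 ≤ a)
    {x : Matrix (Fin (2 * a + 1)) (Fin (2 * a + 1)) F} (hx : (bord ε 0 0 x).det = 1)
    (hs : ∀ c : F, x ≠ c • 1) (h : Al x a) :
    NS (bord ε 0 0 x) (a + 1 + (a + 1)) ∧ SC (bord ε 0 0 x) (a + 1 + (a + 1)) := by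
  obtain ⟨A, h1, h2⟩ := h
  have h3 := hx
  rw [det_bord_col] at h3
  have hε : ε ≠ 0 := left_ne_zero_of_mul (h3 ▸ one_ne_zero)
  have hη := pow_ne_zero (a + 1) hε
  have hx0 : x.det ≠ 0 := right_ne_zero_of_mul (h3 ▸ one_ne_zero)
  have key : ∀ β M, ST β M → β * M.det = x.det ^ (a + 1) →
      PS (bord ε 0 0 x) (a + 1) (bord (ε ^ (a + 1)) 0 0 (bord β 0 0 M)) := fun β M p1 p2 =>
    (ps_st h4 (by omega) hx0 hs h1 h2 p1 p2).bord ε
  refine ⟨fun P p1 p2 => ?_, 1, ?_⟩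
  · obtain ⟨β, b0, b1, -⟩ := h4 0 (ε ^ (a + 1)) 0
    obtain ⟨M, m1, m2, m3⟩ := exists_st h4 (n := 2 * a) (by omega) (pow_ne_zero (a + 1) hx0) b0 hη
    have hT : ST (ε ^ (a + 1)) (bord β 0 0 M) := ⟨hη, m1.det_bord, m1.isCyc, m3.bord b1⟩
    exact cover h4 (by omega) (by simp [hx]) (key β M m1 m2) hT.isCyc hT (key β M m1 m2) p2
      (by simp [hx, p1])
  · obtain ⟨M, m1, m2, m3, m4⟩ := exists_cyc_avoid h4 (n := 2 * a) (by omega) (d := 1) hη
      (inv_ne_zero hη)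
    have hM : M.det ≠ 0 := by simp [m2]
    have h5 : (ε ^ (a + 1))⁻¹ = x.det ^ (a + 1) := by
      rw [← inv_pow, eq_inv_of_mul_eq_one_right h3]
    obtain ⟨κ, c1, c2⟩ := cj_perm (Equiv.swap 0 1)
      (bord (ε ^ (a + 1)) 0 0 (bord (ε ^ (a + 1))⁻¹ 0 0 M⁻¹))
    have := (key _ M ⟨inv_ne_zero hη, hM, m1, m4⟩ (by rw [m2, mul_one, h5])).mul
      (((key _ _ (ST.inv ⟨hη, hM, m1, m3⟩) (by rw [det_inv', m2, h5]; simp)).pg.target c1 c2).ps)
    rw [bord_swap, bord_diag_mul, bord_diag_mul, mul_inv_cancel₀ hη, inv_mul_cancel₀ hη,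
      mul_inv_det hM, bord_one, bord_one] at this
    rwa [one_smul]

theorem four_form {y : Matrix (Fin 4) (Fin 4) F} (hc : Core y) (h : ¬ IsCyc y) :
    ∃ s δ κ : F, κ ≠ 0 ∧ Cj κ !![0, -δ, 0, 0; 1, s, 0, 0; 0, 0, 0, -δ; 0, 0, 1, s] y := by
  obtain ⟨v, q1, q2, q3⟩ := hc
  obtain ⟨w, h1, h2⟩ : ∃ w, finrank F (gen y.mulVecLin {v}) ≤ 2 ∧
      gen y.mulVecLin (insert w (gen y.mulVecLin {v})) = ⊤ := by
    generalize hU : gen y.mulVecLin {v} = U at q2 q3
    cases q3 with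
    | base => exact absurd ⟨v, hU⟩ h
    | step _ w h1 _ =>
      have := Submodule.finrank_le (gen y.mulVecLin (insert w U))
      rw [finrank_fin_fun] at this
      exact ⟨w, by omega, Submodule.eq_top_of_finrank_eq (by rw [finrank_fin_fun]; omega)⟩
  have h3 : y *ᵥ v ∉ F ∙ v := fun e => by
    obtain ⟨c, hc⟩ := Submodule.mem_span_singleton.1 e
    rw [gen_eigen (A := y.mulVecLin) hc.symm] at q2
    have := finrank_span_le_card (R := F) ({v} : Set (Fin 4 → F))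
    rw [Set.toFinset_singleton, Finset.card_singleton] at this
    omega
  have h4 : Submodule.span F {v, y *ᵥ v} = gen y.mulVecLin {v} := by
    refine Submodule.eq_of_le_of_finrank_le (Submodule.span_le.2 (Set.insert_subset
      (mem_gen_self _ _) (Set.singleton_subset_iff.2 (gen_inv _ _ _ (mem_gen_self _ _))))) ?_
    have := Submodule.finrank_lt_finrank_of_lt (lt_of_le_of_ne (Submodule.span_mono
      (show ({v} : Set (Fin 4 → F)) ⊆ {v, y *ᵥ v} by simp))
      fun e => h3 (e ▸ Submodule.subset_span (by simp)))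
    rw [finrank_span_singleton (by rintro rfl; simp at h3)] at this
    omega
  obtain ⟨a, s, e⟩ := Submodule.mem_span_pair.1 (h4 ▸ gen_inv _ _ _ (gen_inv _ _ _
    (mem_gen_self y.mulVecLin v)))
  have h5 : ∀ u, y *ᵥ (y *ᵥ u) = a • u + s • y *ᵥ u := fun u => by
    have := congrArg (· *ᵥ u) (q1 (X * X - (C a + C s * X)) (by
      simpa [sub_mulVec, add_mulVec, Algebra.algebraMap_eq_smul_one, smul_mulVec, sub_eq_zero]
        using e.symm))
    simpa [sub_mulVec, add_mulVec, Algebra.algebraMap_eq_smul_one, smul_mulVec, sub_eq_zero]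
      using this
  have h6 : ∀ u, Inv y.mulVecLin (Submodule.span F {u, y *ᵥ u}) := fun u z hz => by
    obtain ⟨b, c, rfl⟩ := Submodule.mem_span_pair.1 hz
    exact Submodule.mem_span_pair.2 ⟨c * a, b + c * s, by
      rw [mulVecLin_apply, mulVec_add, mulVec_smul, mulVec_smul, h5]; module⟩
  refine ⟨s, -a, _, det_cols_ne (u := fun j => [v, y *ᵥ v, w, y *ᵥ w].getD j 0) fun S hS => ?_,
    _, rfl, ?_⟩
  · refine eq_top_iff.2 (h2 ▸ (gen_insert_le ((h6 v).sup (h6 w)) (Submodule.mem_sup_right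
      (Submodule.subset_span (by simp))) (h4 ▸ le_sup_left)).trans (sup_le ?_ ?_)) <;>
      refine Submodule.span_le.2 (Set.insert_subset ?_ (Set.singleton_subset_iff.2 ?_))
    exacts [hS 0 (by omega), hS 1 (by omega), hS 2 (by omega), hS 3 (by omega)]
  · rw [mul_cols]
    ext i j
    fin_cases j <;> simp [cols, mul_apply, Fin.sum_univ_four, -mulVec_mulVec, h5, mul_comm]

theorem four_full (h4 : Four F) {s δ : F} (hδ : δ * δ = 1) :
    NS !![0, -δ, 0, 0; 1, s, 0, 0; 0, 0, 0, -δ; 0, 0, 1, s] 4 ∧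
      SC !![0, -δ, 0, 0; 1, s, 0, 0; 0, 0, 0, -δ; 0, 0, 1, s] 4 := by
  have h0 : δ ≠ 0 := left_ne_zero_of_mul (hδ ▸ one_ne_zero)
  have hx : !![0, -δ, 0, 0; 1, s, 0, 0; 0, 0, 0, -δ; 0, 0, 1, s].det = 1 := by
    simp [det_succ_row_zero, Fin.sum_univ_succ, Fin.succAbove, hδ]
  refine ⟨fun P p1 p2 => ?_, δ * δ, ?_⟩
  · obtain ⟨w, w0, w1⟩ := exists_w h4
    obtain ⟨a, a1, a2, -⟩ := h4 s (s / w) s
    have c1 : Cj 1 !![0, -δ, 0, 0; 1, s, 0, 0; 0, 0, 0, -δ; 0, 0, 1, s]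
        !![s, δ / w, 0, 0; -w, 0, 0, 0; 0, 0, a, w * (a ^ 2 - s * a + δ); 0, 0, -1 / w, s - a] :=
      ⟨!![1, s, 0, 0; 0, -w, 0, 0; 0, 0, 1, a; 0, 0, 0, -1 / w], by
        simp [det_succ_row_zero, Fin.sum_univ_succ, Fin.succAbove]; field_simp, by
        ext i j; fin_cases i <;> fin_cases j <;> simp <;> field_simp <;> ring⟩
    let N := !![w * (a ^ 2 - s * a + δ), s * w * (a ^ 2 - s * a + δ) - a * δ;
      s - a, δ / w + s * (s - a)]
    have n0 : δ * (s - a) * (a - s / w) ≠ 0 :=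
      mul_ne_zero (mul_ne_zero h0 (sub_ne_zero.2 a1.symm)) (sub_ne_zero.2 a2)
    have n1 : NE N (δ / w) := NE.of_det (by
      convert n0; simp [N, det_fin_two]; ring)
    have n2 : NE N (δ * w) := NE.of_det (by
      convert mul_ne_zero (pow_ne_zero 2 w0) n0; simp [N, det_fin_two]; field_simp; ring)
    have n3 : ST (δ * w) N := ⟨mul_ne_zero h0 w0, by
      convert mul_ne_zero h0 h0; simp [N, det_fin_two]; field_simp; ring,
      ⟨![1, 0], cyc_two fun c e => a1 (by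
        have := congrFun e 1
        simp [N, mulVec, dotProduct] at this
        linear_combination -this)⟩, n2⟩
    have hT : ST (δ / w) (bord (δ * w) 0 0 N) := ⟨div_ne_zero h0 w0, n3.det_bord, n3.isCyc,
      n1.bord fun e => w1 (mul_left_cancel₀ h0 (by field_simp at e; linear_combination δ * e))⟩
    have h2 := ((PS.single c1).snoc (Cj.refl _)).target (a' := bord (δ / w) 0 0 _) (by
      convert (cj_shear hT.noEig ![s * δ / w - s * δ, 0, 0]).symm_one
      rw [show bord (δ / w) ![s * δ / w - s * δ, 0, 0] 0 (bord (δ * w) 0 0 N) =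
        !![δ / w, s * δ / w - s * δ, 0, 0; 0, δ * w, 0, 0; 0, 0, N 0 0, N 0 1; 0, 0, N 1 0, N 1 1] by
          ext i j; fin_cases i <;> fin_cases j <;> rfl]
      ext i j; fin_cases i <;> fin_cases j <;> simp [N] <;> ring)
    exact cover h4 (by omega) (by simp [hx]) h2 hT.isCyc hT h2 p2 (by simp [hx, p1])
  · have c1 : Cj 1 !![0, -δ, 0, 0; 1, s, 0, 0; 0, 0, 0, -δ; 0, 0, 1, s]
        !![s, δ, 0, 0; -1, 0, 0, 0; 0, 0, s, δ; 0, 0, -1, 0] :=
      ⟨!![1, s, 0, 0; 0, -1, 0, 0; 0, 0, 1, s; 0, 0, 0, -1], by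
        simp [det_succ_row_zero, Fin.sum_univ_succ, Fin.succAbove], by
        ext i j; fin_cases i <;> fin_cases j <;> simp <;> ring⟩
    have h2 : PS !![0, -δ, 0, 0; 1, s, 0, 0; 0, 0, 0, -δ; 0, 0, 1, s] 2 (δ • 1) := by
      convert (PS.single c1).snoc (Cj.refl _)
      ext i j; fin_cases i <;> fin_cases j <;> simp <;> ring
    simpa [smul_smul] using h2.mul h2

theorem Pad.full [Fintype F] (hq : 4 ≤ Fintype.card F) (hm : 3 ≤ m) (hc : Core y)
    (h : Pad ε y n x) (hx : x.det = 1) : NS x n ∧ SC x n := by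
  have h4 := four_of_card hq
  have h1 := h.le
  have hs := (h.ss (hc.ss hm)).not_scalar
  have hy : y.det ≠ 0 := right_ne_zero_of_mul (h.det ▸ hx ▸ one_ne_zero)
  wlog hε : ε ≠ 0 generalizing ε
  · cases h with
    | base => exact this Pad.base one_ne_zero
    | step h => simp [det_bord_col, not_not.1 hε] at hx
  have h2 := h.al_two hq hm hc hε hy
  by_cases h6 : 6 ≤ m
  · exact (h2.1.ns h4 (by omega) hx hs).of_lt hx hs (by omega)
  rcases Nat.even_or_odd' n with ⟨a, rfl | rfl⟩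
  · generalize hn : 2 * a = n at *
    cases h with
    | base =>
      obtain rfl : m = 4 := by omega
      by_cases h3 : IsCyc y
      · exact ((h2.2 h3 rfl).ns h4 hm hx hs).of_lt hx hs (by omega)
      obtain ⟨s, δ, κ, k1, k2⟩ := four_form hc h3
      have := four_full h4 (s := s) (δ := δ) (by
        simpa [det_succ_row_zero, Fin.sum_univ_succ, Fin.succAbove, hx] using k2.det_eq k1)
      exact ⟨this.1.cj k1 k2, this.2.cj k1 k2⟩
    | @step n x h =>
      have := h.le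
      obtain ⟨a, rfl⟩ : ∃ b, n = 2 * b + 1 := ⟨a - 1, by omega⟩
      convert full_even h4 (by omega) hx (h.ss (hc.ss hm)).not_scalar (h.al_odd hq hm hc hε hy)
        using 2 <;> omega
  refine ⟨(h.al_odd hq hm hc hε hy).ns h4 (by omega) hx hs, ?_⟩
  by_cases h0 : ((2 * a + 1 : ℕ) : F) = 0
  swap
  · exact ⟨_, pk_scalar h4 (by omega) h0 (by simp [hx]) hs (by simp)⟩
  by_cases h7 : 2 * m < 2 * a + 1
  · exact h.sc h4 hε (hc.ss hm) hx hm h7 h0
  obtain rfl | rfl | rfl | rfl : a = 1 ∨ a = 2 ∨ a = 3 ∨ a = 4 := by omega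
  · exact sc_prime_pow Nat.prime_three (e := 1) rfl h0 hx hs
  · exact sc_prime_pow Nat.prime_five (e := 1) rfl h0 hx hs
  · exact sc_prime_pow Nat.prime_seven (e := 1) rfl h0 hx hs
  · exact sc_prime_pow Nat.prime_three (e := 2) rfl h0 hx hs

theorem full [Fintype F] (hq : 4 ≤ Fintype.card F) (hn : 3 ≤ n) (hx : x.det = 1)
    (hs : ∀ c : F, x ≠ c • 1) : NS x n ∧ SC x n := by
  by_cases h : ∀ l : F, R2 (x - l • 1)
  · obtain ⟨ε, m, y, x', κ, h1, h2, h3, k1, k2⟩ := canon hn h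
    have := h3.full hq h1 h2 ((k2.det_eq k1).trans hx)
    exact ⟨this.1.cj k1 k2, this.2.cj k1 k2⟩
  · push Not at h
    obtain ⟨l, h⟩ := h
    exact full_rank_one (four_of_card hq) hn hx hs h

end Cfsg.Agent.Cov
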