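import Cfsg.Agent.Lib.Cov.Mat

/-!
# The product of two matrices in general position is cyclic
-/

set_option autoImplicit false

namespace Cfsg.Agent.Cov

open Matrix Module SLn

variable {F : Type*} [Field F] {n : ℕ}

/-- three ways to prescribe determinants -/
def Tri {ι : Type*} [Fintype ι] [DecidableEq ι] (P : Matrix ι ι F → Matrix ι ι F → Prop)
    (c₁ c₂ : Prop) : Prop :=
  ∀ κ : F, κ ≠ 0 → (∃ h g, P h g ∧ h.det = κ) ∧ (c₁ → ∃ h g, P h g ∧ g.det = κ) ∧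
    (c₂ → ∃ h g, P h g ∧ g.det = κ * h.det)

section Tri

variable {ι ι' : Type*} [Fintype ι] [DecidableEq ι] [Fintype ι'] [DecidableEq ι']
  {P : Matrix ι ι F → Matrix ι ι F → Prop} {P' : Matrix ι' ι' F → Matrix ι' ι' F → Prop}
  {c₁ c₂ c₁' c₂' : Prop}

theorem Tri.map (H : Tri P c₁ c₂) {β : F} (hβ : β ≠ 0) (h1 : c₁' → c₁) (h2 : c₂' → c₂)
    (hP : ∀ h g, P h g → ∃ h' g', P' h' g' ∧ h'.det = h.det ∧ g'.det = β * g.det) :
    Tri P' c₁' c₂' := by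
  intro κ hκ
  have hκ' : β⁻¹ * κ ≠ 0 := mul_ne_zero (inv_ne_zero hβ) hκ
  refine ⟨?_, fun c => ?_, fun c => ?_⟩
  · obtain ⟨h, g, p, e⟩ := (H κ hκ).1
    obtain ⟨h', g', p', e1, -⟩ := hP h g p
    exact ⟨h', g', p', e1.trans e⟩
  · obtain ⟨h, g, p, e⟩ := (H _ hκ').2.1 (h1 c)
    obtain ⟨h', g', p', -, e2⟩ := hP h g p
    exact ⟨h', g', p', by rw [e2, e, mul_inv_cancel_left₀ hβ]⟩
  · obtain ⟨h, g, p, e⟩ := (H _ hκ').2.2 (h2 c)
    obtain ⟨h', g', p', e1, e2⟩ := hP h g p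
    exact ⟨h', g', p', by rw [e2, e, e1, mul_assoc, mul_inv_cancel_left₀ hβ]⟩

theorem Tri.swap (H : Tri P c₁ c₂) {β : F} (hβ : β ≠ 0)
    (hP : ∀ h g, P h g → h.det ≠ 0 ∧
      ∃ h' g', P' h' g' ∧ h'.det = h.det⁻¹ ∧ g'.det = β * g.det * h.det⁻¹) :
    Tri P' c₂ c₁ := by
  intro κ hκ
  have hκ' : β⁻¹ * κ ≠ 0 := mul_ne_zero (inv_ne_zero hβ) hκ
  refine ⟨?_, fun c => ?_, fun c => ?_⟩
  · obtain ⟨h, g, p, e⟩ := (H _ (inv_ne_zero hκ)).1
    obtain ⟨-, h', g', p', e1, -⟩ := hP h g p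
    exact ⟨h', g', p', by rw [e1, e, inv_inv]⟩
  · obtain ⟨h, g, p, e⟩ := (H _ hκ').2.2 c
    obtain ⟨h0, h', g', p', -, e2⟩ := hP h g p
    exact ⟨h', g', p', by rw [e2, e]; field_simp⟩
  · obtain ⟨h, g, p, e⟩ := (H _ hκ').2.1 c
    obtain ⟨h0, h', g', p', e1, e2⟩ := hP h g p
    exact ⟨h', g', p', by rw [e2, e, e1, mul_inv_cancel_left₀ hβ]⟩

end Tri

/-- `X * Y ^ h` is in Hessenberg form in the basis `g`, which starts with `e` -/
def Gd (X Y : Matrix (Fin (n + 1)) (Fin (n + 1)) F) (e : Fin (n + 1) → F)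
    (h g : Matrix (Fin (n + 1)) (Fin (n + 1)) F) : Prop :=
  h.det ≠ 0 ∧ g.det ≠ 0 ∧ g *ᵥ Pi.single 0 1 = e ∧ ∃ H, HU H ∧ X * (h * Y * h⁻¹) * g = g * H

theorem Gd.cyc {X Y h g : Matrix (Fin (n + 1)) (Fin (n + 1)) F} {e : Fin (n + 1) → F}
    (H : Gd X Y e h g) : Cyc (X * (h * Y * h⁻¹)) e := by
  obtain ⟨-, h2, rfl, H, h3, h4⟩ := H
  exact h3.cyc.conj h2 h4.symm

theorem Gd.conj {X Y h g : Matrix (Fin (n + 1)) (Fin (n + 1)) F} {e : Fin (n + 1) → F}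
    (g₁ g₂ : SpecialLinearGroup (Fin (n + 1)) F)
    (H : Gd ((g₁⁻¹).1 * X * g₁.1) ((g₂⁻¹).1 * Y * g₂.1) e h g) :
    Gd X Y (g₁.1 *ᵥ e) (g₁.1 * h * (g₂⁻¹).1) (g₁.1 * g) := by
  obtain ⟨h1, h2, rfl, H, h3, h4⟩ := H
  refine ⟨by rwa [det_mul, det_mul, g₁.2, (g₂⁻¹).2, one_mul, mul_one],
    by rwa [det_mul, g₁.2, one_mul], by rw [mulVec_mulVec], H, h3, ?_⟩
  have : (g₁.1 * h * (g₂⁻¹).1)⁻¹ = g₂.1 * h⁻¹ * (g₁⁻¹).1 := inv_eq_right_inv (by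
    simp only [mul_assoc]
    rw [← mul_assoc (g₂⁻¹).1, coe_inv_mul, one_mul, mul_inv_cancel_l h1, coe_mul_inv])
  rw [this, mul_assoc g₁.1 g, ← h4]
  simp only [mul_assoc]
  rw [← mul_assoc g₁.1 (g₁⁻¹).1, coe_mul_inv, one_mul, ← mul_assoc (g₁⁻¹).1, coe_inv_mul, one_mul]

theorem Gd.swap {X Y h g : Matrix (Fin (n + 1)) (Fin (n + 1)) F} {b : Fin (n + 1) → F}
    (hY : Y.det ≠ 0) (H : Gd Y X (Y *ᵥ b) h g) : Gd X Y (h⁻¹ *ᵥ b) h⁻¹ (h⁻¹ * Y⁻¹ * g) := by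
  obtain ⟨h1, h2, h5, H, h3, h4⟩ := H
  refine ⟨det_inv_ne h1, by
    rw [det_mul, det_mul]; exact mul_ne_zero (mul_ne_zero (det_inv_ne h1) (det_inv_ne hY)) h2,
    by rw [← mulVec_mulVec, h5, ← mulVec_mulVec, inv_mulVec_cancel hY], H, h3, ?_⟩
  rw [nonsing_inv_nonsing_inv _ (Ne.isUnit h1), mul_assoc _ g, ← h4]
  simp only [mul_assoc, mul_inv_cancel_l h1, mul_inv_cancel_l hY, inv_mul_cancel_l hY,
    inv_mul_cancel_l h1]

theorem Gd.step {X : Matrix (Fin (n + 2)) (Fin (n + 2)) F} {y : F} {ρ γ : Fin (n + 1) → F}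
    {N h g : Matrix (Fin (n + 1)) (Fin (n + 1)) F} (hX : X.det ≠ 0) (hs : X 0 0 ≠ 0)
    (hN : N.det ≠ 0)
    (H : Gd (schur X) N (tl (X *ᵥ Pi.single 0 1) + h *ᵥ (X 0 0 • N⁻¹ *ᵥ γ)) h g) :
    ∃ g', Gd X (bord y ρ γ N) (X *ᵥ Pi.single 0 1) (bord 1 0 0 h) g' ∧
      g'.det = X.det * N.det * g.det := by
  obtain ⟨h1, h2, h5, H, h3, h4⟩ := H
  set w₀ := tl (X *ᵥ Pi.single 0 1) with hw
  have hw' : w₀ = fun i => X i.succ 0 := by ext i; simp [hw, tl]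
  set A := schur X * (h * N * h⁻¹) with hA
  have hX' := det_eq_schur hs
  have hd : (bord (X 0 0) 0 w₀ (A * g)).det = X.det * N.det * g.det := by
    rw [det_bord_row, det_mul, hA, det_mul, det_mul, det_mul, det_inv', hX']
    field_simp
  have hAd : A.det ≠ 0 := by
    rw [hA, det_mul, det_mul, det_mul]
    exact mul_ne_zero (fun e => hX (by rw [hX', e, mul_zero]))
      (mul_ne_zero (mul_ne_zero h1 hN) (det_inv_ne h1))
  refine ⟨bord (X 0 0) 0 w₀ (A * g), ⟨by rwa [det_bord_col, one_mul],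
    by rw [hd]; exact mul_ne_zero (mul_ne_zero hX hN) h2, ?_, ?_⟩, hd⟩
  · rw [single_zero_eq_cons, bord_mulVec, ← single_zero_eq_cons, ← cons_tl (X *ᵥ _), ← hw]
    simp
  · have e1 := eq_bord_mul_bord (A := X) hs one_ne_zero (mul_one _).symm
    rw [inv_one, one_smul, ← hw'] at e1
    set r := (X 0 0)⁻¹ • fun j => X 0 (Fin.succ j)
    have e2 : bord (X 0 0) 0 w₀ (A * g) = bord (X 0 0) 0 w₀ 1 * bord 1 0 0 (A * g) := by
      rw [bord_mul]; simp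
    have e3 : bord 1 0 0 h * bord y ρ γ N * (bord 1 0 0 h)⁻¹ =
        bord y (ρ ᵥ* h⁻¹) (h *ᵥ γ) (h * N * h⁻¹) := by
      rw [bord_diag_inv one_ne_zero h1, bord_mul, bord_mul]; simp
    have e4 : schur X *ᵥ (X 0 0 • h *ᵥ γ + (h * N * h⁻¹) *ᵥ w₀) = (A * g) *ᵥ Pi.single 0 1 := by
      rw [← mulVec_mulVec _ A g, h5, hA, ← mulVec_mulVec _ (schur X), mulVec_add _ w₀,
        add_comm (_ *ᵥ w₀)]
      congr 2
      rw [mulVec_smul, mulVec_smul, mulVec_mulVec, mulVec_mulVec]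
      simp only [mul_assoc, inv_mul_cancel_l h1, mul_inv_det hN, mul_one]
    obtain ⟨c, r', e5⟩ : ∃ c r', bord 1 r 0 (schur X) *
        (bord y (ρ ᵥ* h⁻¹) (h *ᵥ γ) (h * N * h⁻¹) * bord (X 0 0) 0 w₀ (A * g)) =
        bord c r' ((A * g) *ᵥ Pi.single 0 1) (A * (A * g)) := by
      rw [bord_mul, bord_mul]
      refine ⟨_, _, congrArg₂ _ ?_ ?_⟩
      · rw [smul_zero, zero_add, e4]
      · simp [hA, mul_assoc]
    refine ⟨bord c r' (Pi.single 0 1) H, h3.bord _ _, ?_⟩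
    rw [e3, congrArg (· * _ * _) e1, mul_assoc, mul_assoc, e5]
    conv_rhs => rw [e2, mul_assoc]
    congr 1
    rw [bord_mul, mul_assoc A g H, ← h4]
    simp

/-- projection to the coordinate hyperplane along `g` -/
noncomputable def prj (g : Fin (n + 1) → F) : (Fin (n + 1) → F) →ₗ[F] (Fin n → F) :=
  tl - (LinearMap.proj 0 : (Fin (n + 1) → F) →ₗ[F] F).smulRight ((g 0)⁻¹ • tl g)

theorem prj_apply (g v : Fin (n + 1) → F) : prj g v = tl v - v 0 • (g 0)⁻¹ • tl g := rfl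

theorem comp_prj {g : Fin (n + 1) → F} (hg : g 0 ≠ 0) : Comp cons0 (prj g) g where
  ne := fun e => hg (by rw [e]; rfl)
  left w := by simp [prj_apply, cons0_apply]
  zero := by rw [prj_apply, smul_smul, mul_inv_cancel₀ hg, one_smul, sub_self]
  dec v := ⟨v 0 * (g 0)⁻¹, by
    ext i
    refine Fin.cases ?_ (fun i => ?_) i
    · simp [cons0_apply, hg]
    · simp [cons0_apply, prj_apply, tl, mul_assoc]⟩

theorem comp_tl : Comp cons0 tl (Pi.single 0 1 : Fin (n + 1) → F) where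
  ne := by simp
  left w := rfl
  zero := by rw [single_zero_eq_cons, tl_cons]
  dec v := ⟨v 0, by
    rw [single_zero_eq_cons, smul_cons', cons0_apply, cons_add_cons]; simp [cons_tl]⟩

theorem schur_eq_prj {X : Matrix (Fin (n + 1)) (Fin (n + 1)) F} (hs : X 0 0 ≠ 0) (w : Fin n → F) :
    (schur X).mulVecLin w = prj (X *ᵥ Pi.single 0 1) (X.mulVecLin (cons0 w)) := by
  have := congrArg tl (cons_schur_mulVec X hs w)
  rw [tl_cons, map_sub, map_smul] at this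
  rw [mulVecLin_apply, this, prj_apply, mulVecLin_apply, cons0_apply, smul_smul, mul_comm]
  simp

theorem bord_eq_tl (y : F) (ρ γ : Fin n → F) (N : Matrix (Fin n) (Fin n) F) (w : Fin n → F) :
    N.mulVecLin w = tl ((bord y ρ γ N).mulVecLin (cons0 w)) := by
  simp [cons0_apply, bord_mulVec]

theorem inj_of_det {ι : Type*} [Fintype ι] [DecidableEq ι] {X : Matrix ι ι F} (h : X.det ≠ 0) :
    Function.Injective X.mulVecLin := fun _ _ e => mulVec_inj_of_det h e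

theorem TF.conj {X : Matrix (Fin n) (Fin n) F} (g : SpecialLinearGroup (Fin n) F) {B : Set ℕ}
    {v : Fin n → F} (h : TF X.mulVecLin B (gen X.mulVecLin {g.1 *ᵥ v})) :
    TF ((g⁻¹).1 * X * g.1).mulVecLin B (gen ((g⁻¹).1 * X * g.1).mulVecLin {v}) := by
  have he : ∀ w, ((g⁻¹).1 * X * g.1).mulVecLin ((g⁻¹).toLin' w) =
      (g⁻¹).toLin' (X.mulVecLin w) := fun w => by
    simp only [mulVecLin_apply, SpecialLinearGroup.toLin'_apply, toLin'_apply, mulVec_mulVec]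
    rw [mul_assoc, coe_mul_inv, mul_one]
  have := h.equiv (g⁻¹).toLin' he
  rw [gen_map (A := ((g⁻¹).1 * X * g.1).mulVecLin) (A' := X.mulVecLin)
    (ι := ((g⁻¹).toLin' : (Fin n → F) →ₗ[F] (Fin n → F))) he, Set.image_singleton] at this
  simpa only [LinearEquiv.coe_coe, SpecialLinearGroup.toLin'_apply, toLin'_apply, mulVec_mulVec,
    coe_inv_mul, one_mulVec] using this

theorem chain_base {X Y : Matrix (Fin 2) (Fin 2) F} (hX : X.det ≠ 0) (hY : Y.det ≠ 0)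
    (h0 : X 1 0 ≠ 0 ∨ Y 1 0 ≠ 0) :
    Tri (fun h g => h *ᵥ Pi.single 0 1 = Pi.single 0 1 ∧ Gd X Y (X *ᵥ Pi.single 0 1) h g)
      (Y 1 0 ≠ 0) (X 1 0 ≠ 0) := by
  have key : ∀ l η : F, η ≠ 0 →
      Y 1 0 * X 0 0 * η - Y 1 0 * l * X 1 0 + Y 1 1 * X 1 0 ≠ 0 → ∃ h g,
      (h *ᵥ Pi.single 0 1 = Pi.single 0 1 ∧ Gd X Y (X *ᵥ Pi.single 0 1) h g) ∧ h.det = η ∧
      g.det = X.det * (Y 1 0 * X 0 0 * η - Y 1 0 * l * X 1 0 + Y 1 1 * X 1 0) := by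
    intro l η hη hne
    have hi : (!![1, l; 0, η] : Matrix (Fin 2) (Fin 2) F)⁻¹ = !![1, -l * η⁻¹; 0, η⁻¹] :=
      inv_eq_right_inv (by
        ext i j; fin_cases i <;> fin_cases j <;> simp [mul_apply, Fin.sum_univ_two, hη])
    set A := X * (!![1, l; 0, η] * Y * (!![1, l; 0, η] : Matrix (Fin 2) (Fin 2) F)⁻¹) with hA
    set e := X *ᵥ Pi.single 0 1 with he
    let g : Matrix (Fin 2) (Fin 2) F := !![e 0, (A *ᵥ e) 0; e 1, (A *ᵥ e) 1]
    have hg : g.det = X.det * (Y 1 0 * X 0 0 * η - Y 1 0 * l * X 1 0 + Y 1 1 * X 1 0) := by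
      simp only [g, hA, hi, he, det_fin_two, ← mulVec_mulVec]
      simp [mulVec, dotProduct, Fin.sum_univ_two]
      field_simp
      ring
    have hg' : g.det ≠ 0 := hg ▸ mul_ne_zero hX hne
    have hh : (!![1, l; 0, η] : Matrix (Fin 2) (Fin 2) F).det = η := by simp
    have g0 : g *ᵥ Pi.single 0 1 = e := by ext i; fin_cases i <;> simp [g]
    have g1 : g *ᵥ Pi.single 1 1 = A *ᵥ e := by ext i; fin_cases i <;> simp [g]
    refine ⟨!![1, l; 0, η], g, ⟨by ext i; fin_cases i <;> simp, by rw [hh]; exact hη, hg', g0, g⁻¹ * (A * g),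
      ⟨fun i j hij => by have := i.2; omega, fun i j hij => ?_⟩, (mul_inv_cancel_l hg' _).symm⟩,
      hh, hg⟩
    have : (g⁻¹ * (A * g)) *ᵥ Pi.single 0 1 = Pi.single 1 1 := by
      rw [← mulVec_mulVec, ← mulVec_mulVec, g0, ← g1, inv_mulVec_cancel hg']
    have h1 := congrFun this 1
    obtain rfl : j = 0 := Fin.ext (by have := i.2; simp; omega)
    obtain rfl : i = 1 := Fin.ext (by simpa using hij)
    simpa using h1
  have hs : X 1 0 = 0 → X 0 0 ≠ 0 := fun h e => hX (by simp [det_fin_two, h, e])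
  have hN : Y 1 0 = 0 → Y 1 1 ≠ 0 := fun h e => hY (by simp [det_fin_two, h, e])
  intro κ hκ
  refine ⟨?_, fun hγ => ?_, fun hw => ?_⟩
  · by_cases hγ : Y 1 0 = 0
    · obtain ⟨h, g, p, e, -⟩ := key 0 κ hκ (by simpa [hγ] using ⟨hN hγ, h0.resolve_right (by simpa)⟩)
      exact ⟨h, g, p, e⟩
    by_cases hw : X 1 0 = 0
    · obtain ⟨h, g, p, e, -⟩ := key 0 κ hκ (by simpa [hw] using ⟨⟨hγ, hs hw⟩, hκ⟩)
      exact ⟨h, g, p, e⟩
    · obtain ⟨h, g, p, e, -⟩ := key ((Y 1 0 * X 0 0 * κ + Y 1 1 * X 1 0 - 1) / (Y 1 0 * X 1 0)) κ hκ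
        (ne_of_eq_of_ne (b := 1) (by field_simp; ring) one_ne_zero)
      exact ⟨h, g, p, e⟩
  · by_cases hw : X 1 0 = 0
    · have := hs hw
      obtain ⟨h, g, p, -, e⟩ := key 0 (κ / (X.det * Y 1 0 * X 0 0)) (div_ne_zero hκ (mul_ne_zero (mul_ne_zero hX hγ) this))
        (by simpa [hw] using ⟨⟨hγ, this⟩, hκ, ⟨hX, hγ⟩, this⟩)
      exact ⟨h, g, p, by rw [e, hw]; field_simp; ring⟩
    · obtain ⟨h, g, p, -, e⟩ := key
        ((Y 1 0 * X 0 0 + Y 1 1 * X 1 0 - κ / X.det) / (Y 1 0 * X 1 0)) 1 one_ne_zero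
        (ne_of_eq_of_ne (b := κ / X.det) (by field_simp; ring) (div_ne_zero hκ hX))
      exact ⟨h, g, p, by rw [e]; field_simp; ring⟩
  · by_cases hγ : Y 1 0 = 0
    · have := hN hγ
      obtain ⟨h, g, p, e', e⟩ := key 0 (X.det * Y 1 1 * X 1 0 / κ)
        (div_ne_zero (mul_ne_zero (mul_ne_zero hX this) hw) hκ) (by simpa [hγ] using ⟨this, hw⟩)
      exact ⟨h, g, p, by rw [e, e', hγ]; field_simp; ring⟩
    · obtain ⟨h, g, p, e', e⟩ := key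
        ((Y 1 0 * X 0 0 + Y 1 1 * X 1 0 - κ / X.det) / (Y 1 0 * X 1 0)) 1 one_ne_zero
        (ne_of_eq_of_ne (b := κ / X.det) (by field_simp; ring) (div_ne_zero hκ hX))
      exact ⟨h, g, p, by rw [e, e']; field_simp; ring⟩

theorem finrank_fin (n : ℕ) : finrank F (⊤ : Submodule F (Fin n → F)) = n := by simp

theorem mem_of_eigen {X : Matrix (Fin 2) (Fin 2) F} {B : Set ℕ} {v : Fin 2 → F} (hv : v ≠ 0) {c : F}
    (h : X *ᵥ v = c • v) (hT : TF X.mulVecLin B (gen X.mulVecLin {v})) : 1 ∈ B := by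
  rw [gen_eigen (A := X.mulVecLin) h] at hT
  have := hT.mem fun e => by
    have h1 := finrank_span_singleton (K := F) hv
    rw [e, finrank_fin] at h1
    omega
  rwa [finrank_span_singleton hv] at this

/-- the statement proved by induction -/
def ChainAt (F : Type*) [Field F] (m : ℕ) : Prop :=
  ∀ (X Y : Matrix (Fin (m + 2)) (Fin (m + 2)) F) (a b : Fin (m + 2) → F) (BX BY : Set ℕ),
    X.det ≠ 0 → Y.det ≠ 0 → TF X.mulVecLin BX (gen X.mulVecLin {a}) →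
    TF Y.mulVecLin BY (gen Y.mulVecLin {b}) → Disjoint BX BY →
    (b ≠ 0 → ∀ w ∈ gen X.mulVecLin {a}, X *ᵥ w = w → w = 0) →
    Tri (fun h g => Gd X Y (a + h *ᵥ b) h g) (m + 1 ∉ BY) (m + 1 ∉ BX)

/-- the normalised statement -/
def NormAt (F : Type*) [Field F] (m : ℕ) : Prop :=
  ∀ (X Y : Matrix (Fin (m + 2)) (Fin (m + 2)) F) (f f' : Fin (m + 2) → F) (BX BY : Set ℕ),
    X.det ≠ 0 → Y.det ≠ 0 → f ≠ 0 → f' ≠ 0 → TF X.mulVecLin BX (gen X.mulVecLin {f}) →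
    TF Y.mulVecLin BY (gen Y.mulVecLin {f'}) → Disjoint BX BY →
    Tri (fun h g => h *ᵥ f' = f ∧ Gd X Y (X *ᵥ f) h g) (m + 1 ∉ BY) (m + 1 ∉ BX)

theorem chainAt_of_normAt {m : ℕ} (H : NormAt F m) : ChainAt F m := by
  have key : ∀ (X Y : Matrix (Fin (m + 2)) (Fin (m + 2)) F) (a b : Fin (m + 2) → F)
      (BX BY : Set ℕ), a ≠ 0 → X.det ≠ 0 → Y.det ≠ 0 → TF X.mulVecLin BX (gen X.mulVecLin {a}) →
      TF Y.mulVecLin BY (gen Y.mulVecLin {b}) → Disjoint BX BY →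
      (b ≠ 0 → ∀ w ∈ gen X.mulVecLin {a}, X *ᵥ w = w → w = 0) →
      Tri (fun h g => Gd X Y (a + h *ᵥ b) h g) (m + 1 ∉ BY) (m + 1 ∉ BX) := by
    intro X Y a b BX BY ha hX hY tX tY hd hi
    by_cases hb : b = 0
    · subst hb
      rw [gen_zero] at tY
      obtain ⟨f', hf', tY⟩ := tY.exists_ne
      have e : X *ᵥ (X⁻¹ *ᵥ a) = a := mulVec_inv_cancel hX a
      refine (H X Y (X⁻¹ *ᵥ a) f' BX BY hX hY (mulVec_ne_zero (det_inv_ne hX) ha) hf' ?_ tY hd).map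
        one_ne_zero id id fun h g p => ⟨h, g, ?_, rfl, (one_mul _).symm⟩
      · rwa [← gen_apply (inj_of_det hX), mulVecLin_apply, e]
      · simpa [e] using p.2
    · obtain ⟨f, hf, e⟩ := Inv.exists_preimage (N := X.mulVecLin - LinearMap.id)
        (S := gen X.mulVecLin {a}) (fun w hw => Submodule.sub_mem _ (gen_inv _ _ w hw) hw)
        (fun w hw h => hi hb w hw (sub_eq_zero.1 h)) (mem_gen_self _ a)
      have e' : X *ᵥ f - f = a := e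
      refine (H X Y f b BX BY hX hY (by rintro rfl; exact ha (by simpa using e'.symm)) hb ?_ tY
        hd).map one_ne_zero id id fun h g p => ⟨h, g, ?_, rfl, (one_mul _).symm⟩
      · rwa [le_antisymm (gen_single_le (gen_inv _ _) hf) (gen_single_le (gen_inv _ _) (by
          rw [← e']
          exact Submodule.sub_mem _ (gen_inv _ _ _ (mem_gen_self _ f)) (mem_gen_self _ f)))]
      · rw [p.1, ← e', sub_add_cancel]; exact p.2
  intro X Y a b BX BY hX hY tX tY hd hi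
  by_cases ha : a = 0
  swap
  · exact key X Y a b BX BY ha hX hY tX tY hd hi
  subst ha
  have hb : b ≠ 0 := by
    rintro rfl
    rw [gen_zero] at tX tY
    exact Set.disjoint_left.1 hd (tX.mem bot_ne_top) (tY.mem bot_ne_top)
  refine (key Y X (Y *ᵥ b) 0 BY BX (mulVec_ne_zero hY hb) hY hX
    (by rwa [← gen_apply (inj_of_det hY)] at tY) tX hd.symm (fun h => absurd rfl h)).swap
    (inv_ne_zero hY) fun h g p => ⟨p.1, h⁻¹, h⁻¹ * Y⁻¹ * g, ?_, det_inv' h, ?_⟩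
  · rw [zero_add]
    exact Gd.swap hY (by simpa using p)
  · rw [det_mul, det_mul, det_inv', det_inv']; ring

theorem exists_pair {v φ : Fin (n + 2) → F} (h : φ ⬝ᵥ v ≠ 0) :
    ∃ g : SpecialLinearGroup (Fin (n + 2)) F, g.1 *ᵥ Pi.single 0 1 = v ∧
      ∀ w, φ ⬝ᵥ w ≠ 0 → ((g⁻¹).1 *ᵥ w) 0 ≠ 0 := by
  obtain ⟨g, h1, h2⟩ := exists_SL_pair (n := n + 1) (by omega) (v := v) (φ := (φ ⬝ᵥ v)⁻¹ • φ)
    (by rw [smul_dotProduct, smul_eq_mul, inv_mul_cancel₀ h])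
  refine ⟨g, h1, fun w hw => ?_⟩
  rw [pair_inv_zero h2, smul_dotProduct, smul_eq_mul]
  exact mul_ne_zero (inv_ne_zero h) hw

theorem tri_conj {m : ℕ} {X Y : Matrix (Fin (m + 2)) (Fin (m + 2)) F} {c₁ c₂ c₁' c₂' : Prop}
    (g₁ g₂ : SpecialLinearGroup (Fin (m + 2)) F) (h1 : c₁' → c₁) (h2 : c₂' → c₂)
    (H : Tri (fun h g => h *ᵥ Pi.single 0 1 = Pi.single 0 1 ∧ Gd ((g₁⁻¹).1 * X * g₁.1)
      ((g₂⁻¹).1 * Y * g₂.1) (((g₁⁻¹).1 * X * g₁.1) *ᵥ Pi.single 0 1) h g) c₁ c₂) :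
    Tri (fun h g => h *ᵥ (g₂.1 *ᵥ Pi.single 0 1) = g₁.1 *ᵥ Pi.single 0 1 ∧
      Gd X Y (X *ᵥ (g₁.1 *ᵥ Pi.single 0 1)) h g) c₁' c₂' := by
  refine H.map one_ne_zero h1 h2 fun h g p =>
    ⟨g₁.1 * h * (g₂⁻¹).1, g₁.1 * g, ⟨?_, ?_⟩, ?_, ?_⟩
  rotate_left
  · rw [← pair_mulVec]; exact p.2.conj g₁ g₂
  · rw [det_mul, det_mul, g₁.2, (g₂⁻¹).2, one_mul, mul_one]
  · rw [det_mul, g₁.2]
  · rw [mulVec_mulVec, mul_assoc, coe_inv_mul, mul_one, ← mulVec_mulVec, p.1]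

theorem normAt_zero : NormAt F 0 := by
  intro X Y f f' BX BY hX hY hf hf' tX tY hd
  obtain ⟨g₁, rfl⟩ := exists_SL_mulVec (ι := Fin 2) (by simp) (v := Pi.single 0 1) (by simp) hf
  obtain ⟨g₂, rfl⟩ := exists_SL_mulVec (ι := Fin 2) (by simp) (v := Pi.single 0 1) (by simp) hf'
  have key : ∀ {Z : Matrix (Fin 2) (Fin 2) F} {B : Set ℕ},
      TF Z.mulVecLin B (gen Z.mulVecLin {Pi.single 0 1}) → 1 ∉ B → Z 1 0 ≠ 0 := fun {Z B} t h e =>
    h (mem_of_eigen (c := Z 0 0) (by simp) (by ext i; fin_cases i <;> simp [e]) t)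
  refine tri_conj g₁ g₂ (key (tY.conj g₂)) (key (tX.conj g₁))
    (chain_base (by rwa [det_conj_SL]) (by rwa [det_conj_SL]) ?_)
  by_cases h : 1 ∈ BX
  · exact Or.inr (key (tY.conj g₂) (Set.disjoint_left.1 hd h))
  · exact Or.inl (key (tX.conj g₁) h)

theorem det_sub_ne {Y : Matrix (Fin (n + 1)) (Fin (n + 1)) F} (hY : Y.det ≠ 0)
    (h : (Y⁻¹ *ᵥ Pi.single 0 1) 0 ≠ 0) : (Y.submatrix Fin.succ Fin.succ).det ≠ 0 := by
  rw [Ne, ← exists_mulVec_eq_zero_iff]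
  rintro ⟨w, hw, e⟩
  have h1 := bord_mulVec (Y 0 0) (fun j => Y 0 j.succ) (fun i => Y i.succ 0)
    (Y.submatrix Fin.succ Fin.succ) 0 w
  rw [← bord_eta, e, zero_smul, add_zero] at h1
  set c := Y 0 0 * 0 + (fun j => Y 0 j.succ) ⬝ᵥ w
  have h2 : (Fin.cons 0 w : Fin (n + 1) → F) = c • Y⁻¹ *ᵥ Pi.single 0 1 := by
    rw [← mulVec_smul, single_zero_eq_cons, smul_cons', mul_one, smul_zero, ← h1,
      inv_mulVec_cancel hY]
  have h3 : c = 0 := (mul_eq_zero.1 (congrFun h2 0).symm).resolve_right h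
  rw [h3, zero_smul] at h2
  exact hw (congrArg tl h2)

theorem inv_conj_SL {Y : Matrix (Fin n) (Fin n) F} (hY : Y.det ≠ 0)
    (g : SpecialLinearGroup (Fin n) F) : ((g⁻¹).1 * Y * g.1)⁻¹ = (g⁻¹).1 * Y⁻¹ * g.1 :=
  inv_eq_right_inv (by
    simp only [mul_assoc]
    rw [← mul_assoc g.1, coe_mul_inv, one_mul, mul_inv_cancel_l hY, coe_inv_mul])

theorem normAt_succ (h4 : Four F) {m : ℕ} (H : ChainAt F m) : NormAt F (m + 1) := by
  intro X Y f f' BX BY hX hY hf hf' tX tY hd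
  obtain ⟨w₁, hw₁, hw⟩ := exists_line X.mulVecLin (X *ᵥ f) 1
  obtain ⟨φ, p1, p2, p3⟩ := exists_avoid_three h4 hf (mulVec_ne_zero hX hf) hw₁
  obtain ⟨φ', q1, q2, -⟩ := exists_avoid_three h4 hf' (mulVec_ne_zero (det_inv_ne hY) hf') hf'
  obtain ⟨g₁, rfl, k₁⟩ := exists_pair p1
  obtain ⟨g₂, rfl, k₂⟩ := exists_pair q1
  refine tri_conj g₁ g₂ id id ?_
  have tX := tX.conj g₁
  have tY := tY.conj g₂
  have hX₁ : ((g₁⁻¹).1 * X * g₁.1).det ≠ 0 := by rwa [det_conj_SL]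
  have hY₁ : ((g₂⁻¹).1 * Y * g₂.1).det ≠ 0 := by rwa [det_conj_SL]
  have hN := det_sub_ne hY₁ (by
    rw [inv_conj_SL hY, ← mulVec_mulVec, ← mulVec_mulVec]; exact k₂ _ q2)
  have he : (((g₁⁻¹).1 * X * g₁.1) *ᵥ Pi.single 0 1) 0 ≠ 0 := by
    rw [← mulVec_mulVec, ← mulVec_mulVec]; exact k₁ _ p2
  have hw' : ∀ w ∈ gen ((g₁⁻¹).1 * X * g₁.1).mulVecLin {((g₁⁻¹).1 * X * g₁.1) *ᵥ Pi.single 0 1},
      w 0 = 0 → ∀ t : F, ((g₁⁻¹).1 * X * g₁.1) *ᵥ w - w =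
        t • ((g₁⁻¹).1 * X * g₁.1) *ᵥ Pi.single 0 1 → w = 0 := by
    intro w hm h0 t e
    have h1 := gen_map (A := X.mulVecLin) (A' := ((g₁⁻¹).1 * X * g₁.1).mulVecLin)
      (ι := g₁.1.mulVecLin) (fun w => (pair_mulVec X g₁ w).symm)
      {((g₁⁻¹).1 * X * g₁.1) *ᵥ Pi.single 0 1}
    rw [Set.image_singleton, mulVecLin_apply, pair_mulVec] at h1
    obtain ⟨s, hs⟩ := hw (g₁.1 *ᵥ w) (h1 ▸ Submodule.mem_map_of_mem hm) t (by
      rw [one_smul, mulVecLin_apply, ← pair_mulVec, ← pair_mulVec, ← mulVec_sub, e, mulVec_smul])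
    have h2 : w = s • (g₁⁻¹).1 *ᵥ w₁ := by
      rw [← mulVec_smul, ← hs, mulVec_mulVec, coe_inv_mul, one_mulVec]
    have h3 : s = 0 := (mul_eq_zero.1 ((congrFun h2 0).symm.trans h0)).resolve_right (k₁ _ p3)
    rw [h2, h3, zero_smul]
  generalize (g₁⁻¹).1 * X * g₁.1 = X₁ at *
  generalize (g₂⁻¹).1 * Y * g₂.1 = Y₁ at *
  have hs : X₁ 0 0 ≠ 0 := by simpa using he
  have hX' : (schur X₁).det ≠ 0 := fun e => hX₁ (by rw [det_eq_schur hs, e, mul_zero])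
  rw [bord_eta Y₁] at tY ⊢
  generalize Y₁.submatrix Fin.succ Fin.succ = N at *
  generalize (fun j => Y₁ 0 (Fin.succ j)) = ρ at *
  generalize (fun j => Y₁ (Fin.succ j) 0) = γ at *
  have c₁ := comp_prj he
  have e₁ : gen (schur X₁).mulVecLin {tl (X₁ *ᵥ Pi.single 0 1)} =
      (gen X₁.mulVecLin {X₁ *ᵥ Pi.single 0 1}).comap cons0 := by
    rw [c₁.comap_gen_single (schur_eq_prj hs), ← gen_apply (inj_of_det hX'), schur_eq_prj hs]
    congr 2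
    have : cons0 (tl (X₁ *ᵥ Pi.single 0 1)) =
        X₁ *ᵥ Pi.single 0 1 - (X₁ *ᵥ Pi.single 0 1) 0 • Pi.single 0 1 := by
      obtain ⟨c, hc⟩ := comp_tl.dec (X₁ *ᵥ Pi.single 0 1)
      have : (X₁ *ᵥ Pi.single 0 1) 0 = c := by rw [hc]; simp [cons0_apply]
      rw [this, eq_sub_iff_add_eq, ← hc]
    rw [this, map_sub, map_sub, map_smul, map_smul, mulVecLin_apply _ (Pi.single 0 1), c₁.zero,
      smul_zero, sub_zero]
  have e₂ : gen N.mulVecLin {X₁ 0 0 • N⁻¹ *ᵥ γ} =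
      (gen (bord (Y₁ 0 0) ρ γ N).mulVecLin {Pi.single 0 1}).comap cons0 := by
    rw [comp_tl.comap_gen_single (bord_eq_tl _ ρ γ N), gen_smul hs, ← gen_apply (inj_of_det hN),
      mulVecLin_apply, mulVec_inv_cancel hN, mulVecLin_apply, single_zero_eq_cons, bord_mulVec]
    simp
  rw [← gen_apply (inj_of_det hX₁), mulVecLin_apply] at tX
  refine (H (schur X₁) N (tl (X₁ *ᵥ Pi.single 0 1)) (X₁ 0 0 • N⁻¹ *ᵥ γ) {p | p + 1 ∈ BX}
    {p | p + 1 ∈ BY} hX' hN ?_ ?_ ?_ ?_).map (mul_ne_zero hX₁ hN) id id fun h g p => ?_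
  · rw [e₁]
    exact tX.comp c₁ (schur_eq_prj hs) (gen_inv _ _) (mem_gen_self _ _)
  · rw [e₂]
    exact tY.comp comp_tl (bord_eq_tl _ ρ γ N) (gen_inv _ _) (mem_gen_self _ _)
  · exact Set.disjoint_left.2 fun p h1 h2 => Set.disjoint_left.1 hd h1 h2
  · intro _ w hm e
    rw [e₁] at hm
    obtain ⟨c, hc⟩ := c₁.dec (X₁ *ᵥ cons0 w)
    rw [show prj _ (X₁ *ᵥ cons0 w) = w from (schur_eq_prj hs w).symm.trans e] at hc
    exact congrArg tl (hw' _ hm rfl c (by rw [hc, add_sub_cancel_left]))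
  · obtain ⟨g', h1, h2⟩ := p.step (y := Y₁ 0 0) (ρ := ρ) hX₁ hs hN
    refine ⟨_, g', ⟨?_, h1⟩, by rw [det_bord_col, one_mul], h2⟩
    rw [single_zero_eq_cons, bord_mulVec]
    simp

theorem chainAt (h4 : Four F) (m : ℕ) : ChainAt F m := by
  induction m with
  | zero => exact chainAt_of_normAt normAt_zero
  | succ m ih => exact chainAt_of_normAt (normAt_succ h4 ih)

/-- two matrices whose chains have no common boundary have a cyclic product -/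
theorem exists_cyc_mul (h4 : Four F) (hn : 2 ≤ n) {X Y : Matrix (Fin n) (Fin n) F} (hX : X.det ≠ 0)
    (hY : Y.det ≠ 0) {a : Fin n → F} {BX BY : Set ℕ}
    (tX : TF X.mulVecLin BX (gen X.mulVecLin {a})) (tY : TF Y.mulVecLin BY ⊥)
    (hd : Disjoint BX BY) {κ : F} (hκ : κ ≠ 0) : ∃ Y', Cj κ Y Y' ∧ Cyc (X * Y') a := by
  obtain ⟨m, rfl⟩ : ∃ m, n = m + 2 := ⟨n - 2, by omega⟩
  obtain ⟨h, g, p, e⟩ := (chainAt h4 m X Y a 0 BX BY hX hY tX (by rwa [gen_zero]) hd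
    (fun h => absurd rfl h) κ hκ).1
  exact ⟨_, ⟨h, e, intertwine_conj p.1 Y⟩, by simpa using p.cyc⟩

end Cfsg.Agent.Cov
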