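import Cfsg.Agent.Lib.Cov.NoEig

/-!
# Chains with large steps; maximal vectors and their invariant complements
-/

set_option autoImplicit false

namespace Cfsg.Agent.Cov

open Matrix Module SLn Polynomial

variable {F : Type*} [Field F] {n : ℕ}

section Gen

variable {V W : Type*} [AddCommGroup V] [Module F V] [AddCommGroup W] [Module F W]
  {A : V →ₗ[F] V} {A' : W →ₗ[F] W} {ι : W →ₗ[F] V}

theorem Inv.map (h : ∀ w, A (ι w) = ι (A' w)) {U : Submodule F W} (hU : Inv A' U) :
    Inv A (U.map ι) := by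
  rintro _ ⟨w, hw, rfl⟩
  exact ⟨_, hU w hw, (h w).symm⟩

theorem gen_insert_push (h : ∀ w, A (ι w) = ι (A' w)) {Z : Submodule F V} (hZ : Inv A Z) (v : W)
    (U : Submodule F W) :
    gen A (insert (ι v) (Z ⊔ U.map ι : Submodule F V)) = Z ⊔ (gen A' (insert v U)).map ι := by
  refine le_antisymm (gen_insert_le (hZ.sup ((gen_inv _ _).map h))
    (Submodule.mem_sup_right ⟨v, mem_gen_insert _ _, rfl⟩)
    (sup_le_sup_left (Submodule.map_mono (le_gen_insert _ _)) _))
    (sup_le (le_sup_left.trans (le_gen_insert _ _)) ?_)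
  rw [gen_map h, Set.image_insert_eq]
  exact gen_le_gen (Set.insert_subset (mem_gen_insert _ _)
    fun w hw => le_gen_insert _ _ (Submodule.mem_sup_right hw))

theorem finrank_map_inj (hi : Function.Injective ι) (U : Submodule F W) :
    finrank F (U.map ι) = finrank F U := (Submodule.equivMapOfInjective ι hi U).finrank_eq.symm

theorem finrank_push [FiniteDimensional F V] (hi : Function.Injective ι) {Z : Submodule F V}
    (hd : Disjoint Z (LinearMap.range ι)) (U : Submodule F W) :
    finrank F (Z ⊔ U.map ι : Submodule F V) = finrank F Z + finrank F U := by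
  have := Submodule.finrank_sup_add_finrank_inf_eq Z (U.map ι)
  rwa [(hd.mono_right LinearMap.map_le_range).eq_bot, finrank_bot, add_zero,
    finrank_map_inj hi] at this

theorem TF.push [FiniteDimensional F V] (h : ∀ w, A (ι w) = ι (A' w)) (hi : Function.Injective ι)
    {Z : Submodule F V} (hZ : Inv A Z) (hd : Disjoint Z (LinearMap.range ι)) {B B' : Set ℕ}
    (hB : ∀ q ∈ B', finrank F Z + q ∈ B) (hc : TF A B (Z ⊔ LinearMap.range ι))
    {U : Submodule F W} (t : TF A' B' U) : TF A B (Z ⊔ U.map ι) := by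
  induction t with
  | top => rwa [Submodule.map_top]
  | step U v h1 _ ih =>
    exact TF.step _ (ι v) (by rw [finrank_push hi hd]; exact hB _ h1)
      (by rwa [gen_insert_push h hZ])

theorem TF.map [FiniteDimensional F V] (h : ∀ w, A (ι w) = ι (A' w)) (hi : Function.Injective ι)
    {B : Set ℕ} (hc : TF A B (LinearMap.range ι)) {U : Submodule F W} (t : TF A' B U) :
    TF A B (U.map ι) := by
  simpa using TF.push h hi (inv_bot A) disjoint_bot_left (B := B) (B' := B) (by simp)
    (by simpa using hc) t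

/-- chains from `U` to `T` with steps of dimension at least two -/
inductive GF (A : V →ₗ[F] V) (T : Submodule F V) : Submodule F V → Prop
  | base : GF A T T
  | step (U : Submodule F V) (v : V) : finrank F U + 2 ≤ finrank F (gen A (insert v U)) →
      GF A T (gen A (insert v U)) → GF A T U

theorem GF.le {T U : Submodule F V} (h : GF A T U) : U ≤ T := by
  induction h with
  | base => exact le_rfl
  | step U v _ _ ih => exact (le_gen_insert _ _).trans ih

theorem GF.push [FiniteDimensional F V] (h : ∀ w, A (ι w) = ι (A' w)) (hi : Function.Injective ι)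
    {Z : Submodule F V} (hZ : Inv A Z) (hd : Disjoint Z (LinearMap.range ι))
    {T U : Submodule F W} (t : GF A' T U) : GF A (Z ⊔ T.map ι) (Z ⊔ U.map ι) := by
  induction t with
  | base => exact GF.base
  | step U v h1 _ ih =>
    exact GF.step _ (ι v)
      (by rw [gen_insert_push h hZ, finrank_push hi hd, finrank_push hi hd]; omega)
      (by rwa [gen_insert_push h hZ])

theorem GF.comap (h : ∀ w, A (ι w) = ι (A' w)) (hi : Function.Injective ι) {U : Submodule F V}
    (t : GF A (LinearMap.range ι) U) : GF A' ⊤ (U.comap ι) := by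
  induction t with
  | base => rw [← Submodule.map_top, Submodule.comap_map_eq_of_injective hi]; exact GF.base
  | step U v h1 h2 ih =>
    obtain ⟨v, rfl⟩ := h2.le (mem_gen_insert _ _)
    have hU := Submodule.map_comap_eq_self ((le_gen_insert _ U).trans h2.le)
    have e := gen_insert_push h (inv_bot A) v (U.comap ι)
    rw [bot_sup_eq, bot_sup_eq, hU] at e
    rw [e, Submodule.comap_map_eq_of_injective hi] at ih
    rw [e, finrank_map_inj hi] at h1
    exact GF.step _ v (by rwa [← finrank_map_inj hi, hU]) ih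

theorem GF.tf [FiniteDimensional F V] {U : Submodule F V} (h : GF A ⊤ U) :
    ∃ B, TF A B U ∧ ∀ p ∈ B, finrank F U ≤ p ∧ p + 2 ≤ finrank F V ∧ p + 1 ∉ B := by
  induction h with
  | base => exact ⟨∅, TF.top, by simp⟩
  | step U v h1 _ ih =>
    obtain ⟨B, h2, h3⟩ := ih
    refine ⟨insert (finrank F U) B, TF.step U v (Or.inl rfl) (h2.mono (Set.subset_insert _ _)), ?_⟩
    rintro p (rfl | hp)
    · refine ⟨le_rfl, h1.trans (Submodule.finrank_le _), ?_⟩
      rintro (h | h)
      · omega
      · have := (h3 _ h).1; omega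
    · have := h3 p hp
      refine ⟨by omega, this.2.1, ?_⟩
      rintro (h | h)
      · omega
      · exact this.2.2 h

end Gen

/-- every polynomial that kills `v` kills everything -/
def Max (x : Matrix (Fin n) (Fin n) F) (v : Fin n → F) : Prop :=
  ∀ p : F[X], aeval x p *ᵥ v = 0 → aeval x p = 0

theorem exists_max (x : Matrix (Fin n) (Fin n) F) : ∃ v, Max x v := by
  obtain ⟨v, hv⟩ := Module.exists_ker_toSpanSingleton_eq_annihilator F[X]
    (M := AEval' (toLinAlgEquiv' x))
  have key : ∀ (p : F[X]) (w : Fin n → F), p • AEval'.of (toLinAlgEquiv' x) w =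
      AEval'.of (toLinAlgEquiv' x) (aeval x p *ᵥ w) := fun p w => by
    rw [← AEval.of_aeval_smul, aeval_algHom_apply]; rfl
  obtain ⟨v, rfl⟩ := (AEval'.of (toLinAlgEquiv' x)).surjective v
  refine ⟨v, fun p hp => ?_⟩
  have h1 : p ∈ annihilator F[X] (AEval' (toLinAlgEquiv' x)) := by
    rw [← hv, LinearMap.mem_ker, LinearMap.toSpanSingleton_apply, key, hp, map_zero]
  ext i j
  have := mem_annihilator.1 h1 (AEval'.of (toLinAlgEquiv' x) (Pi.single j 1))
  rw [key, map_eq_zero_iff _ (LinearEquiv.injective _)] at this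
  simpa using congrFun this i

theorem Max.exists_compl {x : Matrix (Fin n) (Fin n) F} {v : Fin n → F} (h : Max x v) :
    ∃ W, Inv x.mulVecLin W ∧ IsCompl (gen x.mulVecLin {v}) W := by
  have hi : IsIntegral F x := IsIntegral.of_finite F x
  have hm := minpoly.monic hi
  set m := minpoly F x
  let E : (Fin n → F) →ₗ[F] F[X] →ₗ[F] (Fin n → F) := LinearMap.mk₂ F (fun w p => aeval x p *ᵥ w)
    (fun _ _ _ => mulVec_add _ _ _) (fun _ _ _ => mulVec_smul _ _ _)
    (fun _ _ _ => by rw [map_add, add_mulVec]) (fun _ _ _ => by rw [map_smul, smul_mulVec])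
  have hE : ∀ w p, E w p = aeval x p *ᵥ w := fun _ _ => rfl
  have hmod : ∀ p : F[X], p %ₘ m ∈ degreeLT F m.natDegree ∧ aeval x (p %ₘ m) = aeval x p :=
    fun p => ⟨mem_degreeLT.2 (degree_eq_natDegree hm.ne_zero ▸ degree_modByMonic_lt p hm),
      aeval_modByMonic_eq_self_of_root (minpoly.aeval F x)⟩
  let T := (E v).domRestrict (degreeLT F m.natDegree)
  have hT : LinearMap.ker T = ⊥ := by
    refine eq_bot_iff.2 fun p hp => Subtype.ext ?_
    by_contra h0
    exact (minpoly.degree_le_of_ne_zero F x h0 (h _ hp)).not_gt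
      (degree_eq_natDegree hm.ne_zero ▸ mem_degreeLT.1 p.2)
  obtain ⟨L, hL⟩ := T.exists_leftInverse_of_injective hT
  let φ := lcoeff F (m.natDegree - 1) ∘ₗ (degreeLT F m.natDegree).subtype ∘ₗ L
  let Φ := (E.compr₂ φ).compl₂ (degreeLT F m.natDegree).subtype
  have hΦ : ∀ w, w ∈ LinearMap.ker Φ ↔ ∀ p, φ (aeval x p *ᵥ w) = 0 := fun w =>
    ⟨fun hw p => by
      have := LinearMap.congr_fun (show Φ w = 0 from hw) ⟨_, (hmod p).1⟩
      rwa [← (hmod p).2], fun hw => LinearMap.ext fun p => hw p.1⟩
  have hd : Disjoint (gen x.mulVecLin {v}) (LinearMap.ker Φ) := by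
    rw [Submodule.disjoint_def]
    intro w h1 h2
    obtain ⟨p, rfl⟩ := exists_aeval_of_mem_gen h1
    rw [← (hmod p).2] at h2 ⊢
    have h3 := (hmod p).1
    generalize p %ₘ m = q at h2 h3
    by_cases h0 : q = 0
    · simp [h0]
    have h4 : q.natDegree < m.natDegree := (natDegree_lt_iff_degree_lt h0).2 (mem_degreeLT.1 h3)
    have h5 : X ^ (m.natDegree - 1 - q.natDegree) * q ∈ degreeLT F m.natDegree := by
      rw [mem_degreeLT, ← natDegree_lt_iff_degree_lt (by simp [h0]), natDegree_X_pow_mul _ h0]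
      omega
    have h6 := (hΦ _).1 h2 (X ^ (m.natDegree - 1 - q.natDegree))
    rw [mulVec_mulVec, ← map_mul, show aeval x (X ^ _ * q) *ᵥ v = T ⟨_, h5⟩ from rfl] at h6
    simp only [φ, LinearMap.comp_apply, show L (T ⟨_, h5⟩) = ⟨_, h5⟩ from LinearMap.congr_fun hL _,
      Submodule.subtype_apply, lcoeff_apply] at h6
    rw [show m.natDegree - 1 = q.natDegree + (m.natDegree - 1 - q.natDegree) by omega,
      Nat.add_sub_cancel_left, coeff_X_pow_mul] at h6
    exact absurd (leadingCoeff_eq_zero.1 h6) h0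
  refine ⟨LinearMap.ker Φ, fun w hw => (hΦ _).2 fun p => ?_, hd,
    codisjoint_iff.2 (Submodule.eq_top_of_disjoint _ _ ?_ hd)⟩
  · have := (hΦ _).1 hw (p * X)
    rwa [map_mul (aeval x), aeval_X, ← mulVec_mulVec] at this
  · haveI : FiniteDimensional F (degreeLT F m.natDegree) :=
      (degreeLTEquiv F _).symm.finiteDimensional
    have h1 := Φ.finrank_range_add_finrank_ker
    have h2 := Submodule.finrank_le (LinearMap.range Φ)
    rw [show finrank F (degreeLT F m.natDegree →ₗ[F] F) = _ from Subspace.dual_finrank_eq] at h2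
    have h3 := T.finrank_range_add_finrank_ker
    rw [hT, finrank_bot] at h3
    have h4 : LinearMap.range T ≤ gen x.mulVecLin {v} := by
      rintro _ ⟨p, rfl⟩
      exact aeval_mem (gen_inv x.mulVecLin {v}) _ (mem_gen_self _ _)
    have := Submodule.finrank_mono h4
    omega

theorem Max.ne {x : Matrix (Fin n) (Fin n) F} {v e : Fin n → F} (h : Max x v) {c : F}
    (he : e ≠ 0) (hc : x *ᵥ e = c • e) (u : Fin n → F) : x *ᵥ u - c • u ≠ v := by
  rintro rfl
  have hi : IsIntegral F x := IsIntegral.of_finite F x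
  have h1 := aeval_eigen hc (minpoly F x)
  rw [minpoly.aeval, zero_mulVec] at h1
  obtain ⟨q, hq⟩ := dvd_iff_isRoot.2 ((smul_eq_zero.1 h1.symm).resolve_right he)
  have h0 : q ≠ 0 := by rintro rfl; exact minpoly.ne_zero hi (by simpa using hq)
  have h2 := natDegree_le_natDegree (minpoly.degree_le_of_ne_zero F x h0 (h q (by
    have := congrArg (fun p => aeval x p *ᵥ u) hq
    simp only [minpoly.aeval, zero_mulVec] at this
    rw [this, mul_comm, map_mul, ← mulVec_mulVec]
    simp [sub_mulVec, Algebra.algebraMap_eq_smul_one, smul_mulVec])))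
  rw [hq, natDegree_mul (X_sub_C_ne_zero c) h0, natDegree_X_sub_C] at h2
  omega

theorem exists_restrict (x : Matrix (Fin n) (Fin n) F) {W : Submodule F (Fin n → F)}
    (hW : Inv x.mulVecLin W) {m : ℕ} (hm : finrank F W = m) :
    ∃ (z : Matrix (Fin m) (Fin m) F) (ι : (Fin m → F) →ₗ[F] (Fin n → F)), Function.Injective ι ∧
      LinearMap.range ι = W ∧ ∀ w, x.mulVecLin (ι w) = ι (z.mulVecLin w) := by
  let e := (finBasisOfFinrankEq F W hm).equivFun
  refine ⟨LinearMap.toMatrix' (e.toLinearMap ∘ₗ x.mulVecLin.restrict hW ∘ₗ e.symm.toLinearMap),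
    W.subtype ∘ₗ e.symm.toLinearMap, W.subtype_injective.comp e.symm.injective,
    by simp [LinearMap.range_comp], fun w => ?_⟩
  rw [mulVecLin_apply (LinearMap.toMatrix' _), LinearMap.toMatrix'_mulVec]
  simp [-Basis.equivFun_symm_apply]
  rfl

end Cfsg.Agent.Cov
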