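import Cfsg.Agent.Lib.Cov.Chain

/-!
# A non-scalar matrix is the quotient of a cyclic matrix by a cyclic matrix with a simple eigenvalue
-/

set_option autoImplicit false

namespace Cfsg.Agent.Cov

open Matrix Module SLn Polynomial

variable {F : Type*} [Field F] {n : ℕ}

theorem one_le_finrank_gen {V : Type*} [AddCommGroup V] [Module F V] [FiniteDimensional F V]
    (A : V →ₗ[F] V) {v : V} (hv : v ≠ 0) : 1 ≤ finrank F (gen A {v}) :=
  Submodule.one_le_finrank_iff.2 fun e => hv (by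
    have := mem_gen_self A v
    rwa [e] at this)

theorem lev_aux (h4 : Four F) {m : ℕ} {P A : Matrix (Fin (m + 3)) (Fin (m + 3)) F}
    {D : Matrix (Fin (m + 2)) (Fin (m + 2)) F} {δ : F} (hP : P.det ≠ 0)
    (h1 : tl (P *ᵥ Pi.single 0 1) ≠ 0) (h2 : (P⁻¹ *ᵥ Pi.single 0 1) 0 ≠ 0) (hA : IsCyc A)
    (hD : IsCyc D) (hD0 : D.det ≠ 0) (hδ : δ ≠ 0) (hne : NE D δ)
    (hdet : A.det = P.det * (δ * D.det)) :
    ∃ D₁ A₁, Cj 1 (bord δ 0 0 D) D₁ ∧ Cj 1 A A₁ ∧ P * D₁ = A₁ := by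
  have hM := det_sub_ne hP h2
  obtain ⟨v, hv⟩ := hA
  obtain ⟨u, hu⟩ := hD
  have hκ := hv.det_hor
  have hA0 : A.det ≠ 0 := hdet ▸ mul_ne_zero hP (mul_ne_zero hδ hD0)
  rw [bord_eta P] at h1 hdet hP ⊢
  generalize P.submatrix Fin.succ Fin.succ = M at *
  generalize (fun j => P 0 (Fin.succ j)) = r at *
  generalize (fun j => P (Fin.succ j) 0) = γ at *
  generalize P 0 0 = α at *
  have hγ : δ • γ ≠ 0 := smul_ne_zero hδ (by
    rw [single_zero_eq_cons, bord_mulVec] at h1; simpa using h1)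
  obtain ⟨h, g, ⟨p1, p2, p3, H, p4, p5⟩, e⟩ := (chainAt h4 m M D (δ • γ) 0 {p | 1 ≤ p} {0} hM hD0
    (TF.of_ge fun p hp => (one_le_finrank_gen _ hγ).trans hp)
    (by rw [gen_zero]; exact TF.cyc rfl hu) (by simp) (fun h => absurd rfl h) _
    (div_ne_zero hκ hA0)).2.1 (by simp)
  rw [mulVec_zero, add_zero] at p3
  set D' := h * D * h⁻¹ with hD'
  have c1 : Cj h.det D D' := ⟨h, rfl, intertwine_conj p1 D⟩
  set A₀ := bord α r γ M * bord δ 0 0 D' with hA₀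
  have d0 : A₀.det = A.det := by rw [hA₀, det_mul, det_bord_col, hdet, c1.det_eq p1]
  have q1 : A₀ * bord 1 0 0 g = bord 1 0 0 g * bord (α * δ) (r ᵥ* (D' * g)) (Pi.single 0 1) H := by
    rw [hA₀, mul_assoc, bord_diag_mul, bord_mul, bord_mul, ← p5, p3]
    simp [mul_assoc]
  have q2 : hor A₀ (A₀ *ᵥ Pi.single 0 1) A₀.charpoly = A₀ * (bord 1 0 0 g *
      hor (bord (α * δ) (r ᵥ* (D' * g)) (Pi.single 0 1) H) (Pi.single 0 1) A₀.charpoly) := by
    rw [hor_conj rfl, ← hor_conj q1]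
    congr 2
    rw [single_zero_eq_cons, bord_mulVec]; simp
  have q3 : (hor A₀ (A₀ *ᵥ Pi.single 0 1) A₀.charpoly).det = (hor A v A.charpoly).det := by
    rw [q2, det_mul A₀, det_mul (bord 1 0 0 g), (p4.bord _ _).det_hor (charpoly_monic _) (natDegree_charpoly _),
      det_bord_col, e, d0]
    field_simp
  obtain ⟨ψ, c2⟩ := place (A₀ := A₀) (g := A₀ *ᵥ Pi.single 0 1) hκ (q3 ▸ hκ)
  rw [q3, mul_inv_cancel₀ hκ, ← mul_vecMulVec, ← mul_one_add] at c2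
  have q4 : ψ 0 = 0 := by
    have := c2.det_eq one_ne_zero
    rw [det_mul, d0, det_one_add_vecMulVec] at this
    simpa [hA0] using this
  have q5 : bord δ 0 0 D' * (1 + vecMulVec (Pi.single 0 1) ψ) = bord δ (δ • tl ψ) 0 D' := by
    have : (1 + vecMulVec (Pi.single 0 1) ψ : Matrix (Fin (m + 3)) (Fin (m + 3)) F) =
        bord 1 (tl ψ) 0 1 := by
      rw [← bord_one]
      refine bord_ext ?_ (fun j => ?_) (fun i => ?_) (fun i j => ?_) <;>
        simp [vecMulVec_apply, q4, tl]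
    rw [this, bord_mul]; simp
  refine ⟨_, _, (c1.bord p1 δ).trans_one (cj_shear (hne.cj (inv_ne_zero p1) (c1.symm p1))
    (δ • tl ψ)), c2, ?_⟩
  rw [hA₀, mul_assoc, q5]

theorem lev (h4 : Four F) (hn : 2 ≤ n) {P A : Matrix (Fin (n + 1)) (Fin (n + 1)) F}
    {D : Matrix (Fin n) (Fin n) F} {δ : F} (hP : P.det ≠ 0) (hs : ∀ c : F, P ≠ c • 1)
    (hA : IsCyc A) (hD : IsCyc D) (hD0 : D.det ≠ 0) (hδ : δ ≠ 0) (hne : NE D δ)
    (hdet : A.det = P.det * (δ * D.det)) :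
    ∃ D₁ A₁, Cj 1 (bord δ 0 0 D) D₁ ∧ Cj 1 A A₁ ∧ P * D₁ = A₁ := by
  obtain ⟨m, rfl⟩ : ∃ m, n = m + 2 := ⟨n - 2, by omega⟩
  obtain ⟨e, he⟩ := exists_not_eigen hs
  have he0 : e ≠ 0 := by rintro rfl; exact he 0 (by simp)
  obtain ⟨φ, p1, p2, -⟩ := exists_avoid_three h4 he0 (mulVec_ne_zero (det_inv_ne hP) he0) he0
  obtain ⟨g, rfl, k⟩ := exists_pair p1
  obtain ⟨D₁, A₁, c1, c2, e⟩ := lev_aux h4 (P := (g⁻¹).1 * P * g.1) (by rwa [det_conj_SL])
    (fun e => he (((g⁻¹).1 * P * g.1) 0 0) (by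
      rw [← pair_mulVec, ← mulVec_smul, ← cons_tl (_ *ᵥ Pi.single 0 1), e, single_zero_eq_cons,
        smul_cons']
      simp [← single_zero_eq_cons]))
    (by rw [inv_conj_SL hP, ← mulVec_mulVec, ← mulVec_mulVec]; exact k _ p2) hA hD hD0 hδ hne
    (by rwa [det_conj_SL])
  have hg : g.1.det ≠ 0 := by rw [g.2]; exact one_ne_zero
  refine ⟨g.1 * D₁ * (g⁻¹).1, g.1 * A₁ * (g⁻¹).1, c1.trans_one (by simpa only [inv_inv] using (Cj.of_SL g⁻¹ D₁).symm_one),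
    c2.trans_one (by simpa only [inv_inv] using (Cj.of_SL g⁻¹ A₁).symm_one), ?_⟩
  rw [← e]
  simp only [mul_assoc]
  rw [← mul_assoc g.1 (g⁻¹).1, coe_mul_inv, one_mul]

/-- cyclic with the simple eigenvalue `β` -/
structure ST (β : F) (D : Matrix (Fin n) (Fin n) F) : Prop where
  ne : β ≠ 0
  det : D.det ≠ 0
  cyc : IsCyc D
  noEig : NE D β

theorem ST.inv {β : F} {D : Matrix (Fin n) (Fin n) F} (h : ST β D) : ST β⁻¹ D⁻¹ :=
  ⟨inv_ne_zero h.ne, det_inv_ne h.det, h.cyc.inv h.det, h.noEig.inv h.det h.ne⟩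

theorem ST.isCyc {β : F} {D : Matrix (Fin n) (Fin n) F} (h : ST β D) : IsCyc (bord β 0 0 D) := by
  obtain ⟨v, hv⟩ := h.cyc
  exact ⟨_, cyc_bord_diag h.noEig hv⟩

theorem ST.det_bord {β : F} {D : Matrix (Fin n) (Fin n) F} (h : ST β D) :
    (bord β 0 0 D).det ≠ 0 := by rw [det_bord_col]; exact mul_ne_zero h.ne h.det

theorem lev' (h4 : Four F) (hn : 2 ≤ n) {P A : Matrix (Fin (n + 1)) (Fin (n + 1)) F}
    {D : Matrix (Fin n) (Fin n) F} {β : F} (hP : P.det ≠ 0) (hs : ∀ c : F, P ≠ c • 1)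
    (hA : IsCyc A) (hD : ST β D) (hdet : P.det = A.det * (β * D.det)) :
    ∃ A₁ B₁, Cj 1 A A₁ ∧ Cj 1 (bord β 0 0 D) B₁ ∧ P = A₁ * B₁ := by
  obtain ⟨D₁, A₁, c1, c2, e⟩ := lev h4 hn hP hs hA hD.inv.cyc hD.inv.det hD.inv.ne hD.inv.noEig
    (by rw [hdet, det_inv']; have := hD.ne; have := hD.det; field_simp)
  have c3 := c1.inv one_ne_zero hD.inv.det_bord
  rw [← bord_diag_inv hD.ne hD.det, nonsing_inv_nonsing_inv _ (Ne.isUnit hD.det_bord)] at c3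
  refine ⟨A₁, D₁⁻¹, c2, c3, ?_⟩
  rw [← e, mul_assoc, mul_inv_det (c1.det_eq one_ne_zero ▸ hD.inv.det_bord), mul_one]

variable {x : Matrix (Fin (n + 1)) (Fin (n + 1)) F}

/-- covering the non-scalar matrices -/
theorem cover (h4 : Four F) (hn : 2 ≤ n) (hx : x.det ≠ 0) {a b : ℕ}
    {A : Matrix (Fin (n + 1)) (Fin (n + 1)) F} (h1 : PS x a A) (hA : IsCyc A) {β : F}
    {D : Matrix (Fin n) (Fin n) F} (hD : ST β D) (h2 : PS x b (bord β 0 0 D))
    {P : Matrix (Fin (n + 1)) (Fin (n + 1)) F} (hs : ∀ c : F, P ≠ c • 1)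
    (hP : P.det = x.det ^ (a + b)) : PS x (a + b) P := by
  obtain ⟨A₁, B₁, c1, c2, rfl⟩ := lev' h4 hn (hP ▸ pow_ne_zero _ hx) hs hA hD
    (by rw [hP, h1.det, ← det_bord_col β 0, h2.det, pow_add])
  exact (h1.target c1).mul (h2.target c2)

/-- one more factor gives every cyclic class with a simple eigenvalue -/
theorem ps_st (h4 : Four F) (hn : 2 ≤ n) (hx : x.det ≠ 0) (hs : ∀ c : F, x ≠ c • 1) {a : ℕ}
    {A : Matrix (Fin (n + 1)) (Fin (n + 1)) F} (h1 : PS x a A) (hA : IsCyc A) {β : F}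
    {D : Matrix (Fin n) (Fin n) F} (hD : ST β D) (hdet : β * D.det = x.det ^ (a + 1)) :
    PS x (a + 1) (bord β 0 0 D) := by
  have hA0 : A.det ≠ 0 := h1.det ▸ pow_ne_zero _ hx
  obtain ⟨A₁, B₁, c1, c2, e⟩ := lev' h4 hn hx hs (hA.inv hA0) hD
    (by rw [hdet, det_inv', h1.det, pow_succ]; field_simp)
  have c3 := c1.inv one_ne_zero (det_inv_ne hA0)
  rw [nonsing_inv_nonsing_inv _ (Ne.isUnit hA0)] at c3
  have h2 := PS.snoc (h1.target c3) (Cj.refl x)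
  rw [show A₁⁻¹ * x = B₁ by
    rw [e, inv_mul_cancel_l (c1.det_eq one_ne_zero ▸ det_inv_ne hA0)]] at h2
  exact h2.target c2.symm_one

/-- cyclic matrices with given determinant avoiding two eigenvalues -/
theorem exists_cyc_avoid (h4 : Four F) (hn : 2 ≤ n) {d a b : F} (ha : a ≠ 0) (hb : b ≠ 0) :
    ∃ D : Matrix (Fin n) (Fin n) F, IsCyc D ∧ D.det = d ∧ NE D a ∧ NE D b := by
  obtain ⟨m, rfl⟩ : ∃ m, n = m + 2 := ⟨n - 2, by omega⟩
  obtain ⟨s, s1, s2, -⟩ := h4 (-(a ^ (m + 2) + (-1) ^ (m + 2) * d) / a)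
    (-(b ^ (m + 2) + (-1) ^ (m + 2) * d) / b) 0
  have hd : (X ^ (m + 2) + (C s * X + C ((-1) ^ (m + 2) * d)) : F[X]).natDegree = m + 1 + 1 := by
    compute_degree!
  have hm : (X ^ (m + 2) + (C s * X + C ((-1) ^ (m + 2) * d)) : F[X]).Monic := by
    monicity!
    omega
  obtain ⟨M, h1, h2, h3⟩ := exists_cyc hm hd
  refine ⟨M, h1, ?_, NE.of_aeval h2 fun e => s1 ?_, NE.of_aeval h2 fun e => s2 ?_⟩
  · rw [h3, coeff_add, coeff_add, coeff_C_zero, coeff_X_pow, if_neg (by omega)]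
    simp [← mul_assoc, ← mul_pow]
  · simp only [eval_add, eval_pow, eval_X, eval_mul, eval_C] at e
    field_simp; linear_combination e
  · simp only [eval_add, eval_pow, eval_X, eval_mul, eval_C] at e
    field_simp; linear_combination e

theorem exists_st (h4 : Four F) (hn : 2 ≤ n) {d β b : F} (hd : d ≠ 0) (hβ : β ≠ 0) (hb : b ≠ 0) :
    ∃ D : Matrix (Fin n) (Fin n) F, ST β D ∧ β * D.det = d ∧ NE D b := by
  obtain ⟨D, h1, h2, h3, h5⟩ := exists_cyc_avoid h4 hn (d := β⁻¹ * d) hβ hb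
  exact ⟨D, ⟨hβ, h2 ▸ mul_ne_zero (inv_ne_zero hβ) hd, h1, h3⟩,
    by rw [h2, mul_inv_cancel_left₀ hβ], h5⟩

/-- `2 a + 1` factors suffice when `a` factors give a cyclic matrix -/
theorem cover_of_cyc (h4 : Four F) (hn : 2 ≤ n) (hx : x.det ≠ 0) (hs : ∀ c : F, x ≠ c • 1) {a : ℕ}
    {A : Matrix (Fin (n + 1)) (Fin (n + 1)) F} (h1 : PS x a A) (hA : IsCyc A)
    {P : Matrix (Fin (n + 1)) (Fin (n + 1)) F} (hP' : ∀ c : F, P ≠ c • 1)
    (hP : P.det = x.det ^ (a + (a + 1))) : PS x (a + (a + 1)) P := by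
  obtain ⟨D, h2, h3, -⟩ := exists_st h4 hn (pow_ne_zero (a + 1) hx) one_ne_zero one_ne_zero
  exact cover h4 hn hx h1 hA h2 (ps_st h4 hn hx hs h1 hA h2 h3) hP' hP

theorem pk_pow {ι : Type*} [Fintype ι] [DecidableEq ι] {K : F → Prop} {x σ : Matrix ι ι F}
    (hσ : σ.det ≠ 0) (hK : ∀ i, K (σ.det ^ i)) (k : ℕ) :
    ∃ g, PK K x k g ∧ g * σ ^ k = (x * σ) ^ k := by
  induction k with
  | zero => exact ⟨1, PK.zero, by simp⟩
  | succ k ih =>
    obtain ⟨g, h1, h2⟩ := ih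
    have h3 : (σ ^ k).det ≠ 0 := by rw [det_pow]; exact pow_ne_zero _ hσ
    refine ⟨_, h1.succ (hK k) (pow_ne_zero _ hσ) ⟨σ ^ k, det_pow _ _, intertwine_conj h3 x⟩, ?_⟩
    rw [pow_succ (x * σ), ← h2, pow_succ]
    simp only [mul_assoc, inv_mul_cancel_l h3]

theorem Cj.pow_eq {ι : Type*} [Fintype ι] [DecidableEq ι] {κ c : F} {a b : Matrix ι ι F}
    (h : Cj κ a b) (hκ : κ ≠ 0) {k : ℕ} (e : a ^ k = c • 1) : b ^ k = c • 1 := by
  refine Cj.eq_smul_one (κ := κ) ?_ hκ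
  obtain ⟨g, h1, h2⟩ := h
  exact ⟨g, h1, by rw [← e]; exact SemiconjBy.pow_right h2 k⟩

theorem bord_diag_pow (a : F) (D : Matrix (Fin n) (Fin n) F) (k : ℕ) :
    bord a 0 0 D ^ k = bord (a ^ k) 0 0 (D ^ k) := by
  induction k with
  | zero => rw [pow_zero, pow_zero, pow_zero, bord_one]
  | succ k ih => rw [pow_succ, ih, bord_diag_mul, pow_succ, pow_succ]

/-- the scalar `det x` is a product of `n` conjugates of `x` -/
theorem pk_scalar (h4 : Four F) (hn : 2 ≤ n) (hp : ((n + 1 : ℕ) : F) ≠ 0) (hx : x.det ≠ 0)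
    (hs : ∀ c : F, x ≠ c • 1) {K : F → Prop} (hK : ∀ i, K (((-1) ^ n) ^ i)) :
    PK K x (n + 1) (x.det • 1) := by
  obtain ⟨m, rfl⟩ : ∃ m, n = m + 1 := ⟨n - 1, by omega⟩
  obtain ⟨D, d1, d2, d3⟩ := exists_cyc (F := F) (n := m) (monic_geom_sum_X (n := m + 2) (by omega))
    (by
      apply natDegree_eq_of_degree_eq_some
      have := degree_sum_eq_of_disjoint (fun i => (X : F[X]) ^ i) (Finset.range (m + 2))
        (fun i _ j _ hij => by simpa using hij)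
      rw [this]
      simp only [degree_X_pow]
      exact le_antisymm (Finset.sup_le fun i hi => by
        exact_mod_cast Nat.lt_succ_iff.1 (Finset.mem_range.1 hi))
        (Finset.le_sup (f := fun i : ℕ => (i : WithBot ℕ)) (Finset.self_mem_range_succ _)))
  have d4 : D.det = (-1) ^ (m + 1) := by rw [d3]; simp [coeff_X_pow]
  obtain ⟨A, a1, a2, a3⟩ := exists_cyc (monic_X_pow_sub_C x.det (n := m + 2) (by omega))
    (n := m + 1) natDegree_X_pow_sub_C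
  obtain ⟨D₁, A₁, c1, c2, e⟩ := lev h4 hn hx hs a1 d1 (by rw [d4]; simp) one_ne_zero
    (NE.of_aeval d2 (by simpa [eval_finset_sum, add_assoc, one_add_one_eq_two] using hp))
    (by rw [a3, d4]; simp [coeff_X_pow, pow_succ, mul_comm])
  have d5 : D₁.det = (-1) ^ (m + 1) := by rw [← c1.det_eq one_ne_zero, det_bord_col, d4, one_mul]
  obtain ⟨g, g1, g2⟩ := pk_pow (K := K) (x := x) (σ := D₁) (by rw [d5]; simp) (by rwa [d5])
    (m + 1 + 1)
  have d6 : D ^ (m + 2) = 1 := by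
    have := congrArg (aeval D) (geom_sum_mul (X : F[X]) (m + 2))
    rw [map_mul, d2, zero_mul] at this
    simpa [sub_eq_zero] using this.symm
  rw [c1.pow_eq one_ne_zero (c := 1) (by rw [bord_diag_pow, d6, one_pow, bord_one, one_smul]),
    one_smul, mul_one, e, c2.pow_eq one_ne_zero (c := x.det) (by
      simpa [sub_eq_zero, Algebra.algebraMap_eq_smul_one] using a2)] at g2
  exact g2 ▸ g1

end Cfsg.Agent.Cov
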