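import Cfsg.Agent.Lib.Cov.Cases

/-!
# The lower bound; passing to the special linear group
-/

set_option autoImplicit false

namespace Cfsg.Agent.Cov

open Matrix Module SLn Polynomial

variable {F : Type*} [Field F] {n : ℕ}

theorem PK.exists_fn {x : SpecialLinearGroup (Fin n) F} {k : ℕ} {a : Matrix (Fin n) (Fin n) F}
    (h : PS x.1 k a) : ∃ f : Fin k → SpecialLinearGroup (Fin n) F,
      (List.ofFn fun i => f i * x * (f i)⁻¹).prod.1 = a := by
  induction h with
  | zero => exact ⟨Fin.elim0, by simp⟩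
  | succ _ h1 _ h3 ih =>
    obtain ⟨f, rfl⟩ := ih
    obtain ⟨g, hg, e⟩ := h3
    obtain ⟨G, rfl⟩ : ∃ G : SpecialLinearGroup (Fin n) F, G.1 = g := ⟨⟨g, hg.trans h1⟩, rfl⟩
    refine ⟨Fin.snoc f G, ?_⟩
    rw [List.ofFn_succ', List.prod_concat]
    simp only [Fin.snoc_castSucc, Fin.snoc_last, Matrix.SpecialLinearGroup.coe_mul]
    rw [e, mul_assoc, coe_mul_inv, mul_one]

theorem exists_fixed (l : List (SpecialLinearGroup (Fin n) F))
    (h : ∀ y ∈ l, ∃ φ : Fin n → F, ∀ w, φ ⬝ᵥ w = 0 → y.1 *ᵥ w = w) :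
    ∃ S : Submodule F (Fin n → F), n ≤ finrank F S + l.length ∧ ∀ w ∈ S, l.prod.1 *ᵥ w = w := by
  induction l with
  | nil => exact ⟨⊤, by simp, by simp⟩
  | cons y l ih =>
    obtain ⟨S, h1, h2⟩ := ih fun z hz => h z (by simp [hz])
    obtain ⟨φ, hφ⟩ := h y (by simp)
    refine ⟨S ⊓ LinearMap.ker (dotProductBilin F F φ), ?_, fun w hw => ?_⟩
    · have h3 := Submodule.finrank_sup_add_finrank_inf_eq S (LinearMap.ker (dotProductBilin F F φ))
      have h4 := Submodule.finrank_le (S ⊔ LinearMap.ker (dotProductBilin F F φ))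
      have h5 := (dotProductBilin F F φ).finrank_range_add_finrank_ker
      have h6 := Submodule.finrank_le (LinearMap.range (dotProductBilin F F φ))
      rw [finrank_self] at h6
      rw [List.length_cons]
      omega
    · rw [List.prod_cons, Matrix.SpecialLinearGroup.coe_mul, ← mulVec_mulVec, h2 w hw.1, hφ w hw.2]

theorem exists_noEig [Fintype F] (hn : 3 ≤ n) :
    ∃ M : Matrix (Fin n) (Fin n) F, M.det = 1 ∧ ∀ c, c ≠ 0 → NE M c := by
  classical
  obtain ⟨m, rfl⟩ : ∃ m, n = m + 3 := ⟨n - 3, by omega⟩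
  obtain ⟨⟨a, b⟩, h⟩ : ∃ p : F × F, ∀ q : Fˣ × F,
      (q.2, -(q.1 ^ (m + 3) + q.2 * q.1 ^ 2 + (-1) ^ (m + 3)) / q.1) ≠ p := by
    by_contra h
    push Not at h
    have := Fintype.card_le_of_surjective _ h
    rw [Fintype.card_prod, Fintype.card_prod, Fintype.card_units] at this
    have h1 : 0 < Fintype.card F := Fintype.card_pos
    have := Nat.le_of_mul_le_mul_right this h1
    omega
  have hd : (X ^ (m + 3) + (C a * X ^ 2 + C b * X + C ((-1) ^ (m + 3))) : F[X]).natDegree =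
      m + 2 + 1 := by
    compute_degree!
    simp
  have hm : (X ^ (m + 3) + (C a * X ^ 2 + C b * X + C ((-1) ^ (m + 3))) : F[X]).Monic := by
    rw [Monic, leadingCoeff, hd]
    simp [coeff_X, coeff_C, -map_pow]
  obtain ⟨M, -, h2, h3⟩ := exists_cyc hm hd
  refine ⟨M, ?_, fun c hc => NE.of_aeval h2 fun e => h (Units.mk0 c hc, a) ?_⟩
  · rw [h3, coeff_zero_eq_eval_zero]
    simp [← mul_pow]
  · simp only [eval_add, eval_pow, eval_X, eval_mul, eval_C] at e
    simp only [Units.val_mk0, Prod.mk.injEq, true_and]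
    field_simp
    linear_combination -e

theorem exists_low [Fintype F] (hn : 3 ≤ n) : ∃ x g : SpecialLinearGroup (Fin n) F,
    x ∉ Subgroup.center _ ∧ ∀ f : Fin (n - 1) → SpecialLinearGroup (Fin n) F,
      g⁻¹ * (List.ofFn fun i => f i * x * (f i)⁻¹).prod ∉ Subgroup.center _ := by
  obtain ⟨M, h1, h2⟩ := exists_noEig (F := F) hn
  let i : Fin n := ⟨0, by omega⟩
  let j : Fin n := ⟨1, by omega⟩
  have hij : i ≠ j := by simp [i, j]
  have h0 : (Pi.single j 1 : Fin n → F) ⬝ᵥ Pi.single i 1 = 0 := by simp [hij.symm]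
  refine ⟨tv _ _ h0, ⟨M, h1⟩, fun h => ?_, fun f h => ?_⟩
  · obtain ⟨c, -, e⟩ := exists_smul_of_mem_center h
    have := congrFun (tv_mulVec h0 (Pi.single j 1)) i
    rw [e] at this
    simp [hij] at this
  · obtain ⟨c, c1, e⟩ := exists_smul_of_mem_center h
    obtain ⟨S, s1, s2⟩ := exists_fixed (List.ofFn fun k => f k * tv _ _ h0 * (f k)⁻¹) (by
      simp only [List.mem_ofFn]
      rintro _ ⟨k, rfl⟩
      refine ⟨Pi.single j 1 ᵥ* ((f k)⁻¹).1, fun w hw => ?_⟩
      rw [Matrix.SpecialLinearGroup.coe_mul, Matrix.SpecialLinearGroup.coe_mul, ← mulVec_mulVec, ← mulVec_mulVec,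
        tv_mulVec, dotProduct_mulVec, hw, zero_smul, add_zero, mulVec_mulVec, coe_mul_inv,
        one_mulVec])
    rw [List.length_ofFn] at s1
    obtain ⟨w, hw, w0⟩ := S.ne_bot_iff.1 (Submodule.one_le_finrank_iff.1 (by omega))
    have hc : c ≠ 0 := by rintro rfl; simp [show n ≠ 0 by omega] at c1
    refine w0 (h2 _ (inv_ne_zero hc) w ?_)
    have := congrArg (fun A => M *ᵥ (A *ᵥ w)) e
    simp only [Matrix.SpecialLinearGroup.coe_mul] at this
    rw [← mulVec_mulVec, s2 w hw, mulVec_mulVec, smul_mulVec, one_mulVec, mulVec_smul,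
      show M * _ = 1 from coe_mul_inv ⟨M, h1⟩, one_mulVec] at this
    rw [eq_inv_smul_iff₀ hc, ← this]

end Cfsg.Agent.Cov
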