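import Cfsg.Agent.Lib.Cov.Basic

/-!
# Products of conjugates of a matrix; cyclic matrices; pole placement
-/

set_option autoImplicit false

namespace Cfsg.Agent.Cov

open Matrix Module Polynomial SLn

variable {F : Type*} [Field F]

section Cj

variable {ι : Type*} [Fintype ι] [DecidableEq ι]

/-- conjugate by a matrix of determinant `κ` -/
def Cj (κ : F) (x y : Matrix ι ι F) : Prop := ∃ g : Matrix ι ι F, g.det = κ ∧ g * x = y * g

theorem mul_inv_det {g : Matrix ι ι F} (h : g.det ≠ 0) : g * g⁻¹ = 1 :=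
  mul_nonsing_inv g (Ne.isUnit h)

theorem inv_mul_det {g : Matrix ι ι F} (h : g.det ≠ 0) : g⁻¹ * g = 1 :=
  nonsing_inv_mul g (Ne.isUnit h)

theorem det_inv' (g : Matrix ι ι F) : g⁻¹.det = g.det⁻¹ := by
  rw [det_nonsing_inv, Ring.inverse_eq_inv']

theorem det_inv_ne {g : Matrix ι ι F} (h : g.det ≠ 0) : g⁻¹.det ≠ 0 := by
  rw [det_inv']; exact inv_ne_zero h

theorem mul_inv_cancel_l {g : Matrix ι ι F} (h : g.det ≠ 0) (a : Matrix ι ι F) :
    g * (g⁻¹ * a) = a := by rw [← mul_assoc, mul_inv_det h, one_mul]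

theorem inv_mul_cancel_l {g : Matrix ι ι F} (h : g.det ≠ 0) (a : Matrix ι ι F) :
    g⁻¹ * (g * a) = a := by rw [← mul_assoc, inv_mul_det h, one_mul]

theorem mulVec_inv_cancel {g : Matrix ι ι F} (h : g.det ≠ 0) (v : ι → F) :
    g *ᵥ (g⁻¹ *ᵥ v) = v := by rw [mulVec_mulVec, mul_inv_det h, one_mulVec]

theorem inv_mulVec_cancel {g : Matrix ι ι F} (h : g.det ≠ 0) (v : ι → F) :
    g⁻¹ *ᵥ (g *ᵥ v) = v := by rw [mulVec_mulVec, inv_mul_det h, one_mulVec]

theorem mulVec_ne_zero {g : Matrix ι ι F} (h : g.det ≠ 0) {v : ι → F} (hv : v ≠ 0) :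
    g *ᵥ v ≠ 0 := fun e => hv (mulVec_inj_of_det h (by rw [e, mulVec_zero]))

theorem inv_intertwine {g x y : Matrix ι ι F} (hg : g.det ≠ 0) (h : g * x = y * g) :
    g⁻¹ * y = x * g⁻¹ := by
  calc g⁻¹ * y = g⁻¹ * (y * g) * g⁻¹ := by
        rw [mul_assoc, mul_assoc, mul_inv_det hg, mul_one]
    _ = x * g⁻¹ := by rw [← h, inv_mul_cancel_l hg]

theorem intertwine_conj {g : Matrix ι ι F} (hg : g.det ≠ 0) (x : Matrix ι ι F) :
    g * x = g * x * g⁻¹ * g := by rw [mul_assoc _ _ g, inv_mul_det hg, mul_one]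

theorem Cj.refl (x : Matrix ι ι F) : Cj 1 x x := ⟨1, det_one, by rw [one_mul, mul_one]⟩

theorem Cj.symm {κ : F} {x y : Matrix ι ι F} (h : Cj κ x y) (hκ : κ ≠ 0) : Cj κ⁻¹ y x := by
  obtain ⟨g, rfl, h⟩ := h
  exact ⟨g⁻¹, det_inv' g, inv_intertwine hκ h⟩

theorem Cj.symm_one {x y : Matrix ι ι F} (h : Cj 1 x y) : Cj 1 y x := by
  simpa using h.symm one_ne_zero

theorem Cj.trans {κ κ' : F} {x y z : Matrix ι ι F} (h : Cj κ x y) (h' : Cj κ' y z) :
    Cj (κ' * κ) x z := by
  obtain ⟨g, rfl, h⟩ := h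
  obtain ⟨g', rfl, h'⟩ := h'
  exact ⟨g' * g, det_mul _ _, by rw [mul_assoc, h, ← mul_assoc, h', mul_assoc]⟩

theorem Cj.trans_one {x y z : Matrix ι ι F} (h : Cj 1 x y) (h' : Cj 1 y z) : Cj 1 x z := by
  simpa using h.trans h'

theorem Cj.det_eq {κ : F} {x y : Matrix ι ι F} (h : Cj κ x y) (hκ : κ ≠ 0) : x.det = y.det := by
  obtain ⟨g, rfl, h⟩ := h
  have := congrArg det h
  rw [det_mul, det_mul, mul_comm] at this
  exact mul_right_cancel₀ hκ this

theorem Cj.inv {κ : F} {x y : Matrix ι ι F} (h : Cj κ x y) (hκ : κ ≠ 0) (hx : x.det ≠ 0) :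
    Cj κ x⁻¹ y⁻¹ := by
  have hy : y.det ≠ 0 := h.det_eq hκ ▸ hx
  obtain ⟨g, rfl, h⟩ := h
  refine ⟨g, rfl, ?_⟩
  calc g * x⁻¹ = y⁻¹ * (y * g) * x⁻¹ := by rw [inv_mul_cancel_l hy]
    _ = y⁻¹ * g := by rw [← h, mul_assoc, mul_assoc, mul_inv_det hx, mul_one]

theorem Cj.smul {κ : F} {x y : Matrix ι ι F} (h : Cj κ x y) (c : F) : Cj κ (c • x) (c • y) := by
  obtain ⟨g, rfl, h⟩ := h
  exact ⟨g, rfl, by rw [mul_smul_comm, h, smul_mul_assoc]⟩

theorem Cj.eq_smul_one {κ c : F} {y : Matrix ι ι F} (h : Cj κ (c • 1) y) (hκ : κ ≠ 0) :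
    y = c • 1 := by
  obtain ⟨g, rfl, h⟩ := h
  calc y = y * g * g⁻¹ := by rw [mul_assoc, mul_inv_det hκ, mul_one]
    _ = _ := by rw [← h, mul_smul_comm, mul_one, smul_mul_assoc, mul_inv_det hκ]

theorem Cj.not_scalar {κ : F} {x y : Matrix ι ι F} (h : Cj κ x y) (hκ : κ ≠ 0)
    (hx : ∀ c : F, x ≠ c • 1) (c : F) : y ≠ c • 1 := by
  rintro rfl
  exact hx c ((h.symm hκ).eq_smul_one (inv_ne_zero hκ))

theorem Cj.of_SL (g : SpecialLinearGroup ι F) (x : Matrix ι ι F) :
    Cj 1 ((g⁻¹).1 * x * g.1) x :=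
  ⟨g.1, g.2, by rw [← mul_assoc, ← mul_assoc, coe_mul_inv, one_mul]⟩

theorem Cj.mul_comm {a b : Matrix ι ι F} : Cj a.det (b * a) (a * b) :=
  ⟨a, rfl, (mul_assoc _ _ _).symm⟩

/-- products of `k` conjugates of `x` by matrices whose determinant satisfies `K` -/
inductive PK (K : F → Prop) (x : Matrix ι ι F) : ℕ → Matrix ι ι F → Prop
  | zero : PK K x 0 1
  | succ {k : ℕ} {a y : Matrix ι ι F} {κ : F} : PK K x k a → K κ → κ ≠ 0 → Cj κ x y →
      PK K x (k + 1) (a * y)

/-- products of conjugates under the special linear group -/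
abbrev PS (x : Matrix ι ι F) := PK (· = 1) x

/-- products of conjugates under the general linear group -/
abbrev PG (x : Matrix ι ι F) := PK (fun _ => True) x

variable {K K' : F → Prop} {x x' a a' b : Matrix ι ι F} {k l : ℕ}

theorem PK.mono (h : PK K x k a)
    (hK : ∀ κ y, K κ → κ ≠ 0 → Cj κ x y → ∃ κ', K' κ' ∧ κ' ≠ 0 ∧ Cj κ' x' y) : PK K' x' k a := by
  induction h with
  | zero => exact PK.zero
  | succ _ h1 h2 h3 ih =>
    obtain ⟨κ', h4, h5, h6⟩ := hK _ _ h1 h2 h3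
    exact ih.succ h4 h5 h6

theorem PK.pg (h : PK K x k a) : PG x k a := h.mono fun κ _ _ h2 h3 => ⟨κ, trivial, h2, h3⟩

theorem PK.base (h : PK K x k a) (hx : Cj 1 x' x) : PK K x' k a :=
  h.mono fun κ _ h1 h2 h3 => ⟨κ, h1, h2, by simpa using hx.trans h3⟩

theorem PK.conj (h : PK K x k a) {g : Matrix ι ι F} (hg : g.det ≠ 0) (hx : g * x = x' * g) :
    PK K x' k (g * a * g⁻¹) := by
  induction h with
  | zero => rw [mul_one, mul_inv_det hg]; exact PK.zero
  | @succ k a y κ _ h1 h2 h3 ih =>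
    have : g * (a * y) * g⁻¹ = g * a * g⁻¹ * (g * y * g⁻¹) := by
      simp only [mul_assoc, inv_mul_cancel_l hg]
    rw [this]
    refine ih.succ h1 h2 ?_
    have h4 := ((Cj.symm ⟨g, rfl, hx⟩ hg).trans h3).trans ⟨g, rfl, intertwine_conj hg y⟩
    rwa [mul_left_comm, mul_inv_cancel₀ hg, mul_one] at h4

theorem PK.conj' (h : PK K x k a) {g : Matrix ι ι F} (hg : g.det ≠ 0) (hx : g * x = x' * g)
    (ha : g * a = a' * g) : PK K x' k a' := by
  have := h.conj hg hx
  rwa [ha, mul_assoc, mul_inv_det hg, mul_one] at this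

theorem PK.target (h : PK K x k a) (ha : Cj 1 a a') : PK K x k a' := by
  obtain ⟨g, hg, ha⟩ := ha
  have hg' : g.det ≠ 0 := by rw [hg]; exact one_ne_zero
  exact (h.conj' hg' (intertwine_conj hg' x) ha).base ⟨g, hg, intertwine_conj hg' x⟩

theorem PG.target {κ : F} (h : PG x k a) (hκ : κ ≠ 0) (ha : Cj κ a a') : PG x k a' := by
  obtain ⟨g, rfl, ha⟩ := ha
  exact (h.conj' hκ (intertwine_conj hκ x) ha).mono fun κ _ _ h2 h3 =>
    ⟨_, trivial, mul_ne_zero h2 hκ, Cj.trans ⟨g, rfl, intertwine_conj hκ x⟩ h3⟩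

theorem PK.mul (h : PK K x k a) (h' : PK K x l b) : PK K x (k + l) (a * b) := by
  induction h' with
  | zero => rwa [mul_one]
  | succ _ h1 h2 h3 ih => rw [← mul_assoc]; exact ih.succ h1 h2 h3

theorem PK.single {κ : F} (h1 : K κ) (h2 : κ ≠ 0) (h : Cj κ x a) : PK K x 1 a := by
  simpa using PK.zero.succ h1 h2 h

theorem PS.single (h : Cj 1 x a) : PS x 1 a := PK.single rfl one_ne_zero h

theorem PS.snoc {y : Matrix ι ι F} (h : PS x k a) (h' : Cj 1 x y) : PS x (k + 1) (a * y) :=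
  h.succ rfl one_ne_zero h'

theorem PS.cons {y : Matrix ι ι F} (h' : Cj 1 x y) (h : PS x k a) : PS x (k + 1) (y * a) := by
  rw [add_comm]; exact (PS.single h').mul h

theorem PK.det (h : PK K x k a) : a.det = x.det ^ k := by
  induction h with
  | zero => simp
  | succ _ _ h2 h3 ih => rw [det_mul, ih, ← h3.det_eq h2, pow_succ]

theorem PK.smul (h : PK K x k a) (c : F) : PK K (c • x) k (c ^ k • a) := by
  induction h with
  | zero => simpa using PK.zero
  | succ _ h1 h2 h3 ih =>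
    have := ih.succ h1 h2 (h3.smul c)
    rwa [smul_mul_smul_comm, ← pow_succ] at this

/-- `v` is a cyclic vector of `A` -/
def Cyc (A : Matrix ι ι F) (v : ι → F) : Prop := gen A.mulVecLin {v} = ⊤

/-- `A` has a cyclic vector -/
def IsCyc (A : Matrix ι ι F) : Prop := ∃ v, Cyc A v

theorem cyc_iff {A : Matrix ι ι F} {v : ι → F} :
    Cyc A v ↔ ∀ S : Submodule F (ι → F), (∀ w ∈ S, A *ᵥ w ∈ S) → v ∈ S → S = ⊤ :=
  ⟨fun h S h1 h2 => eq_top_iff.2 (by
      rw [← show gen A.mulVecLin {v} = ⊤ from h]; exact gen_single_le (A := A.mulVecLin) h1 h2),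
    fun h => h _ (gen_inv _ _) (mem_gen_self _ _)⟩

theorem Cyc.conj {A A' g : Matrix ι ι F} {v : ι → F} (h : Cyc A v) (hg : g.det ≠ 0)
    (e : g * A = A' * g) : Cyc A' (g *ᵥ v) := by
  have := gen_map (A := A'.mulVecLin) (A' := A.mulVecLin) (ι := g.mulVecLin)
    (fun w => by simp [e]) {v}
  rw [show gen A.mulVecLin {v} = ⊤ from h, Set.image_singleton, Submodule.map_top,
    LinearMap.range_eq_top.2 fun y => exists_mulVec_eq_of_det hg y] at this
  exact this.symm

theorem IsCyc.cj {κ : F} {A A' : Matrix ι ι F} (h : IsCyc A) (hκ : κ ≠ 0) (e : Cj κ A A') :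
    IsCyc A' := by
  obtain ⟨v, h⟩ := h
  obtain ⟨g, rfl, e⟩ := e
  exact ⟨_, h.conj hκ e⟩

theorem inv_mem_of_inv {A : Matrix ι ι F} (hA : A.det ≠ 0) {S : Submodule F (ι → F)}
    (hS : ∀ w ∈ S, A *ᵥ w ∈ S) {w : ι → F} (hw : w ∈ S) : A⁻¹ *ᵥ w ∈ S := by
  obtain ⟨u, hu, rfl⟩ := Inv.exists_preimage (N := A.mulVecLin) hS
    (fun w _ h => mulVec_inj_of_det hA (h.trans (mulVec_zero _).symm)) hw
  rwa [mulVecLin_apply, inv_mulVec_cancel hA]

theorem Cyc.inv {A : Matrix ι ι F} {v : ι → F} (h : Cyc A v) (hA : A.det ≠ 0) : Cyc A⁻¹ v := by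
  rw [cyc_iff] at h ⊢
  refine fun S hS hv => h S (fun w hw => ?_) hv
  have := inv_mem_of_inv (det_inv_ne hA) hS hw
  rwa [nonsing_inv_nonsing_inv _ (Ne.isUnit hA)] at this

theorem IsCyc.inv {A : Matrix ι ι F} (h : IsCyc A) (hA : A.det ≠ 0) : IsCyc A⁻¹ :=
  h.imp fun _ h => h.inv hA

theorem aeval_mem {A : Matrix ι ι F} {S : Submodule F (ι → F)} (hS : ∀ w ∈ S, A *ᵥ w ∈ S)
    (p : F[X]) {w : ι → F} (hw : w ∈ S) : aeval A p *ᵥ w ∈ S := by
  induction p using Polynomial.induction_on' with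
  | add p q hp hq => rw [map_add, add_mulVec]; exact S.add_mem hp hq
  | monomial n c =>
    rw [aeval_monomial, Algebra.algebraMap_eq_smul_one, smul_one_mul, smul_mulVec]
    refine S.smul_mem _ ?_
    induction n with
    | zero => simpa using hw
    | succ n ih => rw [pow_succ', ← mulVec_mulVec]; exact hS _ ih

theorem exists_aeval_of_mem_gen {A : Matrix ι ι F} {v w : ι → F} (hw : w ∈ gen A.mulVecLin {v}) :
    ∃ p : F[X], aeval A p *ᵥ v = w := by
  let T : Submodule F (ι → F) :=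
    { carrier := {w | ∃ p : F[X], aeval A p *ᵥ v = w}
      add_mem' := by
        rintro _ _ ⟨p, rfl⟩ ⟨q, rfl⟩
        exact ⟨p + q, by rw [map_add, add_mulVec]⟩
      zero_mem' := ⟨0, by simp⟩
      smul_mem' := by
        rintro c _ ⟨p, rfl⟩
        exact ⟨c • p, by rw [map_smul, smul_mulVec]⟩ }
  refine gen_single_le (S := T) ?_ ⟨1, by simp⟩ hw
  rintro _ ⟨p, rfl⟩
  exact ⟨X * p, by simp⟩

theorem Cyc.aeval_eq_zero {A : Matrix ι ι F} {v : ι → F} (h : Cyc A v) {p : F[X]}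
    (hp : aeval A p *ᵥ v = 0) : aeval A p = 0 := by
  have : LinearMap.ker (aeval A p).mulVecLin = ⊤ := cyc_iff.1 h _ (fun w hw => by
    rw [LinearMap.mem_ker, mulVecLin_apply] at hw ⊢
    rw [mulVec_mulVec, show aeval A p * A = A * aeval A p by
      simpa using congrArg (aeval A) (mul_comm p X), ← mulVec_mulVec, hw, mulVec_zero]) hp
  ext i j
  have h1 : (Pi.single j 1 : ι → F) ∈ LinearMap.ker (aeval A p).mulVecLin :=
    this ▸ Submodule.mem_top
  simpa using congrFun h1 i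

theorem aeval_eigen {A : Matrix ι ι F} {v : ι → F} {c : F} (h : A *ᵥ v = c • v) (p : F[X]) :
    aeval A p *ᵥ v = p.eval c • v := by
  induction p using Polynomial.induction_on' with
  | add p q hp hq => rw [map_add, add_mulVec, hp, hq, eval_add, add_smul]
  | monomial n a =>
    rw [aeval_monomial, Algebra.algebraMap_eq_smul_one, smul_one_mul, smul_mulVec, eval_monomial,
      mul_smul]
    congr 1
    induction n with
    | zero => simp
    | succ n ih => rw [pow_succ', ← mulVec_mulVec, ih, mulVec_smul, h, smul_smul, pow_succ]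

/-- `c` is not an eigenvalue -/
def NE (A : Matrix ι ι F) (c : F) : Prop := ∀ v, A *ᵥ v = c • v → v = 0

theorem NE.det {A : Matrix ι ι F} {c : F} (h : NE A c) : (A - c • 1).det ≠ 0 := by
  rw [Ne, ← exists_mulVec_eq_zero_iff]
  rintro ⟨v, hv, e⟩
  exact hv (h v (by rwa [sub_mulVec, smul_mulVec, one_mulVec, sub_eq_zero] at e))

theorem NE.inv {A : Matrix ι ι F} {c : F} (h : NE A c) (hA : A.det ≠ 0) (hc : c ≠ 0) :
    NE A⁻¹ c⁻¹ := fun v hv => h v (by
  have := congrArg (A *ᵥ ·) hv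
  simp only [mulVec_inv_cancel hA, mulVec_smul] at this
  rw [congrArg (c • ·) this, smul_smul, mul_inv_cancel₀ hc, one_smul])

theorem NE.of_aeval {A : Matrix ι ι F} {c : F} {p : F[X]} (h : aeval A p = 0)
    (hc : p.eval c ≠ 0) : NE A c := fun v hv => by
  have := aeval_eigen hv p
  rw [h, zero_mulVec] at this
  exact (smul_eq_zero.1 this.symm).resolve_left hc

theorem NE.cj {κ c : F} {A A' : Matrix ι ι F} (h : NE A c) (hκ : κ ≠ 0) (e : Cj κ A' A) :
    NE A' c := by
  obtain ⟨g, rfl, e⟩ := e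
  intro v hv
  by_contra h0
  exact mulVec_ne_zero hκ h0 (h _ (by rw [mulVec_mulVec, ← e, ← mulVec_mulVec, hv, mulVec_smul]))

theorem Cyc.sub_smul {A : Matrix ι ι F} {v : ι → F} {c : F} (h : Cyc A v) (hc : NE A c) :
    Cyc A (A *ᵥ v - c • v) := by
  rw [cyc_iff] at h ⊢
  refine fun S hS hv => h S hS ?_
  have h1 : ∀ w, (A - c • 1) *ᵥ w = A *ᵥ w - c • w := fun w => by
    rw [sub_mulVec, smul_mulVec, one_mulVec]
  have := inv_mem_of_inv hc.det (S := S)
    (fun w hw => by rw [h1]; exact S.sub_mem (hS w hw) (S.smul_mem _ hw)) hv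
  rwa [← h1, inv_mulVec_cancel hc.det] at this

end Cj

section Fin

variable {n : ℕ}

theorem bord_diag_mul (a b : F) (D E : Matrix (Fin n) (Fin n) F) :
    bord a 0 0 D * bord b 0 0 E = bord (a * b) 0 0 (D * E) := by
  rw [bord_mul]; simp

theorem bord_diag_inv {a : F} (ha : a ≠ 0) {D : Matrix (Fin n) (Fin n) F} (hD : D.det ≠ 0) :
    (bord a 0 0 D)⁻¹ = bord a⁻¹ 0 0 D⁻¹ :=
  inv_eq_right_inv (by rw [bord_diag_mul, mul_inv_cancel₀ ha, mul_inv_det hD, bord_one])

theorem bord_smul (c a : F) (r s : Fin n → F) (D : Matrix (Fin n) (Fin n) F) :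
    c • bord a r s D = bord (c * a) (c • r) (c • s) (c • D) :=
  bord_ext rfl (fun _ => rfl) (fun _ => rfl) (fun _ _ => rfl)

theorem Cj.bord {κ : F} {y y' : Matrix (Fin n) (Fin n) F} (h : Cj κ y y') (hκ : κ ≠ 0) (ε : F) :
    Cj 1 (bord ε 0 0 y) (bord ε 0 0 y') := by
  obtain ⟨g, rfl, h⟩ := h
  exact ⟨SLn.bord g.det⁻¹ 0 0 g, by rw [det_bord_col, inv_mul_cancel₀ hκ],
    by rw [bord_diag_mul, bord_diag_mul, h, _root_.mul_comm]⟩

theorem Cj.adjust {κ ε : F} {y : Matrix (Fin n) (Fin n) F}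
    {z : Matrix (Fin (n + 1)) (Fin (n + 1)) F} (h : Cj κ (SLn.bord ε 0 0 y) z) (hκ : κ ≠ 0) :
    Cj 1 (SLn.bord ε 0 0 y) z := by
  have h1 : Cj κ⁻¹ (SLn.bord ε 0 0 y) (SLn.bord ε 0 0 y) :=
    ⟨SLn.bord κ⁻¹ 0 0 1, by rw [det_bord_col, det_one, mul_one],
      by rw [bord_diag_mul, bord_diag_mul, _root_.mul_comm κ⁻¹, one_mul, mul_one]⟩
  simpa [hκ] using h1.trans h

theorem PK.bord {K : F → Prop} {y a : Matrix (Fin n) (Fin n) F} {k : ℕ} (h : PK K y k a) (ε : F) :
    PS (bord ε 0 0 y) k (bord (ε ^ k) 0 0 a) := by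
  induction h with
  | zero => rw [pow_zero, bord_one]; exact PK.zero
  | succ _ _ h2 h3 ih => rw [pow_succ, ← bord_diag_mul]; exact PS.snoc ih (h3.bord h2 ε)

theorem PG.ps {ε : F} {y : Matrix (Fin n) (Fin n) F} {a : Matrix (Fin (n + 1)) (Fin (n + 1)) F}
    {k : ℕ} (h : PG (bord ε 0 0 y) k a) : PS (bord ε 0 0 y) k a :=
  h.mono fun _ _ _ h2 h3 => ⟨1, rfl, one_ne_zero, h3.adjust h2⟩

/-- a simple eigenvalue splits off -/
theorem cj_shear {β : F} {D : Matrix (Fin n) (Fin n) F} (h : NE D β) (r : Fin n → F) :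
    Cj 1 (bord β 0 0 D) (bord β r 0 D) := by
  refine ⟨bord 1 (r ᵥ* (D - β • 1)⁻¹) 0 1, by rw [det_bord_col, det_one, mul_one], ?_⟩
  rw [bord_mul, bord_mul]
  have : r ᵥ* (D - β • 1)⁻¹ ᵥ* (D - β • 1) = r := by
    rw [vecMul_vecMul, inv_mul_det h.det, vecMul_one]
  rw [vecMul_sub, vecMul_smul, vecMul_one] at this
  congr 1
  · simp
  · rw [vecMul_one, smul_zero]
    linear_combination (exp := 1) this
  · simp
  · simp

theorem cons_add_cons (a b : F) (u w : Fin n → F) :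
    (Fin.cons a u : Fin (n + 1) → F) + Fin.cons b w = Fin.cons (a + b) (u + w) := by
  ext i; refine Fin.cases ?_ (fun i => ?_) i <;> simp

theorem smul_cons' (c a : F) (u : Fin n → F) :
    c • (Fin.cons a u : Fin (n + 1) → F) = Fin.cons (c * a) (c • u) := by
  ext i; refine Fin.cases ?_ (fun i => ?_) i <;> simp

theorem cons_zero_zero : (Fin.cons 0 0 : Fin (n + 1) → F) = 0 := by
  ext i; refine Fin.cases ?_ (fun i => ?_) i <;> simp

/-- `w ↦ (0, w)` -/
def cons0 : (Fin n → F) →ₗ[F] (Fin (n + 1) → F) where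
  toFun w := Fin.cons 0 w
  map_add' u w := by rw [cons_add_cons, add_zero]
  map_smul' c w := by rw [RingHom.id_apply, smul_cons', mul_zero]

theorem cons0_apply (w : Fin n → F) : cons0 w = (Fin.cons 0 w : Fin (n + 1) → F) := rfl

/-- forget the first coordinate -/
def tl : (Fin (n + 1) → F) →ₗ[F] (Fin n → F) where
  toFun v i := v i.succ
  map_add' _ _ := rfl
  map_smul' _ _ := rfl

@[simp] theorem tl_cons (a : F) (w : Fin n → F) : tl (Fin.cons a w : Fin (n + 1) → F) = w := rfl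

theorem cons_tl (v : Fin (n + 1) → F) : Fin.cons (v 0) (tl v) = v := Fin.cons_self_tail v

theorem cyc_bord_diag {β : F} {D : Matrix (Fin n) (Fin n) F} (h : NE D β) {v : Fin n → F}
    (hv : Cyc D v) : Cyc (bord β 0 0 D) (Fin.cons 1 v) := by
  have h1 := hv.sub_smul h
  rw [cyc_iff] at h1 ⊢
  intro S hS hm
  have h2 : S.comap cons0 = ⊤ := h1 _ (fun w hw => by
    have := hS _ hw
    rw [cons0_apply, bord_mulVec] at this
    simpa [cons0_apply] using this) (by
    have := S.sub_mem (hS _ hm) (S.smul_mem β hm)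
    rw [bord_mulVec, smul_cons', sub_eq_add_neg, ← neg_one_smul F, smul_cons', cons_add_cons] at this
    simpa [cons0_apply, sub_eq_add_neg] using this)
  refine eq_top_iff.2 fun w _ => ?_
  have h3 : cons0 (tl w - w 0 • v) ∈ S := show _ ∈ S.comap cons0 from h2 ▸ Submodule.mem_top
  have := S.add_mem h3 (S.smul_mem (w 0) hm)
  rwa [cons0_apply, smul_cons', cons_add_cons, sub_add_cancel, zero_add, mul_one, cons_tl] at this

theorem NE.bord {β c : F} {D : Matrix (Fin n) (Fin n) F} (h : NE D c) (hc : β ≠ c) :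
    NE (bord β 0 0 D) c := by
  intro v hv
  rw [← cons_tl v, bord_mulVec, smul_cons'] at hv
  have h1 := congrFun hv 0
  have h2 := congrArg tl hv
  simp only [Fin.cons_zero, zero_dotProduct, add_zero] at h1
  simp only [tl_cons, smul_zero, zero_add] at h2
  rw [← cons_tl v, h _ h2, (mul_eq_zero.1 (show (β - c) * v 0 = 0 by
    rw [sub_mul, h1, sub_self])).resolve_left (sub_ne_zero.2 hc), cons_zero_zero]

/-- upper Hessenberg with ones below the diagonal -/
def HU (H : Matrix (Fin n) (Fin n) F) : Prop :=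
  (∀ i j : Fin n, j.val + 1 < i.val → H i j = 0) ∧ ∀ i j : Fin n, i.val = j.val + 1 → H i j = 1

theorem HU.bord {D : Matrix (Fin (n + 1)) (Fin (n + 1)) F} (h : HU D) (a : F)
    (r : Fin (n + 1) → F) : HU (bord a r (Pi.single 0 1) D) := by
  constructor
  · intro i j
    refine Fin.cases ?_ (fun i => ?_) i <;> refine Fin.cases ?_ (fun j => ?_) j <;> intro hij
    · simp at hij
    · simp at hij
    · rw [bord_succ_zero, Pi.single_eq_of_ne]
      intro e; simp [e] at hij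
    · exact h.1 i j (by simpa using hij)
  · intro i j
    refine Fin.cases ?_ (fun i => ?_) i <;> refine Fin.cases ?_ (fun j => ?_) j <;> intro hij
    · simp at hij
    · simp at hij
    · rw [bord_succ_zero, show i = 0 from Fin.ext (by simpa using hij), Pi.single_eq_same]
    · exact h.2 i j (by simpa using hij)

theorem HU.vlead {H : Matrix (Fin n) (Fin n) F} (h : HU H) {v : Fin n → F} {j : ℕ}
    (hv : VLead v j) : VLead (H *ᵥ v) (j + 1) := by
  refine ⟨hess_mem h.1 hv.1, fun i hi => ?_⟩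
  rw [hess_apply h.1 (j := ⟨j, by omega⟩) hv.1 hi, h.2 _ _ hi, hv.2 _ rfl, mul_one]

theorem eq_top_of_det_cols {u : ℕ → Fin n → F} (h : (cols u).det ≠ 0)
    {S : Submodule F (Fin n → F)} (hS : ∀ j < n, u j ∈ S) : S = ⊤ := by
  refine eq_top_iff.2 fun w _ => ?_
  obtain ⟨y, rfl⟩ := exists_mulVec_eq_of_det h w
  rw [← Finset.univ_sum_single y, mulVec_sum]
  refine S.sum_mem fun j _ => ?_
  rw [show (Pi.single j (y j) : Fin n → F) = y j • Pi.single j 1 by simp [← Pi.single_smul],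
    mulVec_smul, cols_mulVec_single]
  exact S.smul_mem _ (hS j j.2)

theorem det_cols_ne {u : ℕ → Fin n → F}
    (h : ∀ S : Submodule F (Fin n → F), (∀ j < n, u j ∈ S) → S = ⊤) : (cols u).det ≠ 0 := by
  have h1 := h (LinearMap.range (cols u).mulVecLin) fun j hj =>
    ⟨Pi.single ⟨j, hj⟩ 1, cols_mulVec_single u ⟨j, hj⟩⟩
  exact ((isUnit_iff_isUnit_det _).1 (mulVec_surjective_iff_isUnit.1
    (LinearMap.range_eq_top.1 h1))).ne_zero

/-- Horner vectors -/
noncomputable def hb (A : Matrix (Fin n) (Fin n) F) (v : Fin n → F) (p : F[X]) (i : ℕ) :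
    Fin n → F := aeval A (divX^[i] p) *ᵥ v

theorem coeff_iter_divX (p : F[X]) (j i : ℕ) : (divX^[j] p).coeff i = p.coeff (i + j) := by
  induction j generalizing i with
  | zero => rfl
  | succ j ih => rw [Function.iterate_succ_apply', coeff_divX, ih, add_right_comm, add_assoc]

theorem hb_eq (A : Matrix (Fin n) (Fin n) F) (v : Fin n → F) (p : F[X]) (i : ℕ) :
    hb A v p i = A *ᵥ hb A v p (i + 1) + p.coeff i • v := by
  unfold hb
  conv_lhs => rw [← X_mul_divX_add (divX^[i] p)]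
  rw [Function.iterate_succ_apply', coeff_iter_divX, zero_add, map_add, map_mul, aeval_X, aeval_C,
    add_mulVec, mulVec_mulVec, Algebra.algebraMap_eq_smul_one, smul_mulVec, one_mulVec]

theorem hb_top (A : Matrix (Fin n) (Fin n) F) (v : Fin n → F) {p : F[X]} (hp : p.Monic) {m : ℕ}
    (hm : p.natDegree = m) : hb A v p m = v := by
  have : divX^[m] p = 1 := by
    ext i
    rw [coeff_iter_divX, coeff_one]
    split_ifs with h
    · rw [h, zero_add, ← hm]; exact hp
    · exact coeff_eq_zero_of_natDegree_lt (by omega)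
  rw [hb, this, map_one, one_mulVec]

/-- the matrix of Horner vectors -/
noncomputable def hor (A : Matrix (Fin n) (Fin n) F) (v : Fin n → F) (p : F[X]) :
    Matrix (Fin n) (Fin n) F := cols fun j => hb A v p (n - j)

theorem hb_conj {A H g : Matrix (Fin n) (Fin n) F} (e : A * g = g * H) (v : Fin n → F) (p : F[X])
    (i : ℕ) : hb A (g *ᵥ v) p i = g *ᵥ hb H v p i := by
  unfold hb
  rw [mulVec_mulVec, mulVec_mulVec]
  congr 1
  induction (divX^[i] p) using Polynomial.induction_on' with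
  | add p q hp hq => rw [map_add, map_add, add_mul, mul_add, hp, hq]
  | monomial k c =>
    rw [aeval_monomial, aeval_monomial, Algebra.algebraMap_eq_smul_one, smul_one_mul, smul_one_mul,
      smul_mul_assoc, mul_smul_comm]
    congr 1
    induction k with
    | zero => simp
    | succ k ih => rw [pow_succ', pow_succ', mul_assoc, ih, ← mul_assoc, e, mul_assoc]

theorem hor_conj {A H g : Matrix (Fin n) (Fin n) F} (e : A * g = g * H) (v : Fin n → F) (p : F[X]) :
    hor A (g *ᵥ v) p = g * hor H v p := by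
  rw [hor, hor, mul_cols]
  exact cols_congr fun j _ => hb_conj e v p _

theorem HU.det_hor {H : Matrix (Fin (n + 1)) (Fin (n + 1)) F} (h : HU H) {p : F[X]} (hp : p.Monic)
    (hn : p.natDegree = n + 1) : (hor H (Pi.single 0 1) p).det = 1 := by
  refine det_cols_vlead fun j hj => ?_
  induction j with
  | zero => rw [Nat.sub_zero, hb_top _ _ hp hn]; exact vlead_single 0
  | succ j ih =>
    rw [hb_eq, show n + 1 - (j + 1) + 1 = n + 1 - j by omega]
    exact (h.vlead (ih (by omega))).add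
      (Submodule.smul_mem _ _ (vlt_mono (by simp) (vlead_single (0 : Fin (n + 1))).1))

theorem natDegree_charpoly (A : Matrix (Fin n) (Fin n) F) : A.charpoly.natDegree = n := by
  rw [charpoly_natDegree_eq_dim, Fintype.card_fin]

theorem hb_charpoly (A : Matrix (Fin n) (Fin n) F) (v : Fin n → F) : hb A v A.charpoly 0 = 0 := by
  rw [hb, Function.iterate_zero, id, aeval_self_charpoly, zero_mulVec]

theorem HU.cyc {H : Matrix (Fin (n + 1)) (Fin (n + 1)) F} (h : HU H) : Cyc H (Pi.single 0 1) :=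
  cyc_iff.2 fun _ hS hv => eq_top_of_det_cols (u := fun j => hb H _ H.charpoly (n + 1 - j))
    (by rw [← hor, h.det_hor (charpoly_monic H) (natDegree_charpoly H)]; exact one_ne_zero)
    fun _ _ => aeval_mem hS _ hv

theorem Cyc.det_hor {A : Matrix (Fin n) (Fin n) F} {v : Fin n → F} (h : Cyc A v) :
    (hor A v A.charpoly).det ≠ 0 := by
  refine det_cols_ne fun S hS => ?_
  rcases Nat.eq_zero_or_pos n with rfl | hn
  · exact Subsingleton.elim _ _
  have h1 : ∀ i ≤ n, hb A v A.charpoly i ∈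
      Submodule.span F {w | ∃ j < n, w = hb A v A.charpoly (n - j)} := by
    intro i hi
    rcases Nat.eq_zero_or_pos i with rfl | h0
    · rw [hb_charpoly]; exact Submodule.zero_mem _
    · exact Submodule.subset_span ⟨n - i, by omega, by rw [Nat.sub_sub_self hi]⟩
  have h2 := h1 n le_rfl
  rw [hb_top _ _ (charpoly_monic A) (natDegree_charpoly A)] at h2
  have h3 := cyc_iff.1 h _ (fun w hw => ?_) h2
  · refine eq_top_iff.2 (h3 ▸ Submodule.span_le.2 ?_)
    rintro _ ⟨j, hj, rfl⟩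
    exact hS j hj
  · induction hw using Submodule.span_induction with
    | mem w hw =>
      obtain ⟨j, hj, rfl⟩ := hw
      have := hb_eq A v A.charpoly (n - j - 1)
      rw [show n - j - 1 + 1 = n - j by omega] at this
      rw [eq_sub_of_add_eq this.symm]
      exact Submodule.sub_mem _ (h1 _ (by omega)) (Submodule.smul_mem _ _ h2)
    | zero => simp
    | add a b _ _ ha hb => rw [mulVec_add]; exact Submodule.add_mem _ ha hb
    | smul t a _ ha => rw [mulVec_smul]; exact Submodule.smul_mem _ _ ha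

/-- pole placement -/
theorem place {A A₀ : Matrix (Fin n) (Fin n) F} {v g : Fin n → F}
    (h : (hor A v A.charpoly).det ≠ 0) (h₀ : (hor A₀ g A₀.charpoly).det ≠ 0) :
    ∃ ψ, Cj ((hor A₀ g A₀.charpoly).det * (hor A v A.charpoly).det⁻¹) A (A₀ + vecMulVec g ψ) := by
  set P := hor A v A.charpoly with hP
  set P₀ := hor A₀ g A₀.charpoly with hP₀
  let d : Fin n → F := fun j => A₀.charpoly.coeff (n - j - 1) - A.charpoly.coeff (n - j - 1)
  refine ⟨d ᵥ* P₀⁻¹, P₀ * P⁻¹, by rw [det_mul, det_inv'], ?_⟩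
  have hk : ∀ i ≤ n, (P₀ * P⁻¹) *ᵥ hb A v A.charpoly i = hb A₀ g A₀.charpoly i := by
    intro i hi
    rcases Nat.eq_zero_or_pos i with rfl | h0
    · rw [hb_charpoly, hb_charpoly, mulVec_zero]
    · have e1 := cols_mulVec_single (fun j => hb A v A.charpoly (n - j)) ⟨n - i, by omega⟩
      have e2 := cols_mulVec_single (fun j => hb A₀ g A₀.charpoly (n - j)) ⟨n - i, by omega⟩
      simp only [Nat.sub_sub_self hi] at e1 e2
      rw [← e1, ← e2, ← mulVec_mulVec]
      exact congrArg _ (inv_mulVec_cancel h _)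
  have hv := hk n le_rfl
  rw [hb_top _ _ (charpoly_monic _) (natDegree_charpoly _),
    hb_top _ _ (charpoly_monic _) (natDegree_charpoly _)] at hv
  have key : P₀ * P⁻¹ * A * P = (A₀ + vecMulVec g (d ᵥ* P₀⁻¹)) * P₀ := by
    rw [add_mul, vecMulVec_mul, vecMul_vecMul, inv_mul_det h₀, vecMul_one]
    ext i j
    have e1 := hb_eq A v A.charpoly (n - j - 1)
    have e2 := hb_eq A₀ g A₀.charpoly (n - j - 1)
    rw [show n - j - 1 + 1 = n - j by have := j.2; omega] at e1 e2
    have e3 := hk (n - j - 1) (by omega)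
    rw [e1, e2, mulVec_add, mulVec_smul, hv, mulVec_mulVec] at e3
    have e4 := congrFun e3 i
    simp only [Pi.add_apply, Pi.smul_apply, smul_eq_mul] at e4
    rw [Matrix.add_apply, vecMulVec_apply]
    change ((P₀ * P⁻¹ * A) *ᵥ hb A v A.charpoly (n - j)) i =
      (A₀ *ᵥ hb A₀ g A₀.charpoly (n - j)) i + g i * d j
    simp only [d]
    linear_combination e4
  calc P₀ * P⁻¹ * A = P₀ * P⁻¹ * A * P * P⁻¹ := by rw [mul_assoc _ P, mul_inv_det h, mul_one]
    _ = _ := by rw [key, mul_assoc]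

theorem hu_compan (q : Fin (n + 1) → F) : HU (compan q) := by
  constructor <;> intro i j hij
  · have := i.2
    rw [compan, of_apply, if_neg (by intro e; simp [e] at hij; omega), if_neg (by omega)]
  · have := i.2
    rw [compan, of_apply, if_neg (by intro e; simp [e] at hij; omega), if_pos hij]

/-- a cyclic matrix with a prescribed polynomial -/
theorem exists_cyc {p : F[X]} (hp : p.Monic) (hn : p.natDegree = n + 1) :
    ∃ M : Matrix (Fin (n + 1)) (Fin (n + 1)) F, IsCyc M ∧ aeval M p = 0 ∧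
      M.det = (-1) ^ (n + 1) * p.coeff 0 := by
  let q : Fin (n + 1) → F := fun i => -p.coeff i
  have h := (hu_compan q).cyc
  refine ⟨compan q, ⟨_, h⟩, h.aeval_eq_zero ?_, by rw [det_compan]; simp [q, pow_succ]⟩
  have h1 : ∀ j ≤ n, (compan q) ^ j *ᵥ Pi.single 0 1 = pvec (n + 1) (X ^ j) := by
    intro j hj
    induction j with
    | zero => ext i; simp [pvec_apply, coeff_one, one_apply]
    | succ j ih =>
      rw [pow_succ', ← mulVec_mulVec, ih (by omega), compan_mulVec, coeff_X_pow, if_neg (by omega),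
        zero_smul, add_zero, pow_succ']
  rw [aeval_eq_sum_range, hn, Finset.sum_range_succ, add_mulVec, sum_mulVec, smul_mulVec,
    pow_succ', ← mulVec_mulVec, h1 n le_rfl, compan_mulVec,
    Finset.sum_congr rfl fun j hj => by
      rw [smul_mulVec, h1 j (Nat.lt_succ_iff.1 (Finset.mem_range.1 hj))]]
  ext i
  have h2 : p.coeff (n + 1) = 1 := hn ▸ hp
  simp [pvec_apply, coeff_X_pow, h2, q, ← pow_succ', i.2.ne, Finset.sum_apply, Nat.lt_succ_iff.1 i.2]

end Fin

end Cfsg.Agent.Cov
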