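import Cfsg.Agent.Lib.Cov.Lev

/-!
# Matrices without eigenvalues: two conjugates have a cyclic product
-/

set_option autoImplicit false

namespace Cfsg.Agent.Cov

open Matrix Module SLn Polynomial

variable {F : Type*} [Field F] {n : ℕ}

theorem exists_ne_sq [Fintype F] (h : 4 ≤ Fintype.card F) (a d : F) :
    ∃ β : F, β ≠ 0 ∧ β ≠ a ∧ β ^ 2 ≠ d := by
  classical
  have h4 := four_of_card h
  by_cases h1 : ∃ e : F, e ^ 2 = d
  swap
  · obtain ⟨β, b1, b2, -⟩ := h4 0 a 0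
    exact ⟨β, b1, b2, fun e => h1 ⟨β, e⟩⟩
  obtain ⟨e, rfl⟩ := h1
  by_cases h2 : (2 : F) = 0
  · obtain ⟨β, b1, b2, b3⟩ := h4 0 a e
    refine ⟨β, b1, b2, fun h => b3 ?_⟩
    rcases sq_eq_sq_iff_eq_or_eq_neg.1 h with h | h
    · exact h
    · linear_combination h - e * h2
  · have h5 : Fintype.card F ≠ 4 := fun h => h2 (by
      have := FiniteField.cast_card_eq_zero F
      rw [h] at this
      exact pow_eq_zero_iff (n := 2) two_ne_zero |>.1 (by push_cast at this; linear_combination this))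
    have : ({0, a, e, -e} : Finset F) ≠ Finset.univ := fun h' => by
      have := Finset.card_le_four (a := (0 : F)) (b := a) (c := e) (d := -e)
      rw [h', Finset.card_univ] at this
      omega
    obtain ⟨β, hβ⟩ : ∃ β, β ∉ ({0, a, e, -e} : Finset F) := by
      by_contra hc
      push Not at hc
      exact this (Finset.eq_univ_iff_forall.2 hc)
    simp only [Finset.mem_insert, Finset.mem_singleton, not_or] at hβ
    exact ⟨β, hβ.1, hβ.2.1, fun h => (sq_eq_sq_iff_eq_or_eq_neg.1 h).elim hβ.2.2.1 hβ.2.2.2⟩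

theorem exists_avoid_affine (h4 : Four F) {E : Type*} [AddCommGroup E] [Module F E]
    (f : Fin 3 → E → F) (hf : ∀ i p q (t : F), f i (p + t • (q - p)) = f i p + t * (f i q - f i p))
    (h : ∀ i, ∃ p, f i p ≠ 0) : ∃ p, ∀ i, f i p ≠ 0 := by
  have key : ∀ i (p q : E), f i p ≠ 0 ∨ f i q ≠ 0 →
      ∃ x : F, ∀ t, t ≠ x → f i (p + t • (q - p)) ≠ 0 := by
    intro i p q h
    obtain ⟨x, hx⟩ := exists_root_lin (a := f i p) (b := f i q - f i p) (by
      by_cases h1 : f i p = 0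
      · exact Or.inr fun e => h.resolve_left (not_not.2 h1) (by linear_combination h1 + e)
      · exact Or.inl h1)
    exact ⟨x, fun t ht => hf i p q t ▸ hx t ht⟩
  obtain ⟨p, hp⟩ := h 0
  obtain ⟨q, hq⟩ := h 1
  obtain ⟨r, hr⟩ := h 2
  obtain ⟨x, hx⟩ := key 0 p q (Or.inl hp)
  obtain ⟨y, hy⟩ := key 1 p q (Or.inr hq)
  obtain ⟨t, t1, t2, -⟩ := h4 x y x
  obtain ⟨x', hx'⟩ := key 0 _ r (Or.inl (hx t t1))
  obtain ⟨y', hy'⟩ := key 1 _ r (Or.inl (hy t t2))
  obtain ⟨z', hz'⟩ := key 2 (p + t • (q - p)) r (Or.inr hr)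
  obtain ⟨s, s1, s2, s3⟩ := h4 x' y' z'
  refine ⟨p + t • (q - p) + s • (r - (p + t • (q - p))), fun i => ?_⟩
  fin_cases i
  exacts [hx' s s1, hy' s s2, hz' s s3]

theorem Cyc.le_natDegree {A : Matrix (Fin n) (Fin n) F} {v : Fin n → F} (h : Cyc A v) {p : F[X]}
    (hp : p.Monic) (h0 : aeval A p *ᵥ v = 0) : n ≤ p.natDegree := by
  classical
  set k := p.natDegree
  let S := Submodule.span F (Set.range fun j : Fin k => hb A v p (j + 1))
  have h1 : ∀ i ≤ k, hb A v p i ∈ S := by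
    intro i hi
    rcases i with _ | i
    · rw [show hb A v p 0 = 0 from h0]; exact Submodule.zero_mem _
    · exact Submodule.subset_span ⟨⟨i, hi⟩, rfl⟩
  have h2 := h1 k le_rfl
  rw [hb_top _ _ hp rfl] at h2
  have h3 := cyc_iff.1 h S (fun w hw => ?_) h2
  · have := finrank_range_le_card (R := F) fun j : Fin k => hb A v p (j + 1)
    rw [Set.finrank, show Submodule.span F _ = ⊤ from h3, finrank_fin, Fintype.card_fin] at this
    exact this
  · induction hw using Submodule.span_induction with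
    | mem w hw =>
      obtain ⟨j, rfl⟩ := hw
      rw [eq_sub_of_add_eq (hb_eq A v p j).symm]
      exact Submodule.sub_mem _ (h1 _ j.2.le) (Submodule.smul_mem _ _ h2)
    | zero => simp
    | add a b _ _ ha hb => rw [mulVec_add]; exact Submodule.add_mem _ ha hb
    | smul t a _ ha => rw [mulVec_smul]; exact Submodule.smul_mem _ _ ha

section Gen

variable {ι κ : Type*} [Fintype ι] [DecidableEq ι] [Fintype κ] [DecidableEq κ]

theorem aeval_intertwine {A : Matrix ι ι F} {B : Matrix κ κ F} {g : Matrix ι κ F}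
    (e : A * g = g * B) (p : F[X]) : aeval A p * g = g * aeval B p := by
  induction p using Polynomial.induction_on' with
  | add p q hp hq => rw [map_add, map_add, Matrix.add_mul, Matrix.mul_add, hp, hq]
  | monomial k c =>
    rw [aeval_monomial, aeval_monomial, Algebra.algebraMap_eq_smul_one,
      Algebra.algebraMap_eq_smul_one, smul_one_mul, smul_one_mul, Matrix.smul_mul, Matrix.mul_smul]
    congr 1
    induction k with
    | zero => simp
    | succ k ih => rw [pow_succ', pow_succ', Matrix.mul_assoc, ih, ← Matrix.mul_assoc, e,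
        Matrix.mul_assoc]

theorem Cj.aeval_eq_zero {c : F} {A B : Matrix ι ι F} (h : Cj c A B) (hc : c ≠ 0) {p : F[X]}
    (e : aeval A p = 0) : aeval B p = 0 := by
  obtain ⟨g, rfl, h⟩ := h
  have := aeval_intertwine h.symm p
  rw [e, mul_zero] at this
  rw [← mul_one (aeval B p), ← mul_inv_det hc, ← mul_assoc, this, zero_mul]

theorem exists_left_eigen {T : Matrix ι ι F} {S : Submodule F (ι → F)}
    (hS : ∀ w ∈ S, T *ᵥ w ∈ S) (l : List F) : ∀ ψ : ι → F, ψ ≠ 0 → (∀ w ∈ S, ψ ⬝ᵥ w = 0) →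
      ψ ᵥ* aeval T (l.map fun c => X - C c).prod = 0 →
      ∃ c ∈ l, ∃ χ : ι → F, χ ≠ 0 ∧ (∀ w ∈ S, χ ⬝ᵥ w = 0) ∧ χ ᵥ* T = c • χ := by
  induction l with
  | nil => intro ψ h _ e; exact absurd (by simpa using e) h
  | cons c l ih =>
    intro ψ h h1 e
    by_cases h2 : ψ ᵥ* T = c • ψ
    · exact ⟨c, by simp, ψ, h, h1, h2⟩
    · obtain ⟨d, hd, r⟩ := ih (ψ ᵥ* T - c • ψ) (sub_ne_zero.2 h2) (fun w hw => by
        rw [sub_dotProduct, smul_dotProduct, ← dotProduct_mulVec, h1 _ hw, h1 _ (hS _ hw)]; simp)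
        (by
          rw [← e, List.map_cons, List.prod_cons, map_mul, ← vecMul_vecMul]
          simp [vecMul_sub, Algebra.algebraMap_eq_smul_one, vecMul_smul])
      exact ⟨d, by simp [hd], r⟩

theorem Cyc.dot_ne {T : Matrix ι ι F} {v ψ : ι → F} (h : Cyc T v) {c : F} (e : ψ ᵥ* T = c • ψ)
    (h0 : ψ ⬝ᵥ v = 0) : ψ = 0 := by
  have := cyc_iff.1 h (LinearMap.ker (dotProductBilin F F ψ)) (fun w hw => by
    simp only [LinearMap.mem_ker, dotProductBilin_apply_apply] at hw ⊢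
    rw [dotProduct_mulVec, e, smul_dotProduct, hw, smul_zero]) h0
  ext i
  have h1 : (Pi.single i 1 : ι → F) ∈ LinearMap.ker (dotProductBilin F F ψ) :=
    this ▸ Submodule.mem_top
  simpa using h1

theorem NE.left {A : Matrix ι ι F} {c : F} (h : NE A c) {ψ : ι → F} (e : ψ ᵥ* A = c • ψ) :
    ψ = 0 := by
  have : ψ ᵥ* (A - c • 1) = 0 := by rw [vecMul_sub, vecMul_smul, vecMul_one, e, sub_self]
  rw [← vecMul_one ψ, ← mul_inv_det h.det, ← vecMul_vecMul, this, zero_vecMul]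

theorem Cyc.rect {A : Matrix ι ι F} {B : Matrix κ κ F} {P : Matrix ι κ F} {Q : Matrix κ ι F}
    {v : κ → F} (h : Cyc B v) (hPQ : P * Q = 1) (e : A * P = P * B) : Cyc A (P *ᵥ v) := by
  have := gen_map (A := A.mulVecLin) (A' := B.mulVecLin) (ι := P.mulVecLin)
    (fun w => by simp [e]) {v}
  rw [show gen B.mulVecLin {v} = ⊤ from h, Set.image_singleton, Submodule.map_top,
    LinearMap.range_eq_top.2 fun y => ⟨Q *ᵥ y, by simp [hPQ]⟩] at this
  exact this.symm

theorem Cj.rect {c : F} {A : Matrix ι ι F} {B B' : Matrix κ κ F} {P : Matrix ι κ F}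
    {Q : Matrix κ ι F} (h : Cj c B B') (hPQ : P * Q = 1) (hQP : Q * P = 1) (e : A * P = P * B) :
    Cj c A (P * B' * Q) := by
  obtain ⟨g, rfl, h⟩ := h
  refine ⟨P * g * Q, det_conj_of_mul_eq_one hPQ hQP, ?_⟩
  calc P * g * Q * A = P * g * Q * (A * P) * Q := by
        rw [Matrix.mul_assoc _ (A * P), Matrix.mul_assoc A, hPQ, Matrix.mul_one]
    _ = P * (g * B) * Q := by
        rw [e, ← Matrix.mul_assoc, Matrix.mul_assoc _ Q P, hQP, Matrix.mul_one, Matrix.mul_assoc P]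
    _ = _ := by
        rw [h]
        simp only [Matrix.mul_assoc]
        rw [← Matrix.mul_assoc Q P, hQP, Matrix.one_mul]

end Gen

theorem exists_block (x : Matrix (Fin n) (Fin n) F) {Z W : Submodule F (Fin n → F)}
    (hZ : Inv x.mulVecLin Z) (hW : IsCompl Z W) {s m : ℕ} (hs : finrank F Z = s)
    (hm : finrank F W = m) :
    ∃ (P : Matrix (Fin n) (Fin s ⊕ Fin m) F) (Q : Matrix (Fin s ⊕ Fin m) (Fin n) F)
      (y : Matrix (Fin s) (Fin s) F) (K : Matrix (Fin s) (Fin m) F) (z : Matrix (Fin m) (Fin m) F),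
      P * Q = 1 ∧ Q * P = 1 ∧ x * P = P * fromBlocks y K 0 z ∧
      (∀ w, w ∈ Z ↔ ∃ a, P *ᵥ Sum.elim a 0 = w) ∧ (∀ w, w ∈ W ↔ ∃ a, P *ᵥ Sum.elim 0 a = w) ∧
      (Inv x.mulVecLin W → K = 0) := by
  let bZ := finBasisOfFinrankEq F Z hs
  let bW := finBasisOfFinrankEq F W hm
  let e : (Fin s ⊕ Fin m → F) ≃ₗ[F] (Fin n → F) :=
    (LinearEquiv.sumArrowLequivProdArrow _ _ F F).trans
      ((bZ.equivFun.symm.prodCongr bW.equivFun.symm).trans (Submodule.prodEquivOfIsCompl Z W hW))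
  have he : ∀ a b, e (Sum.elim a b) = bZ.equivFun.symm a + bW.equivFun.symm b := fun a b => rfl
  let P := LinearMap.toMatrix' (e : (Fin s ⊕ Fin m → F) →ₗ[F] (Fin n → F))
  let Q := LinearMap.toMatrix' (e.symm : (Fin n → F) →ₗ[F] (Fin s ⊕ Fin m → F))
  have hP : ∀ v, P *ᵥ v = e v := fun v => LinearMap.toMatrix'_mulVec _ v
  have hPQ : P * Q = 1 := by rw [← LinearMap.toMatrix'_comp]; simp
  have hQP : Q * P = 1 := by rw [← LinearMap.toMatrix'_comp]; simp
  have h1 : ∀ w, w ∈ Z ↔ ∃ a, P *ᵥ Sum.elim a 0 = w := fun w =>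
    ⟨fun hw => ⟨bZ.equivFun ⟨w, hw⟩, by simp [hP, he]⟩, by
      rintro ⟨a, rfl⟩; rw [hP, he, map_zero, ZeroMemClass.coe_zero, add_zero]; exact Subtype.property _⟩
  have h2 : ∀ w, w ∈ W ↔ ∃ a, P *ᵥ Sum.elim 0 a = w := fun w =>
    ⟨fun hw => ⟨bW.equivFun ⟨w, hw⟩, by simp [hP, he]⟩, by
      rintro ⟨a, rfl⟩; rw [hP, he, map_zero, ZeroMemClass.coe_zero, zero_add]; exact Subtype.property _⟩
  have h3 : (Q * x * P).toBlocks₂₁ = 0 := by
    ext i j
    obtain ⟨a, ha⟩ := (h1 _).1 (hZ _ ((h1 _).2 ⟨Pi.single j 1, rfl⟩))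
    have := congrFun (congrArg (Q *ᵥ ·) ha) (Sum.inr i)
    simp only [mulVecLin_apply, mulVec_mulVec, hQP, one_mulVec, ← Matrix.mul_assoc] at this
    rw [show Sum.elim (Pi.single j 1) 0 = (Pi.single (Sum.inl j) 1 : Fin s ⊕ Fin m → F) by
      ext (k | k) <;> simp [Pi.single_apply]] at this
    simpa [toBlocks₂₁] using this.symm
  refine ⟨P, Q, (Q * x * P).toBlocks₁₁, (Q * x * P).toBlocks₁₂, (Q * x * P).toBlocks₂₂, hPQ, hQP,
    ?_, h1, h2, fun hW' => ?_⟩
  · rw [← h3, fromBlocks_toBlocks, ← Matrix.mul_assoc, ← Matrix.mul_assoc, hPQ, Matrix.one_mul]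
  · ext i j
    obtain ⟨a, ha⟩ := (h2 _).1 (hW' _ ((h2 _).2 ⟨Pi.single j 1, rfl⟩))
    have := congrFun (congrArg (Q *ᵥ ·) ha) (Sum.inl i)
    simp only [mulVecLin_apply, mulVec_mulVec, hQP, one_mulVec, ← Matrix.mul_assoc] at this
    rw [show Sum.elim (0 : Fin s → F) (Pi.single j 1) = (Pi.single (Sum.inr j) 1 : Fin s ⊕ Fin m → F) by
      ext (k | k) <;> simp [Pi.single_apply]] at this
    simpa [toBlocks₁₂] using this.symm

theorem cyc_blocks {s m : ℕ} {T₁ : Matrix (Fin s) (Fin s) F} {T₂ : Matrix (Fin m) (Fin m) F}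
    {L : Matrix (Fin s) (Fin m) F} {v₁ : Fin s → F} {v₂ : Fin m → F} (h2 : Cyc T₂ v₂) {l : List F}
    (hl : aeval T₁ (l.map fun c => X - C c).prod = 0)
    (h : ∀ c ∈ l, ∀ ψ : Fin s → F, ψ ≠ 0 → ψ ᵥ* T₁ = c • ψ →
      ψ ⬝ᵥ (L *ᵥ (aeval T₂ (T₂.charpoly /ₘ (X - C c)) *ᵥ v₂)) + T₂.charpoly.eval c * ψ ⬝ᵥ v₁ ≠ 0) :
    Cyc (fromBlocks T₁ L 0 T₂) (Sum.elim v₁ v₂) := by
  set T := fromBlocks T₁ L 0 T₂ with hT
  let i₁ : Matrix (Fin s ⊕ Fin m) (Fin s) F := fromRows 1 0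
  let p₂ : Matrix (Fin m) (Fin s ⊕ Fin m) F := fromCols 0 1
  have hi : ∀ a, i₁ *ᵥ a = Sum.elim a 0 := fun a => by simp [i₁, fromRows_mulVec]
  have hp : ∀ w, p₂ *ᵥ w = w ∘ Sum.inr := fun w => by simp [p₂, fromCols_mulVec]
  have e2 : T₂ * p₂ = p₂ * T := by simp [p₂, hT, fromCols_mul_fromBlocks, mul_fromCols]
  have e3 : ∀ p : F[X], (aeval T p *ᵥ Sum.elim v₁ v₂) ∘ Sum.inr = aeval T₂ p *ᵥ v₂ := fun p => by
    rw [← hp, mulVec_mulVec, ← aeval_intertwine e2, ← mulVec_mulVec, hp]; rfl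
  rw [cyc_iff]
  intro S hS hv
  have h1 : S.comap i₁.mulVecLin = ⊤ := by
    by_contra hne
    obtain ⟨y, -, hy⟩ := SetLike.exists_of_lt (lt_top_iff_ne_top.2 hne)
    obtain ⟨ψ, p1, p2⟩ := exists_dot_of_notMem _ hy
    obtain ⟨c, hc, χ, q1, q2, q3⟩ := exists_left_eigen (T := T₁) (S := S.comap i₁.mulVecLin)
      (fun w hw => by
        have := hS _ hw
        rw [mulVecLin_apply, hi, hT, fromBlocks_mulVec] at this
        simpa [hi] using this) l ψ (by rintro rfl; simp at p2) p1 (by rw [hl, vecMul_zero])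
    refine h c hc χ q1 q3 ?_
    have h3 := aeval_mem hS T₂.charpoly hv
    have h4 : (aeval T T₂.charpoly *ᵥ Sum.elim v₁ v₂) ∘ Sum.inl ∈ S.comap i₁.mulVecLin := by
      rw [Submodule.mem_comap, mulVecLin_apply, hi, ← zero_mulVec v₂, ← aeval_self_charpoly T₂,
        ← e3, Sum.elim_comp_inl_inr]
      exact h3
    rw [← q2 _ h4, ← e3]
    conv_rhs => rw [← modByMonic_add_div T₂.charpoly (X - C c),
      modByMonic_X_sub_C_eq_C_eval, map_add, map_mul, add_mulVec, ← mulVec_mulVec]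
    generalize aeval T (T₂.charpoly /ₘ (X - C c)) *ᵥ Sum.elim v₁ v₂ = u
    have : (aeval T (X - C c) *ᵥ u) ∘ Sum.inl =
        T₁ *ᵥ (u ∘ Sum.inl) + L *ᵥ (u ∘ Sum.inr) - c • (u ∘ Sum.inl) := by
      rw [map_sub, aeval_X, aeval_C, Algebra.algebraMap_eq_smul_one, sub_mulVec, smul_mulVec,
        one_mulVec, hT, fromBlocks_mulVec]
      rfl
    rw [show ∀ a b : Fin s ⊕ Fin m → F, (a + b) ∘ Sum.inl = a ∘ Sum.inl + b ∘ Sum.inl from
      fun _ _ => rfl, this, aeval_C, Algebra.algebraMap_eq_smul_one, smul_mulVec, one_mulVec,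
      dotProduct_add, dotProduct_sub, dotProduct_add, dotProduct_mulVec χ T₁, q3,
      show (T₂.charpoly.eval c • Sum.elim v₁ v₂) ∘ Sum.inl = T₂.charpoly.eval c • v₁ from rfl]
    simp only [smul_dotProduct, dotProduct_smul, smul_eq_mul]
    ring
  have h3 : S.map p₂.mulVecLin = ⊤ := cyc_iff.1 h2 _ (by
    rintro _ ⟨w, hw, rfl⟩
    exact ⟨_, hS w hw, by simp [e2]⟩) ⟨_, hv, by simp [hp]⟩
  refine eq_top_iff.2 fun w _ => ?_
  obtain ⟨u, hu, e⟩ : w ∘ Sum.inr ∈ S.map p₂.mulVecLin := h3 ▸ Submodule.mem_top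
  have h4 : (w - u) ∘ Sum.inl ∈ S.comap i₁.mulVecLin := h1 ▸ Submodule.mem_top
  rw [mulVecLin_apply, hp] at e
  have := S.add_mem h4 hu
  rw [mulVecLin_apply, hi] at this
  convert this using 1
  ext (i | i)
  · simp
  · simpa using (congrFun e i).symm

theorem PK.two {ι : Type*} [Fintype ι] [DecidableEq ι] {K : F → Prop} {x T : Matrix ι ι F}
    (h : PK K x 2 T) : ∃ κ κ' y, κ ≠ 0 ∧ κ' ≠ 0 ∧ Cj κ x y ∧ Cj κ' T (x * y) := by
  cases h with
  | succ h _ h2 h3 =>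
    cases h with
    | succ h _ h4 h5 =>
      cases h
      obtain ⟨g, rfl, e⟩ := h5
      refine ⟨_, _, _, mul_ne_zero (det_inv_ne h4) h2, det_inv_ne h4,
        h3.trans ⟨g⁻¹, rfl, intertwine_conj (det_inv_ne h4) _⟩, g⁻¹, rfl, ?_⟩
      rw [one_mul, ← mul_assoc, inv_intertwine h4 e, mul_assoc x, mul_assoc x,
        ← intertwine_conj (det_inv_ne h4)]

theorem cyc_two {A : Matrix (Fin 2) (Fin 2) F} {v : Fin 2 → F} (h : ∀ c : F, A *ᵥ v ≠ c • v) :
    Cyc A v :=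
  Submodule.eq_top_of_finrank_eq (le_antisymm (Submodule.finrank_le _)
    (by simpa using two_le_finrank_gen (A := A.mulVecLin) h))

theorem exists_w (h4 : Four F) : ∃ w : F, w ≠ 0 ∧ w ^ 2 ≠ 1 := by
  obtain ⟨w, w0, w1, w2⟩ := h4 0 1 (-1)
  exact ⟨w, w0, fun e => (sq_eq_one_iff.1 e).elim w1 w2⟩

theorem monic_lp (l : List F) : (l.map fun c => X - C c).prod.Monic ∧
    (l.map fun c => X - C c).prod.natDegree = l.length := by
  induction l with
  | nil => simp
  | cons c l ih =>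
    rw [List.map_cons, List.prod_cons]
    exact ⟨(monic_X_sub_C c).mul ih.1, by
      rw [(monic_X_sub_C c).natDegree_mul ih.1, ih.2, natDegree_X_sub_C, List.length_cons, add_comm]⟩

theorem bord_zero : bord (0 : F) 0 0 (0 : Matrix (Fin n) (Fin n) F) = 0 :=
  bord_ext rfl (fun _ => rfl) (fun _ => rfl) (fun _ _ => rfl)

theorem aeval_bord_diag (β : F) (M : Matrix (Fin n) (Fin n) F) (p : F[X]) :
    aeval (bord β 0 0 M) p = bord (p.eval β) 0 0 (aeval M p) := by
  induction p using Polynomial.induction_on' with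
  | add p q hp hq =>
    rw [map_add, map_add, eval_add, hp, hq]
    exact bord_ext rfl (fun _ => by simp) (fun _ => by simp) (fun _ _ => rfl)
  | monomial k c =>
    rw [aeval_monomial, aeval_monomial, eval_monomial, Algebra.algebraMap_eq_smul_one,
      Algebra.algebraMap_eq_smul_one, smul_one_mul, smul_one_mul, bord_diag_pow, bord_smul]
    simp

/-- the top block -/
theorem top_block [Fintype F] (h : 4 ≤ Fintype.card F) {s : ℕ} (hs : 2 ≤ s)
    {y : Matrix (Fin s) (Fin s) F} (hy : IsCyc y) (hne : ∀ c, NE y c) :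
    ∃ κ y', κ ≠ 0 ∧ Cj κ y y' ∧ IsCyc (y * y') ∧ ∃ (c : Fin 3 → F) (l : List F),
      (∀ d ∈ l, ∃ i, d = c i) ∧ aeval (y * y') (l.map fun c => X - C c).prod = 0 := by
  have h4 := four_of_card h
  have hd : y.det ≠ 0 := by simpa using (hne 0).det
  rcases hs.eq_or_lt with rfl | hs
  · obtain ⟨w, w0, w1⟩ := exists_w h4
    have hc : y 1 0 ≠ 0 := fun e => by
      simpa using congrFun (hne (y 0 0) (Pi.single 0 1) (by ext i; fin_cases i <;> simp [e])) 0
    have hg : (!![1, y 0 0; 0, y 1 0]).det ≠ 0 := by simpa [det_fin_two] using hc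
    have c1 : !![1, y 0 0; 0, y 1 0] * !![0, -y.det; 1, y.trace] = y * !![1, y 0 0; 0, y 1 0] := by
      ext i j; fin_cases i <;> fin_cases j <;> simp [det_fin_two, trace_fin_two, mul_apply] <;> ring
    have c2 : Cj (-w) !![0, -y.det; 1, y.trace] !![y.trace, y.det / w; -w, 0] :=
      ⟨!![1, y.trace; 0, -w], by simp [det_fin_two], by
        ext i j; fin_cases i <;> fin_cases j <;> simp <;> field_simp <;> ring⟩
    have c3 : Cj _ (!![0, -y.det; 1, y.trace] * !![y.trace, y.det / w; -w, 0])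
        (y * (!![1, y 0 0; 0, y 1 0] * !![y.trace, y.det / w; -w, 0] * !![1, y 0 0; 0, y 1 0]⁻¹)) :=
      ⟨_, rfl, by rw [← mul_assoc, c1, mul_assoc y, mul_assoc y, ← intertwine_conj hg]⟩
    refine ⟨_, _, mul_ne_zero hg (mul_ne_zero (neg_ne_zero.2 w0) (inv_ne_zero hg)),
      ((Cj.symm ⟨_, rfl, c1⟩ hg).trans c2).trans ⟨_, rfl, intertwine_conj hg _⟩,
      IsCyc.cj ⟨![y.det * w - y.det / w, y.trace - y.trace * w + 1], cyc_two fun c e => ?_⟩ hg c3,
      ![y.det * w, y.det / w, 0], [y.det * w, y.det / w], ?_, c3.aeval_eq_zero hg ?_⟩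
    · have h5 : y.det * w - y.det / w ≠ 0 := fun e => w1 (by
        field_simp at e
        have := (mul_eq_zero.1 (show y.det * (w ^ 2 - 1) = 0 by linear_combination e)).resolve_left hd
        linear_combination this)
      have e0 := congrFun e 0
      have e1 := congrFun e 1
      simp [mulVec, dotProduct] at e0 e1
      have e2 : c = y.det * w := (e0.resolve_right h5).symm
      subst e2
      exact h5 (by linear_combination -e1)
    · simp only [List.mem_cons, List.not_mem_nil, or_false]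
      rintro d (rfl | rfl)
      exacts [⟨0, rfl⟩, ⟨1, rfl⟩]
    · simp only [List.map_cons, List.map_nil, List.prod_cons, List.prod_nil, mul_one, map_mul,
        map_sub, aeval_X, aeval_C, Algebra.algebraMap_eq_smul_one]
      ext i j; fin_cases i <;> fin_cases j <;> simp [mul_apply]
      · exact Or.inl (by ring)
      · ring
  · obtain ⟨m, rfl⟩ : ∃ m, s = m + 1 + 1 + 1 := ⟨s - 3, by omega⟩
    obtain ⟨β, b0, b1, b2⟩ := exists_ne_sq h 1 (y.det ^ 2)
    let l := (y.det ^ 2 / β) :: List.replicate (m + 1) 1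
    obtain ⟨M, m1, m2, m3⟩ := exists_cyc (p := (l.map fun c => X - C c).prod) (n := m + 1)
      (monic_lp l).1 (by rw [(monic_lp l).2]; simp [l])
    have m4 : β * M.det = y.det ^ (1 + 1) := by
      have : ((-1 : F) ^ m) ^ 2 = 1 := by rw [← pow_mul, mul_comm, pow_mul]; simp
      rw [m3, coeff_zero_eq_eval_zero]
      simp only [l, List.map_cons, List.prod_cons, List.map_replicate, List.prod_replicate,
        eval_mul, eval_pow, eval_sub, eval_X, eval_C, zero_sub]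
      field_simp
      linear_combination y.det ^ 2 * this
    have hST : ST β M := ⟨b0, fun e => pow_ne_zero _ hd (by rw [← m4, e, mul_zero]), m1, NE.of_aeval m2 (by
      have : β - y.det ^ 2 / β ≠ 0 := fun e => b2 (by field_simp at e; linear_combination e)
      simp [l, this, sub_ne_zero.2 b1])⟩
    obtain ⟨κ, κ', y', k1, k2, c1, c2⟩ := (ps_st h4 (by omega) hd (fun c e => by
      simpa using congrFun (hne c (Pi.single 0 1) (by rw [e, smul_mulVec, one_mulVec])) 0) (PS.single (Cj.refl y)) hy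
      hST m4).two
    refine ⟨κ, y', k1, c1, hST.isCyc.cj k2 c2, ![β, y.det ^ 2 / β, 1], β :: l, ?_,
      c2.aeval_eq_zero k2 ?_⟩
    · simp only [l, List.mem_cons, List.mem_replicate]
      rintro d (rfl | rfl | ⟨-, rfl⟩)
      exacts [⟨0, rfl⟩, ⟨1, rfl⟩, ⟨2, rfl⟩]
    · rw [aeval_bord_diag, List.map_cons, List.prod_cons, map_mul, m2]
      simp [bord_zero]

theorem NE.of_det {ι : Type*} [Fintype ι] [DecidableEq ι] {A : Matrix ι ι F} {c : F}
    (h : (A - c • 1).det ≠ 0) : NE A c := fun v hv =>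
  mulVec_inj_of_det h (by rw [sub_mulVec, smul_mulVec, one_mulVec, hv, sub_self, mulVec_zero])

theorem couple (h4 : Four F) {s m : ℕ} (hm : 1 ≤ m) {y y' : Matrix (Fin s) (Fin s) F}
    {z z' : Matrix (Fin m) (Fin m) F} (L : Matrix (Fin s) (Fin m) F) (hne : ∀ c, NE y c)
    (h1 : IsCyc (y * y')) (h2 : IsCyc (z * z')) (hz : z'.det ≠ 0) {c : Fin 3 → F} {l : List F}
    (hl : ∀ d ∈ l, ∃ i, d = c i) (h0 : aeval (y * y') (l.map fun c => X - C c).prod = 0) :
    ∃ u : Matrix (Fin s) (Fin m) F,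
      IsCyc (fromBlocks (y * y') (L + (y * u * z' - y * y' * u)) 0 (z * z')) := by
  obtain ⟨v₁, h1⟩ := h1
  obtain ⟨v₂, h2⟩ := h2
  let w : F → Fin m → F := fun d => aeval (z * z') ((z * z').charpoly /ₘ (X - C d)) *ᵥ v₂
  have hw : ∀ d, w d ≠ 0 := fun d e => by
    have h3 : (X - C d).degree ≤ (z * z').charpoly.degree := by
      rw [degree_X_sub_C, charpoly_degree_eq_dim, Fintype.card_fin]; exact_mod_cast hm
    have := h2.le_natDegree (p := (z * z').charpoly /ₘ (X - C d)) (by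
      rw [Monic, leadingCoeff_divByMonic_of_monic (monic_X_sub_C d) h3]; exact charpoly_monic _) e
    rw [natDegree_divByMonic _ (monic_X_sub_C d), natDegree_charpoly, natDegree_X_sub_C] at this
    omega
  have key : ∀ i, ∃ φ : Matrix (Fin s) (Fin m) F → F,
      (∀ p q (t : F), φ (p + t • (q - p)) = φ p + t * (φ q - φ p)) ∧ (∃ p, φ p ≠ 0) ∧
      ∀ u, φ u ≠ 0 → ∀ ψ, ψ ≠ 0 → ψ ᵥ* (y * y') = c i • ψ →
        ψ ⬝ᵥ ((L + (y * u * z' - y * y' * u)) *ᵥ w (c i)) ≠ 0 := by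
    intro i
    by_cases h : ∃ ψ, ψ ≠ 0 ∧ ψ ᵥ* (y * y') = c i • ψ
    swap
    · exact ⟨fun _ => 1, by simp, ⟨0, one_ne_zero⟩, fun _ _ ψ p1 p2 => absurd ⟨ψ, p1, p2⟩ h⟩
    obtain ⟨χ, q1, q2⟩ := h
    refine ⟨fun u => χ ⬝ᵥ ((L + (y * u * z' - y * y' * u)) *ᵥ w (c i)), fun p q t => ?_, ?_,
      fun u hu ψ p1 p2 e => ?_⟩
    · simp only [Matrix.mul_add, Matrix.add_mul, Matrix.mul_sub, Matrix.sub_mul, Matrix.mul_smul,
        Matrix.smul_mul, add_mulVec, sub_mulVec, smul_mulVec, dotProduct_add, dotProduct_sub,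
        dotProduct_smul, smul_eq_mul]
      ring
    · by_contra hc
      push Not at hc
      obtain ⟨ρ, hρ⟩ := exists_dot_ne_zero' (mulVec_ne_zero hz (hw (c i)))
      refine q1 ((hne (c i * (ρ ⬝ᵥ w (c i)) / (ρ ⬝ᵥ z' *ᵥ w (c i)))).left ?_)
      ext j
      have e0 := hc 0
      have e1 := hc (vecMulVec (Pi.single j 1) ρ)
      simp only [Matrix.mul_zero, Matrix.zero_mul, sub_zero, add_zero] at e0
      rw [add_mulVec, dotProduct_add, e0, zero_add, sub_mulVec, dotProduct_sub, ← mulVec_mulVec,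
        ← mulVec_mulVec, ← mulVec_mulVec (w (c i)), dotProduct_mulVec, dotProduct_mulVec χ, q2,
        vecMulVec_mulVec, vecMulVec_mulVec] at e1
      simp only [op_smul_eq_smul, dotProduct_smul, dotProduct_single, smul_dotProduct, smul_eq_mul,
        mul_one, Pi.smul_apply] at e1
      rw [Pi.smul_apply, smul_eq_mul]
      field_simp
      linear_combination e1
    · have h3 : χ ⬝ᵥ v₁ ≠ 0 := fun e => q1 (h1.dot_ne q2 e)
      have h5 := h1.dot_ne (ψ := (χ ⬝ᵥ v₁) • ψ - (ψ ⬝ᵥ v₁) • χ) (c := c i)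
        (by rw [sub_vecMul, smul_vecMul, smul_vecMul, p2, q2]; module)
        (by simp [mul_comm])
      have h6 := congrArg (· ⬝ᵥ ((L + (y * u * z' - y * y' * u)) *ᵥ w (c i))) h5
      simp only [sub_dotProduct, smul_dotProduct, e, smul_eq_mul, mul_zero, zero_sub,
        zero_dotProduct, neg_eq_zero, mul_eq_zero] at h6
      exact p1 (h1.dot_ne p2 (h6.resolve_right hu))
  choose φ k1 k2 k3 using key
  obtain ⟨u, hu⟩ := exists_avoid_affine h4 φ k1 k2
  refine ⟨u, _, cyc_blocks (v₁ := 0) h2 h0 fun d hd ψ p1 p2 => ?_⟩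
  obtain ⟨i, rfl⟩ := hl d hd
  rw [dotProduct_zero, mul_zero, add_zero]
  exact k3 i u (hu i) ψ p1 p2

theorem exists_cyc_of_cyc (h4 : Four F) (hn : 2 ≤ n) {x : Matrix (Fin n) (Fin n) F}
    (hx : x.det ≠ 0) (h : IsCyc x) {κ : F} (hκ : κ ≠ 0) : ∃ y, Cj κ x y ∧ IsCyc (x * y) := by
  obtain ⟨v, hv⟩ := h
  obtain ⟨y, h1, h2⟩ := exists_cyc_mul h4 hn hx hx (a := v) (BX := ∅) (BY := {0})
    (by rw [show gen x.mulVecLin {v} = ⊤ from hv]; exact TF.top) (TF.cyc rfl hv) (by simp) hκ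
  exact ⟨y, h1, v, h2⟩

/-- matrices without eigenvalues -/
theorem exists_cyc_noEig [Fintype F] (h : 4 ≤ Fintype.card F) (n : ℕ) (hn : 1 ≤ n)
    (x : Matrix (Fin n) (Fin n) F) (hne : ∀ c, NE x c) {κ : F} (hκ : κ ≠ 0) :
    ∃ y, Cj κ x y ∧ IsCyc (x * y) := by
  induction n using Nat.strong_induction_on generalizing κ with
  | _ n ih =>
  have h4 := four_of_card h
  have hx : x.det ≠ 0 := by simpa using (hne 0).det
  let v : Fin n → F := Pi.single ⟨0, hn⟩ 1
  have hs : 2 ≤ finrank F (gen x.mulVecLin {v}) :=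
    two_le_finrank_gen fun c e => by simpa [v] using congrFun (hne c v e) ⟨0, hn⟩
  by_cases hZ : gen x.mulVecLin {v} = ⊤
  · exact exists_cyc_of_cyc h4 (by rwa [hZ, finrank_fin] at hs) hx ⟨v, hZ⟩ hκ
  obtain ⟨W, hW⟩ := (gen x.mulVecLin {v}).exists_isCompl
  have h1 := Submodule.finrank_add_eq_of_isCompl hW
  have h2 := Submodule.finrank_lt hZ
  rw [finrank_fin_fun] at h1 h2
  obtain ⟨P, Q, y, K, z, hPQ, hQP, e, p1, -, -⟩ := exists_block x (gen_inv _ _) hW rfl rfl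
  have hd : ∀ c : F, NE y c ∧ NE z c := fun c => by
    have := (hne c).det
    rw [show x - c • 1 = P * fromBlocks (y - c • 1) K 0 (z - c • 1) * Q by
      have : fromBlocks (y - c • 1) K 0 (z - c • 1) = fromBlocks y K 0 z - c • 1 := by
        rw [← fromBlocks_one, fromBlocks_smul, sub_eq_add_neg (fromBlocks _ _ _ _), fromBlocks_neg,
          fromBlocks_add]
        simp [sub_eq_add_neg]
      rw [this, Matrix.mul_sub, ← e, Matrix.sub_mul, Matrix.mul_assoc, hPQ, Matrix.mul_smul,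
        Matrix.mul_one, Matrix.mul_one, Matrix.smul_mul, hPQ],
      det_conj_of_mul_eq_one hPQ hQP, det_fromBlocks_zero₂₁] at this
    exact ⟨NE.of_det (left_ne_zero_of_mul this), NE.of_det (right_ne_zero_of_mul this)⟩
  have hy : IsCyc y := by
    obtain ⟨a, ha⟩ := (p1 v).1 (mem_gen_self _ _)
    let j := P.mulVecLin ∘ₗ (fromRows (y ^ 0) 0).mulVecLin
    have hi : ∀ b, j b = P *ᵥ Sum.elim b 0 := fun b => by simp [j, fromRows_mulVec]
    have := gen_map (A := x.mulVecLin) (A' := y.mulVecLin) (ι := j)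
      (fun b => by
        rw [hi, hi, mulVecLin_apply, mulVec_mulVec, e, ← mulVec_mulVec, fromBlocks_mulVec]
        simp) {a}
    rw [Set.image_singleton, hi, ha] at this
    refine ⟨a, eq_top_iff.2 fun b _ => ?_⟩
    obtain ⟨b', h3, h5⟩ : P *ᵥ Sum.elim b 0 ∈ (gen y.mulVecLin {a}).map j := by
      rw [this]; exact (p1 _).2 ⟨b, rfl⟩
    have h6 := congrArg (fun u => (Q *ᵥ u) ∘ Sum.inl) h5
    simp only [hi, mulVec_mulVec, hQP, one_mulVec, Sum.elim_comp_inl] at h6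
    exact h6 ▸ h3
  obtain ⟨κ₁, y', k1, ⟨g₁, rfl, c1⟩, t1, c, l, t2, t3⟩ := top_block h hs hy fun c => (hd c).1
  obtain ⟨z', ⟨g₂, k2, c2⟩, t4⟩ := ih _ (by omega) (by omega) z (fun c => (hd c).2)
    (div_ne_zero hκ k1)
  have k3 : g₂.det ≠ 0 := k2 ▸ div_ne_zero hκ k1
  obtain ⟨u, v', hu⟩ := couple h4 (by omega) (y * (g₁ * K * g₂⁻¹) + K * z') (fun c => (hd c).1) t1 t4
    (Cj.det_eq ⟨g₂, rfl, c2⟩ k3 ▸ by simpa using ((hd 0).2).det) t2 t3
  have c3 : Cj κ (fromBlocks y K 0 z) (fromBlocks y' (g₁ * K * g₂⁻¹ + (u * z' - y' * u)) 0 z') :=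
    ⟨fromBlocks g₁ (u * g₂) 0 g₂, by rw [det_fromBlocks_zero₂₁, k2]; field_simp, by
      simp only [fromBlocks_multiply, c1, c2, Matrix.mul_zero, Matrix.zero_mul, add_zero, zero_add,
        Matrix.add_mul, Matrix.sub_mul, Matrix.mul_assoc, inv_mul_det k3, Matrix.mul_one]
      congr 1
      abel⟩
  refine ⟨_, c3.rect hPQ hQP e, _, hu.rect hPQ ?_⟩
  rw [Matrix.mul_assoc, Matrix.mul_assoc, hQP, Matrix.mul_one, ← Matrix.mul_assoc, e,
    Matrix.mul_assoc, fromBlocks_multiply]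
  congr 2
  · simp
  · simp only [Matrix.mul_add, Matrix.mul_sub, Matrix.mul_assoc]; abel
  · simp
  · simp

end Cfsg.Agent.Cov
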